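/- Tower DG: counting points, transitivity on pairs of points. -/
import Cfsg.Agent.H53.DGSpec2

set_option autoImplicit false

namespace H53.DG

open Cfsg H28 Matrix Module

variable {F V : Type} [Field F] [AddCommGroup V] [Module F V]

namespace FS

variable (S : FS F V)

/-- The point spanned by a nonzero singular vector. -/
def pt (v : V) (h0 : v ≠ 0) (hQ : S.Q v = 0) : S.Pt := ⟨F ∙ v, finrank_span_singleton h0, fun w hw => by
  obtain ⟨c, rfl⟩ := Submodule.mem_span_singleton.1 hw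
  rw [QuadraticMap.map_smul, hQ, smul_zero]⟩

theorem mem_pt {v : V} {h0 : v ≠ 0} {hQ : S.Q v = 0} {w : V} : w ∈ (S.pt v h0 hQ).1 ↔ ∃ c : F, c • v = w :=
  Submodule.mem_span_singleton

theorem eq_pt (p : S.Pt) {v : V} (hv : v ∈ p.1) (h0 : v ≠ 0) : p = S.pt v h0 (p.2.2 v hv) := by
  have : FiniteDimensional F p.1 := Module.finite_of_finrank_eq_succ p.2.1
  exact Subtype.ext (Submodule.eq_of_le_of_finrank_eq ((Submodule.span_singleton_le_iff_mem _ _).2 hv)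
    ((finrank_span_singleton h0).trans p.2.1.symm)).symm

theorem exists_pt (p : S.Pt) : ∃ v h0 hQ, p = S.pt v h0 hQ := by
  obtain ⟨v, hv, h0⟩ := Submodule.exists_mem_ne_zero_of_ne_bot (p := p.1) fun h => by
    have := p.2.1
    rw [h] at this
    simp at this
  exact ⟨v, h0, _, S.eq_pt p hv h0⟩

theorem pt_eq_iff {v w : V} {h0 : v ≠ 0} {hQ : S.Q v = 0} {h0' : w ≠ 0} {hQ' : S.Q w = 0} :
    S.pt v h0 hQ = S.pt w h0' hQ' ↔ ∃ c : F, c • v = w :=
  ⟨fun h => S.mem_pt.1 (by rw [h]; exact S.mem_pt.2 ⟨1, one_smul _ _⟩), fun h => S.eq_pt _ (S.mem_pt.2 h) h0'⟩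

theorem smul_pt_eq (g : S.I) {v w : V} {h0 : v ≠ 0} {hQ : S.Q v = 0} {h0' : w ≠ 0} {hQ' : S.Q w = 0} {c : F}
    (h : g.1 v = c • w) : g • S.pt v h0 hQ = S.pt w h0' hQ' := by
  have h1 : g.1 v ≠ 0 := g.1.map_ne_zero_iff.2 h0
  rw [S.eq_pt (g • S.pt v h0 hQ) (Submodule.mem_map_of_mem (S.mem_pt.2 ⟨1, one_smul _ _⟩)) h1]
  exact (S.pt_eq_iff.2 ⟨c, h.symm⟩).symm

/-- Counting points by counting vectors. -/
theorem ncard_pt [Fintype F] [Finite V] (A : Set S.Pt) :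
    A.ncard * (Fintype.card F - 1) = {v : V | ∃ h0 hQ, S.pt v h0 hQ ∈ A}.ncard := by
  classical
  have := Fintype.ofFinite A
  let f : {v : V | ∃ h0 hQ, S.pt v h0 hQ ∈ A} → A := fun v =>
    ⟨S.pt v.1 v.2.choose v.2.choose_spec.choose, v.2.choose_spec.choose_spec⟩
  have hf : ∀ p : A, Nat.card {v // f v = p} = Fintype.card F - 1 := fun p => by
    obtain ⟨⟨p, hp⟩, rfl⟩ : ∃ p', p' = p := ⟨p, rfl⟩
    obtain ⟨v, h0, hQ, rfl⟩ := S.exists_pt p
    rw [← Fintype.card_units, ← Nat.card_eq_fintype_card]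
    have hc : ∀ c : Fˣ, S.pt v h0 hQ = S.pt (c.1 • v) (smul_ne_zero c.ne_zero h0)
        (by rw [QuadraticMap.map_smul, hQ, smul_zero]) := fun c => S.pt_eq_iff.2 ⟨c, rfl⟩
    refine (Nat.card_congr (Equiv.ofBijective (fun c : Fˣ => (⟨⟨c.1 • v, _, _, hc c ▸ hp⟩,
      Subtype.ext (hc c).symm⟩ : {w // f w = ⟨_, hp⟩})) ⟨fun c d h => ?_, fun w => ?_⟩)).symm
    · exact Units.ext (smul_left_injective F h0 (congrArg (fun x => x.1.1) h))
    · have hw : S.pt v h0 hQ = S.pt w.1.1 w.1.2.choose w.1.2.choose_spec.choose :=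
        (congrArg Subtype.val w.2).symm
      obtain ⟨c, hc⟩ := S.pt_eq_iff.1 hw
      have h1 : c ≠ 0 := fun h => w.1.2.choose (by rw [← hc, h, zero_smul])
      exact ⟨Units.mk0 c h1, Subtype.ext (Subtype.ext hc)⟩
  rw [← Nat.card_coe_set_eq, ← Nat.card_coe_set_eq, ← Nat.card_congr (Equiv.sigmaFiberEquiv f),
    Nat.card_sigma, Finset.sum_congr rfl fun p _ => hf p, Finset.sum_const, Finset.card_univ, smul_eq_mul,
    Nat.card_eq_fintype_card]

/-- Distinct perpendicular points. -/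
def R (p p' : S.Pt) : Prop := p ≠ p' ∧ ∀ u ∈ p.1, ∀ v ∈ p'.1, S.B u v = 0

theorem R_pt {v w : V} {h0 : v ≠ 0} {hQ : S.Q v = 0} {h0' : w ≠ 0} {hQ' : S.Q w = 0} :
    S.R (S.pt v h0 hQ) (S.pt w h0' hQ') ↔ (¬ ∃ c : F, c • v = w) ∧ S.B v w = 0 := by
  refine and_congr S.pt_eq_iff.not ⟨fun h => h _ (S.mem_pt.2 ⟨1, one_smul _ _⟩) _
    (S.mem_pt.2 ⟨1, one_smul _ _⟩), fun h u hu u' hu' => ?_⟩
  obtain ⟨c, rfl⟩ := S.mem_pt.1 hu
  obtain ⟨d, rfl⟩ := S.mem_pt.1 hu'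
  simp [h]

theorem R_symm (p p' : S.Pt) (h : S.R p p') : S.R p' p :=
  ⟨h.1.symm, fun u hu v hv => by rw [S.symm, h.2 v hv u hu, mul_zero]⟩

theorem R_smul (g : S.I) (p p' : S.Pt) (h : S.R p p') : S.R (g • p) (g • p') :=
  ⟨fun e => h.1 (MulAction.injective g e), by
    rintro _ ⟨u, hu, rfl⟩ _ ⟨v, hv, rfl⟩
    exact (S.I_B g u v).trans (h.2 u hu v hv)⟩

theorem R_smul_iff (g : S.I) (p p' : S.Pt) : S.R (g • p) (g • p') ↔ S.R p p' :=
  ⟨fun h => by simpa using S.R_smul g⁻¹ _ _ h, S.R_smul g p p'⟩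

theorem pt_top [FiniteDimensional F V] : S.PT ⊤ := by
  intro x y x' y' h h' hx hy hx' hy' hB
  have e : ∀ x y : V, S.Q x = 0 → S.Q y = 0 → (∀ c d : Fin 2 → F,
      S.B (Fintype.linearCombination F ![x, y] c) (Fintype.linearCombination F ![x, y] d) =
        (c 0 * d 1 + S.ε * c 1 * d 0) * S.B x y) ∧ ∀ c : Fin 2 → F,
      S.Q (Fintype.linearCombination F ![x, y] c) = S.κ * c 0 * c 1 * S.B x y := fun x y hx hy => by
    refine ⟨fun c d => ?_, fun c => ?_⟩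
    · simp [Fintype.linearCombination_apply, S.B_self, hx, hy, S.symm x y]
      ring
    · simp [Fintype.linearCombination_apply, S.Q_add, QuadraticMap.map_smul, hx, hy]
      ring
  obtain ⟨g, hg⟩ := S.witt (Fintype.linearCombination F ![x, y]) (Fintype.linearCombination F ![x', y'])
    h.fintypeLinearCombination_injective h'.fintypeLinearCombination_injective
    (fun c d => by rw [(e x y hx hy).1, (e x' y' hx' hy').1, hB])
    (fun c => by rw [(e x y hx hy).2, (e x' y' hx' hy').2, hB])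
  exact ⟨g, trivial, by simpa using hg (Pi.single 0 1), by simpa using hg (Pi.single 1 1)⟩

theorem trans_pt [FiniteDimensional F V] (p p' : S.Pt) : ∃ g : S.I, g • p = p' := by
  obtain ⟨v, h0, hQ, rfl⟩ := S.exists_pt p
  obtain ⟨w, h0', hQ', rfl⟩ := S.exists_pt p'
  obtain ⟨g, hg⟩ := S.witt (LinearMap.toSpanSingleton F V v) (LinearMap.toSpanSingleton F V w)
    (smul_left_injective F h0) (smul_left_injective F h0')
    (fun c d => by simp [S.B_self, hQ, hQ']) (fun c => by simp [QuadraticMap.map_smul, hQ, hQ'])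
  exact ⟨g, S.smul_pt_eq g (by simpa using hg 1 : g.1 v = (1 : F) • w)⟩

variable {S} in
theorem PT.pair {G : Subgroup S.I} (hG : S.PT G) (x y x' y' : S.Pt) (h : x ≠ y) (h' : x' ≠ y')
    (hR : S.R x y ↔ S.R x' y') : ∃ g : G, g • x = x' ∧ g • y = y' := by
  obtain ⟨u, u0, uQ, rfl⟩ := S.exists_pt x
  obtain ⟨v, v0, vQ, rfl⟩ := S.exists_pt y
  obtain ⟨u', u0', uQ', rfl⟩ := S.exists_pt x'
  obtain ⟨v', v0', vQ', rfl⟩ := S.exists_pt y'
  have h1 := S.pt_eq_iff.not.1 h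
  have h2 := S.pt_eq_iff.not.1 h'
  rw [S.R_pt, S.R_pt, and_iff_right h1, and_iff_right h2] at hR
  obtain ⟨c, hc, hB⟩ : ∃ c : F, c ≠ 0 ∧ S.B u v = S.B u' (c • v') := by
    by_cases hB : S.B u v = 0
    · exact ⟨1, one_ne_zero, by rw [one_smul, hB, hR.1 hB]⟩
    · have := hR.not.1 hB
      exact ⟨S.B u v / S.B u' v', div_ne_zero hB this, by simp [this]⟩
  obtain ⟨g, hg, e1, e2⟩ := hG u v u' (c • v')
    ((LinearIndependent.pair_iff' u0).2 fun a ha => h1 ⟨a, ha⟩)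
    ((LinearIndependent.pair_iff' u0').2 fun a ha => h2 ⟨c⁻¹ * a, by
      rw [mul_smul, ha, inv_smul_smul₀ hc]⟩) uQ vQ uQ' (by rw [QuadraticMap.map_smul, vQ', smul_zero]) hB
  exact ⟨⟨g, hg⟩, S.smul_pt_eq g (e1.trans (one_smul F _).symm), S.smul_pt_eq g e2⟩

/-- Valency and common neighbours in `S' ⊥ H`. -/
theorem nbrs [Fintype F] [Finite V] {V' : Type} [AddCommGroup V'] [Module F V'] (S' : FS F V')
    (h : (S'.ext 1).Iso S) :
    (∀ x, {y | S.R x y}.ncard * (Fintype.card F - 1) =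
      Fintype.card F * Nat.card {v // v ≠ 0 ∧ S'.Q v = 0}) ∧
    ∀ x y, x ≠ y → ¬ S.R x y → {z | S.R x z ∧ S.R y z}.ncard * (Fintype.card F - 1) =
      Nat.card {v // v ≠ 0 ∧ S'.Q v = 0} := by
  obtain ⟨-, φ, hB, hQ⟩ := h
  have he0 : φ (1, 0, 0) ≠ 0 := φ.map_ne_zero_iff.2 (by simp)
  have hf0 : φ (0, 0, 1) ≠ 0 := φ.map_ne_zero_iff.2 (by simp)
  have heQ : S.Q (φ (1, 0, 0)) = 0 := by simp [hQ]
  have hfQ : S.Q (φ (0, 0, 1)) = 0 := by simp [hQ]
  have hε : S'.ε ≠ 0 := left_ne_zero_of_mul_eq_one S'.ε_mul_self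
  have k1 : ∀ x y : Fin 1 → F, 1 ⬝ᵥ y = 0 ↔ y = 0 := fun x y => by simp [dotProduct, funext_iff]
  have k2 : ∀ x : Fin 1 → F, x 0 • (1 : Fin 1 → F) = x := fun x => by simp [funext_iff]
  have nm : ∀ x y x' y' v, v ≠ 0 → ¬ ∃ c : F, c • φ (x, 0, y) = φ (x', v, y') := by
    rintro x y x' y' v hv ⟨c, hc⟩
    rw [← map_smul] at hc
    exact hv (by simpa using (congrArg (fun w => w.2.1) (φ.injective hc)).symm)
  have tr : ∀ (g : S.I) (x : S.Pt) (A : Set S.Pt), {y | g • y ∈ A}.ncard = A.ncard := fun g x A =>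
    Set.ncard_preimage_of_injective_subset_range (MulAction.injective g)
      (by rw [(MulAction.surjective g).range_eq]; exact Set.subset_univ _)
  refine ⟨fun x => ?_, fun x y hxy hR => ?_⟩
  · obtain ⟨g, hg⟩ := S.trans_pt (S.pt _ he0 heQ) x
    rw [← tr g x, ← hg]
    simp only [Set.mem_ofPred_eq, S.R_smul_iff]
    rw [S.ncard_pt, ← Nat.card_eq_fintype_card, ← Nat.card_prod, ← Nat.card_coe_set_eq]
    refine (Nat.card_congr (Equiv.ofBijective (fun z : F × {v // v ≠ 0 ∧ S'.Q v = 0} =>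
      ⟨φ (z.1 • 1, z.2.1, 0), φ.map_ne_zero_iff.2 (by simp [z.2.2.1]), by simp [hQ, z.2.2.2],
        S.R_pt.2 ⟨nm _ _ _ _ _ z.2.2.1, by simp [hB]⟩⟩) ⟨fun z z' h => ?_, fun w => ?_⟩)).symm
    · have := φ.injective (congrArg Subtype.val h)
      simp only [Prod.mk.injEq, and_true] at this
      exact Prod.ext (by simpa using congrFun this.1 0) (Subtype.ext this.2)
    · obtain ⟨w, h0, hw, hr⟩ := w
      obtain ⟨⟨x, v, y⟩, rfl⟩ := φ.surjective w
      obtain ⟨h1, h2⟩ := S.R_pt.1 hr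
      obtain rfl : y = 0 := (k1 x y).1 (by simpa [hB] using h2)
      refine ⟨(x 0, ⟨v, fun hv => h1 ⟨x 0, ?_⟩, by simpa [hQ] using hw⟩), Subtype.ext (by simp only [k2])⟩
      rw [← map_smul, hv]
      simp [k2]
  · obtain ⟨g, hg, hg'⟩ := S.pt_top.pair (S.pt _ he0 heQ) (S.pt _ hf0 hfQ) x y
      (fun h => by
        obtain ⟨c, hc⟩ := S.pt_eq_iff.1 h
        rw [← map_smul] at hc
        simpa using congrArg (fun w => w.2.2 0) (φ.injective hc)) hxy
      (iff_of_false (fun h => by simpa [hB, dotProduct] using (S.R_pt.1 h).2) hR)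
    rw [← tr g.1 x, ← hg, ← hg']
    simp only [Set.mem_ofPred_eq, Subgroup.smul_def, S.R_smul_iff]
    rw [S.ncard_pt, ← Nat.card_coe_set_eq]
    refine (Nat.card_congr (Equiv.ofBijective (fun z : {v // v ≠ 0 ∧ S'.Q v = 0} =>
      ⟨φ (0, z.1, 0), φ.map_ne_zero_iff.2 (by simp [z.2.1]), by simp [hQ, z.2.2],
        S.R_pt.2 ⟨nm _ _ _ _ _ z.2.1, by simp [hB]⟩, S.R_pt.2 ⟨nm _ _ _ _ _ z.2.1, by simp [hB]⟩⟩)
      ⟨fun z z' h => ?_, fun w => ?_⟩)).symm
    · exact Subtype.ext (by simpa using φ.injective (congrArg Subtype.val h))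
    · obtain ⟨w, h0, hw, hr, hr'⟩ := w
      obtain ⟨⟨x, v, y⟩, rfl⟩ := φ.surjective w
      obtain rfl : y = 0 := (k1 x y).1 (by simpa [hB] using (S.R_pt.1 hr).2)
      obtain rfl : x = 0 := (k1 x x).1 (by simpa [hB, hε] using (S.R_pt.1 hr').2)
      exact ⟨⟨v, fun hv => h0 (by rw [hv]; exact φ.map_zero), by simpa [hQ] using hw⟩, rfl⟩

end FS

end H53.DG
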