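import Cfsg.Agent.H42.SimXBDef
import Cfsg.Agent.H59.Std
import Cfsg.Agent.H57.PslTwist

/-! Tower SIM, chapter XA: definitions and job statements; proofs in `blueprints/SIMXA.md`. -/

set_option autoImplicit false

namespace H53.XA

open Subgroup Cfsg H98 Matrix H0.Sim

section defs

variable {n : ℕ} {F : Type} [Field F]

abbrev ad (q : ℕ) {a b : ℕ} (m : Matrix (Fin a) (Fin b) F) : Matrix (Fin b) (Fin a) F :=
  (m.map (· ^ q))ᵀ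

abbrev Sp (E : Subgroup (GL (Fin n) F)) : Submodule F (Mt n F) := Submodule.span F (mat E)

def Fq (F : Type) [Fintype F] (u : Bool) (q : ℕ) : Prop := Fintype.card F = if u then q ^ 2 else q

/-- An idempotent fixed by the adjoint. -/
structure Ip (u : Bool) (q : ℕ) (f : Mt n F) : Prop where
  sq : f * f = f
  fx : u = true → ad q f = f

/-- The blocks of the span of `E`. -/
def Bl (u : Bool) (q : ℕ) (E : Subgroup (GL (Fin n) F)) : Set (Mt n F) :=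
  {f | f ∈ Sp E ∧ Ip u q f ∧ f ≠ 0 ∧ ∀ e ∈ Sp E, Ip u q e → e * f = e → e = 0 ∨ e = f}

def Sc (m : Mt n F) : Prop := ∃ c : F, m = Matrix.scalar (Fin n) c

structure Fr (u : Bool) (q : ℕ) (f : Mt n F) {b : ℕ} (P : Matrix (Fin n) (Fin b) F)
    (P' : Matrix (Fin b) (Fin n) F) : Prop where
  l : P' * P = 1
  r : P * P' = f
  s : u = true → ad q P = P'

/-- The elements of `Gam` that act on the block `f` only. -/
def Gf (u : Bool) (q : ℕ) (f : Mt n F) : Subgroup (GL (Fin n) F) where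
  carrier := {x | x ∈ Gam n F u q ∧ (1 - f) * (x : Mt n F) = 1 - f ∧ (x : Mt n F) * (1 - f) = 1 - f}
  one_mem' := ⟨one_mem _, by simp, by simp⟩
  mul_mem' := fun {a b} ha hb => ⟨mul_mem ha.1 hb.1,
    by rw [Units.val_mul, ← mul_assoc, ha.2.1, hb.2.1],
    by rw [Units.val_mul, mul_assoc, hb.2.2, ha.2.2]⟩
  inv_mem' := fun {a} ha => ⟨inv_mem ha.1,
    by conv_lhs => rw [← ha.2.1, mul_assoc, Units.mul_inv, mul_one],
    by conv_lhs => rw [← ha.2.2, ← mul_assoc, Units.inv_mul, one_mul]⟩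

/-- The centraliser of `e` in `Gam`. -/
def Cz (u : Bool) (q : ℕ) (e : Mt n F) : Subgroup (GL (Fin n) F) where
  carrier := {x | x ∈ Gam n F u q ∧ (x : Mt n F) * e = e * x}
  one_mem' := ⟨one_mem _, by simp⟩
  mul_mem' := fun {a b} ha hb => ⟨mul_mem ha.1 hb.1,
    by rw [Units.val_mul, mul_assoc, hb.2, ← mul_assoc, ha.2, mul_assoc]⟩
  inv_mem' := fun {a} ha => ⟨inv_mem ha.1, (Commute.units_inv_left (show Commute (a : Mt n F) e from ha.2)).eq⟩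

def Rp (x : GL (Fin n) F) : Prop := (orderOf x).Coprime (ringChar F)

def Sm (u : Bool) (q b : ℕ) : Prop := (b = 2 ∧ q ≤ 3) ∨ (u = true ∧ b = 3 ∧ q = 2)

structure Ab (u : Bool) (q : ℕ) (E : Subgroup (GL (Fin n) F)) : Prop where
  le : E ≤ Gam n F u q
  ab : ∀ a ∈ E, ∀ b ∈ E, a * b = b * a
  rp : ∀ e ∈ E, Rp e

structure Xa [Fintype F] (u : Bool) (q p : ℕ) (Θ : Set (Jm n F)) (H Q E : Subgroup (GL (Fin n) F))
    (g : GL (Fin n) F) : Prop extends Cf u q p Θ H Q E g where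
  np : p ≠ ringChar F
  ab : ∀ a ∈ E, ∀ b ∈ E, a * b = b * a

def Trn (u : Bool) (q : ℕ) (Θ : Set (Jm n F)) (E : Subgroup (GL (Fin n) F)) : Prop :=
  ∀ 𝒮 : Set (Mt n F), 𝒮 ⊆ Bl u q E → Iv Θ 𝒮 → 𝒮 = ∅ ∨ 𝒮 = Bl u q E

/-- At least two blocks, all of rank `b ≥ 2`. -/
structure X2 [Fintype F] (u : Bool) (q p : ℕ) (Θ : Set (Jm n F)) (H Q E : Subgroup (GL (Fin n) F))
    (g : GL (Fin n) F) (b : ℕ) : Prop extends Xa u q p Θ H Q E g where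
  rk : ∀ f ∈ Bl u q E, f.rank = b
  b2 : 2 ≤ b
  n1 : (1 : Mt n F) ∉ Bl u q E
  tr : Trn u q Θ E
  iv : Iv Θ (Bl u q E)
  sh : ∀ f ∈ Bl u q E, Sg n F u q ⊓ Gf u q f ≤ H

def QFix (u : Bool) (q : ℕ) (Q E : Subgroup (GL (Fin n) F)) : Prop :=
  ∀ y ∈ Q, ∀ f ∈ Bl u q E, (y : Mt n F) * f = f * y

def CmB (u : Bool) (q : ℕ) (E : Subgroup (GL (Fin n) F)) (g : GL (Fin n) F) : Prop :=
  ∀ f ∈ Bl u q E, ∀ x ∈ cj g E, ∀ h ∈ Sg n F u q ⊓ Gf u q f, Commute x (h * x * h⁻¹)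

/-! ### Kit -/

theorem Cf0.st [Fintype F] {u : Bool} {q p : ℕ} {Θ : Set (Jm n F)} {H Q E : Subgroup (GL (Fin n) F)}
    (c : Cf0 u q p Θ H Q E) {X : Set (Mt n F)} (hX : Iv Θ X) {h : GL (Fin n) F} (hh : h ∈ H) :
    St h X := fun m hm => by
  have := hX _ (c.inn h hh) m hm
  simpa [th] using this

section ad
variable [Fintype F] {q : ℕ} (hF : Fintype.card F = q ^ 2) {a b c : ℕ}
include hF

theorem ad_eq (m : Matrix (Fin a) (Fin b) F) : ad q m = (m.map (H59.frob hF))ᵀ := rfl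
theorem ad_mul (x : Matrix (Fin a) (Fin b) F) (y : Matrix (Fin b) (Fin c) F) :
    ad q (x * y) = ad q y * ad q x := by simp only [ad_eq hF, Matrix.map_mul, transpose_mul]
theorem ad_add (x y : Matrix (Fin a) (Fin b) F) : ad q (x + y) = ad q x + ad q y := by
  ext i j; exact (H59.frob hF).map_add _ _
theorem ad_sub (x y : Matrix (Fin a) (Fin b) F) : ad q (x - y) = ad q x - ad q y := by
  ext i j; exact (H59.frob hF).map_sub _ _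
theorem ad_smul (t : F) (x : Matrix (Fin a) (Fin b) F) : ad q (t • x) = t ^ q • ad q x := by
  ext i j; exact mul_pow _ _ _
theorem ad_zero : ad q (0 : Matrix (Fin a) (Fin b) F) = 0 := by
  ext i j; exact (H59.frob hF).map_zero
theorem ad_one : ad q (1 : Matrix (Fin a) (Fin a) F) = 1 := by
  rw [ad_eq hF, Matrix.map_one _ (map_zero _) (map_one _), transpose_one]
theorem ad_ad (x : Matrix (Fin a) (Fin b) F) : ad q (ad q x) = x := by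
  ext i j; exact H59.pow_q_pow_q hF _
theorem mem_gu {x : GL (Fin a) F} : x ∈ Gam a F true q ↔ ad q (x : Mt a F) * x = 1 := by
  have h := H57.mem_GU_iff (RingEquiv.ofBijective (H59.frob hF)
    (Finite.injective_iff_bijective.1 (H59.frob hF).injective)) (fun _ => rfl) x
  refine h.trans ⟨fun e => ?_, fun e => ?_⟩
  · have := congrArg Matrix.transpose e
    rwa [transpose_mul, transpose_transpose, transpose_one] at this
  · have := congrArg Matrix.transpose e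
    rwa [transpose_mul, transpose_transpose, transpose_one] at this
end ad

end defs

/-! ### Jobs: matrices -/

def TH : Prop := ∀ (n : ℕ) (F : Type) [Field F] [Fintype F] (u : Bool) (q : ℕ) (j : Jm n F),
  Fq F u q → Ok u q j → Function.Bijective (th j) ∧ (∀ a b, th j (a + b) = th j a + th j b) ∧
    (∀ (c : F) m, th j (c • m) = j.σ c • th j m) ∧ th j 1 = 1 ∧
    (∀ a b, th j (a * b) = if j.a then th j b * th j a else th j a * th j b) ∧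
    (u = true → ∀ m, th j (ad q m) = ad q (th j m)) ∧ ∀ m, (th j m).rank = m.rank

def ZS : Prop := ∀ (n : ℕ) (F : Type) [Field F] (u : Bool) (q : ℕ) (z : GL (Fin n) F),
  z ∈ Zg n F u q ↔ z ∈ Gam n F u q ∧ Sc (z : Mt n F)

def RP : Prop := ∀ (n : ℕ) (F : Type) [Field F] [Fintype F] (u : Bool) (q p : ℕ) (Θ : Set (Jm n F))
  (H Q E : Subgroup (GL (Fin n) F)) (g : GL (Fin n) F), Xa u q p Θ H Q E g →
  Ab u q E ∧ Ab u q (cj g E) ∧ (∀ y ∈ Q, Rp y) ∧ (∃ e ∈ E, ¬ Sc (e : Mt n F)) ∧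
    H ≤ normalizer (Q : Set (GL (Fin n) F)) ∧ H ≤ normalizer (E : Set (GL (Fin n) F))

def RED : Prop := ∀ (n : ℕ) (F : Type) [Field F] [Fintype F] (u : Bool) (q : ℕ)
  (E : Subgroup (GL (Fin n) F)), Fq F u q → Ab u q E →
  (∀ a ∈ Sp E, ∀ b ∈ Sp E, a * b ∈ Sp E ∧ a * b = b * a) ∧ (1 : Mt n F) ∈ Sp E ∧
    (u = true → ∀ a ∈ Sp E, ad q a ∈ Sp E) ∧ ∃ K : ℕ, 1 ≤ K ∧ ∀ m ∈ Sp E, m ^ (K + 1) = m

open Classical in
def BK : Prop := ∀ (n : ℕ) (F : Type) [Field F] [Fintype F] (u : Bool) (q : ℕ)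
  (E : Subgroup (GL (Fin n) F)), Fq F u q → Ab u q E →
  (∀ f ∈ Bl u q E, ∀ f' ∈ Bl u q E, f ≠ f' → f * f' = 0) ∧
    (∀ e ∈ Sp E, Ip u q e → e ≠ 0 → ∃ f ∈ Bl u q E, f * e = f ∧ e * f = f) ∧
    (∀ 𝒮 : Finset (Mt n F), ↑𝒮 ⊆ Bl u q E → (∑ f ∈ 𝒮, f) ∈ Sp E ∧ Ip u q (∑ f ∈ 𝒮, f) ∧
      ∀ f ∈ Bl u q E, f * (∑ f ∈ 𝒮, f) = if f ∈ 𝒮 then f else 0) ∧
    ∃ 𝒯 : Finset (Mt n F), ↑𝒯 = Bl u q E ∧ ∑ f ∈ 𝒯, f = 1

def BC : Prop := ∀ (n : ℕ) (F : Type) [Field F] [Fintype F] (u : Bool) (q : ℕ)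
  (E : Subgroup (GL (Fin n) F)) (g : GL (Fin n) F), Fq F u q → g ∈ Gam n F u q →
  (∀ f' ∈ Bl u q (cj g E), ∃ f ∈ Bl u q E,
    f' = (g : Mt n F) * f * ((g⁻¹ : GL (Fin n) F) : Mt n F) ∧ f'.rank = f.rank) ∧
  ∀ (f : Mt n F) (h : GL (Fin n) F),
    h ∈ Sg n F u q ⊓ Gf u q ((g : Mt n F) * f * ((g⁻¹ : GL (Fin n) F) : Mt n F)) →
    g⁻¹ * h * g ∈ Sg n F u q ⊓ Gf u q f

def RK : Prop := ∀ (n : ℕ) (F : Type) [Field F],
  (∀ e f : Mt n F, e * e = e → f * f = f → e * f = 0 → f * e = 0 →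
    (e + f).rank = e.rank + f.rank) ∧
  (∀ 𝒮 : Finset (Mt n F), (∀ f ∈ 𝒮, f * f = f) → (∀ f ∈ 𝒮, ∀ f' ∈ 𝒮, f ≠ f' → f * f' = 0) →
    (∑ f ∈ 𝒮, f).rank = ∑ f ∈ 𝒮, f.rank) ∧
  (∀ e f : Mt n F, e * e = e → f * f = f → e * f = e → f * e = e → e.rank = f.rank → e = f) ∧
  (∀ f : Mt n F, f.rank = 0 → f = 0) ∧
  ∀ f : Mt n F, f * f = f → f.rank = 1 → ∀ m : Mt n F, ∃ c : F, f * m * f = c • f

def FR : Prop := ∀ (n : ℕ) (F : Type) [Field F] [Fintype F] (u : Bool) (q b : ℕ) (f : Mt n F),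
  Fq F u q → Ip u q f → f.rank = b →
  ∃ (P : Matrix (Fin n) (Fin b) F) (P' : Matrix (Fin b) (Fin n) F), Fr u q f P P'

def EMB : Prop := ∀ (n : ℕ) (F : Type) [Field F] [Fintype F] (u : Bool) (q b : ℕ) (f : Mt n F)
  (P : Matrix (Fin n) (Fin b) F) (P' : Matrix (Fin b) (Fin n) F), Fq F u q → Fr u q f P P' →
  ∃ φ : Gam b F u q ≃* Gf u q f, ∀ x : Gam b F u q,
    ((φ x : GL (Fin n) F) : Mt n F) = 1 - f + P * ((x : GL (Fin b) F) : Mt b F) * P' ∧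
    ((φ x : GL (Fin n) F) ∈ Sg n F u q ↔ (x : GL (Fin b) F) ∈ Sg b F u q)

/-- The part of `y` on the block `f`. -/
def PT : Prop := ∀ (n : ℕ) (F : Type) [Field F] [Fintype F] (u : Bool) (q : ℕ) (f : Mt n F),
  Fq F u q → Ip u q f → Ip u q (1 - f) ∧ (∃ π : Cz u q f →* Gf u q f, ∀ y : Cz u q f,
    ((π y : GL (Fin n) F) : Mt n F) = ((y : GL (Fin n) F) : Mt n F) * f + (1 - f)) ∧
  Gf u q f ≤ Cz u q f ∧ Gf u q (1 - f) ≤ Cz u q f ∧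
  Cz u q f ≤ normalizer (Gf u q f : Set (GL (Fin n) F)) ∧
  Nat.card (Cz u q f) ≤ Nat.card (Gf u q f) * Nat.card (Gf u q (1 - f))

def NS : Prop := ∀ (n : ℕ) (F : Type) [Field F] [Fintype F] (u : Bool) (q : ℕ) (X : Set (Mt n F)),
  Par n F u q → (∃ y ∈ Gam n F u q, ¬ Sc (y : Mt n F) ∧ ∀ m ∈ X, (y : Mt n F) * m = m * y) →
  (∃ m ∈ X, ¬ Sc m) → ∃ s ∈ Sg n F u q, ¬ St s X

def SW : Prop := ∀ (n : ℕ) (F : Type) [Field F] [Fintype F] (u : Bool) (q : ℕ) (e e' : Mt n F),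
  Fq F u q → Ip u q e → Ip u q e' → e * e' = 0 → e' * e = 0 → e.rank = e'.rank →
  ∃ s ∈ Sg n F u q, (s : Mt n F) * e * ((s⁻¹ : GL (Fin n) F) : Mt n F) = e' ∧
    (s : Mt n F) * e' * ((s⁻¹ : GL (Fin n) F) : Mt n F) = e ∧
    ∀ m : Mt n F, m * e = 0 → e * m = 0 → m * e' = 0 → e' * m = 0 →
      (s : Mt n F) * m * ((s⁻¹ : GL (Fin n) F) : Mt n F) = m

def UNI : Prop := ∀ (b : ℕ) (F : Type) [Field F] [Fintype F] (u : Bool) (q : ℕ), Fq F u q → 2 ≤ b →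
  ∃ w ∈ Sg b F u q, w ≠ 1 ∧ w ^ ringChar F = 1

def CARD : Prop := ∀ (F : Type) [Field F] [Fintype F] (u : Bool) (q : ℕ), Fq F u q → 2 ≤ q ∧
  (q ≤ 3 → Nat.card (Gam 1 F u q) ≤ 4 ∧ Nat.card (Gam 2 F u q) ≤ 96) ∧
  (q = 2 → Nat.card (Gam 2 F u q) ≤ 18 ∧ Nat.card (Gam 3 F u q) ≤ 648)

def CP2 : Prop := ∀ (F : Type) [Field F] [Fintype F] (u : Bool) (d : GL (Fin 2) F), Fq F u 3 →
  Rp d → (∀ h ∈ Sg 2 F u 3, Commute d (h * d * h⁻¹)) → Sc (d : Mt 2 F)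

def CP3 : Prop := ∀ (F : Type) [Field F] [Fintype F] (d : GL (Fin 3) F), Fq F true 2 →
  d ∈ Gam 3 F true 2 → Rp d → (∀ h ∈ Sg 3 F true 2, Commute d (h * d * h⁻¹)) → Sc (d : Mt 3 F)

def C22 : Prop := ∀ (F : Type) [Field F] [Fintype F] (d d' : GL (Fin 2) F), Fintype.card F = 2 →
  Rp d → Rp d' → d ≠ 1 → ∃ a c : F, (d' : Mt 2 F) = a • (1 : Mt 2 F) + c • (d : Mt 2 F)

def PRT : Prop := ∀ (n : ℕ) (F : Type) [Field F] [Fintype F] (u : Bool) (q : ℕ) (f : Mt n F)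
  (y : GL (Fin n) F), Fq F u q → Ip u q f → y ∈ Cz u q f → Rp y →
  (((f.rank = 2 ∧ q = 3) ∨ (u = true ∧ f.rank = 3 ∧ q = 2)) →
    (∀ h ∈ Sg n F u q ⊓ Gf u q f, Commute y (h * y * h⁻¹)) → ∃ c : F, (y : Mt n F) * f = c • f) ∧
  (u = false → q = 2 → f.rank = 2 → (y : Mt n F) * f ≠ f → ∀ y' ∈ Cz u q f, Rp y' →
    ∃ a c : F, (y' : Mt n F) * f = a • f + c • ((y : Mt n F) * f))

def A4a : Prop := ∀ (n : ℕ) (F : Type) [Field F] [Fintype F] (q : ℕ) (e : Mt n F), Fq F true q →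
  e * e = e → ad q e = 1 - e → 2 * e.rank = n ∧ Nonempty (Cz true q e ≃* GL (Fin e.rank) F)

def B1 : Prop := ∀ (n : ℕ) (F : Type) [Field F] [Fintype F] (u : Bool) (q : ℕ)
  (E : Subgroup (GL (Fin n) F)), Fq F u q → Ab u q E → (∀ f ∈ Bl u q E, f.rank = 1) →
  ∃ f : Fin n → Mt n F, (∀ i, f i * f i = f i) ∧ (∀ i j, i ≠ j → f i * f j = 0) ∧ (∀ i, f i ≠ 0) ∧
    ∑ i, f i = 1 ∧ (u = true → ∀ i, ((f i).map (· ^ q))ᵀ = f i) ∧
    Submodule.span F (mat E) = Submodule.span F (Set.range f)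

/-! ### Jobs: the configuration -/

def NCF : Prop := ∀ (n : ℕ) (F : Type) [Field F] [Fintype F] (u : Bool) (q p : ℕ)
  (Θ : Set (Jm n F)) (H Q E : Subgroup (GL (Fin n) F)) (f : Mt n F), Cf0 u q p Θ H Q E →
  Ip u q f → Q ≤ Cz u q f → Sg n F u q ⊓ Gf u q f ≤ H → f.rank ≤ 1 ∨ Sm u q f.rank

def BI : Prop := ∀ (n : ℕ) (F : Type) [Field F] [Fintype F] (u : Bool) (q p : ℕ) (Θ : Set (Jm n F))
  (H Q E : Subgroup (GL (Fin n) F)) (g : GL (Fin n) F), Xa u q p Θ H Q E g →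
  Iv Θ (Sp E : Set (Mt n F)) ∧ Iv Θ (Bl u q E) ∧ (∀ j ∈ Θ, ∀ m ∈ mat E, ∃ m₀ ∈ mat E, th j m₀ = m) ∧
    ((∀ e ∈ Sp E, Ip u q e → Iv Θ {e} → e = 0 ∨ e = 1) → Trn u q Θ E ∧
      ∃ b, 1 ≤ b ∧ ∀ f ∈ Bl u q E, f.rank = b)

def END : Prop := ∀ (n : ℕ) (F : Type) [Field F] [Fintype F] (u : Bool) (q p : ℕ)
  (Θ : Set (Jm n F)) (H Q E : Subgroup (GL (Fin n) F)) (g : GL (Fin n) F), Xa u q p Θ H Q E g →
  ¬ ∀ x ∈ cj g E, (x : Mt n F) ∈ Sp E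

def A1a : Prop := ∀ (n : ℕ) (F : Type) [Field F] [Fintype F] (u : Bool) (q p : ℕ)
  (Θ : Set (Jm n F)) (H Q E : Subgroup (GL (Fin n) F)) (g : GL (Fin n) F) (e : Mt n F),
  Xa u q p Θ H Q E g → e ∈ Sp E → Ip u q e → e ≠ 0 → e ≠ 1 → Iv Θ {e} →
  H ≤ Cz u q e ∧ e.rank ≠ (1 - e).rank ∧ (e.rank ≤ 1 ∨ Sm u q e.rank) ∧
    ((1 - e).rank ≤ 1 ∨ Sm u q (1 - e).rank)

def A1b : Prop := ∀ (n : ℕ) (F : Type) [Field F] [Fintype F] (u : Bool) (q : ℕ)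
  (H : Subgroup (GL (Fin n) F)) (e : Mt n F), Fq F u q → Ip u q e → e ≠ 0 → e ≠ 1 →
  H ≤ Cz u q e → e.rank ≠ (1 - e).rank → (e.rank ≤ 1 ∨ Sm u q e.rank) →
  ((1 - e).rank ≤ 1 ∨ Sm u q (1 - e).rank) → Small u q H

def T1 : Prop := ∀ (n : ℕ) (F : Type) [Field F] [Fintype F] (u : Bool) (q p : ℕ) (Θ : Set (Jm n F))
  (H Q E : Subgroup (GL (Fin n) F)) (g : GL (Fin n) F), Xa u q p Θ H Q E g →
  (1 : Mt n F) ∈ Bl u q E → (∀ m ∈ Sp E, m ≠ 0 → IsUnit m) ∨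
    (u = true ∧ ∃ e ∈ Sp E, e * e = e ∧ ad q e = 1 - e ∧ Iv Θ {e, 1 - e})

def A4b : Prop := ∀ (n : ℕ) (F : Type) [Field F] [Fintype F] (q p : ℕ) (Θ : Set (Jm n F))
  (H Q E : Subgroup (GL (Fin n) F)) (g : GL (Fin n) F) (e : Mt n F), Xa true q p Θ H Q E g →
  e ∈ Sp E → e * e = e → ad q e = 1 - e → ¬ Iv Θ {e, 1 - e}

def MK2 : Prop := ∀ (n : ℕ) (F : Type) [Field F] [Fintype F] (u : Bool) (q p : ℕ)
  (Θ : Set (Jm n F)) (H Q E : Subgroup (GL (Fin n) F)) (g : GL (Fin n) F), Xa u q p Θ H Q E g →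
  (1 : Mt n F) ∉ Bl u q E → ∀ f ∈ Bl u q E, Sg n F u q ⊓ Gf u q f ≤ H

def QF : Prop := ∀ (n : ℕ) (F : Type) [Field F] [Fintype F] (u : Bool) (q p : ℕ) (Θ : Set (Jm n F))
  (H Q E : Subgroup (GL (Fin n) F)) (g : GL (Fin n) F) (b : ℕ), X2 u q p Θ H Q E g b → QFix u q Q E

def A2U : Prop := ∀ (n : ℕ) (F : Type) [Field F] [Fintype F] (p : ℕ) (Θ : Set (Jm n F))
  (H Q E : Subgroup (GL (Fin n) F)) (g : GL (Fin n) F), ¬ X2 true 2 p Θ H Q E g 2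

/-- The rank one idempotents under a block of `GU₂(2)`. -/
def U22 : Prop := ∀ (n : ℕ) (F : Type) [Field F] [Fintype F] (f : Mt n F), Fq F true 2 →
  Ip true 2 f → f.rank = 2 → (∃ y ∈ Gam n F true 2, ∃ ω : F, ω ≠ 1 ∧ (y : Mt n F) = ω • f + (1 - f)) ∧
    ∃ ε : Mt n F, Ip true 2 ε ∧ ε.rank = 1 ∧ ε * f = ε ∧ f * ε = ε ∧ Ip true 2 (f - ε) ∧
      (f - ε).rank = 1 ∧
      ∀ δ : Mt n F, Ip true 2 δ → δ.rank = 1 → δ * f = δ → f * δ = δ → δ = ε ∨ δ = f - ε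

def A23 : Prop := ∀ (n : ℕ) (F : Type) [Field F] [Fintype F] (u : Bool) (q p : ℕ)
  (Θ : Set (Jm n F)) (H Q E : Subgroup (GL (Fin n) F)) (g : GL (Fin n) F) (b : ℕ),
  X2 u q p Θ H Q E g b → QFix u q Q E → CmB u q E g

def A24 : Prop := ∀ (n : ℕ) (F : Type) [Field F] [Fintype F] (u : Bool) (q p : ℕ)
  (Θ : Set (Jm n F)) (H Q E : Subgroup (GL (Fin n) F)) (g : GL (Fin n) F) (b : ℕ),
  X2 u q p Θ H Q E g b → QFix u q Q E → CmB u q E g → Sm u q b → u = true ∧ q = 2 ∧ b = 2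

def JRP : Prop := ZS ∧ RP
def JBK : Prop := RED → BK
def JNS : Prop := ZS → NS
def JSW : Prop := FR → SW
def JCP2 : Prop := UNI → CP2
def JPRT : Prop := FR → EMB → PT → CP2 → CP3 → C22 → PRT
def JA4a : Prop := FR → RK → A4a
def JB1 : Prop := RED → BK → RK → B1
def JNCF : Prop := FR → EMB → PT → NCF
def JBI : Prop := TH → RP → RED → BK → RK → BI
def JEND : Prop := RP → RED → NS → BI → END
def JA1a : Prop := TH → RP → RED → PT → NS → SW → NCF → A1a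
def JA1b : Prop := RK → FR → EMB → PT → CARD → A1b
def JT1 : Prop := TH → RP → RED → BI → T1
def JA4b : Prop := RP → RED → NS → A4a → CARD → A4b
def JMK2 : Prop := RP → RED → BK → NS → BI → MK2
def JQF : Prop := RP → BK → FR → EMB → UNI → QF
def JU22 : Prop := FR → RK → U22
def JA2U : Prop := TH → RP → RED → BK → NS → SW → U22 → A2U
def JA23 : Prop := RP → RED → BK → BC → RK → PT → A23
def JA24 : Prop := TH → RP → RED → BK → CARD → BI → PRT → END → A24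

theorem xa_of (rp : RP) (bk : BK) (bi : BI) (a1a : A1a) (a1b : A1b) (b1 : B1) (t1 : T1) (a4 : A4b)
    (mk : MK2) (qf : QF) (ncf : NCF) (a2u : A2U) (a23 : A23) (a24 : A24) (a3 : H42.SX.A3)
    (a5 : H42.SX.A5) : JobXA := by
  intro n F _ _ u q p Θ H Q E g c np ab
  have x : Xa u q p Θ H Q E g := ⟨c, np, ab⟩
  have fq : Fq F u q := c.par.card
  have hE := (rp n F u q p Θ H Q E g x).1
  by_cases h1 : ∀ e ∈ Sp E, Ip u q e → Iv Θ {e} → e = 0 ∨ e = 1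
  swap
  · push Not at h1
    obtain ⟨e, e1, e2, e3, e4, e5⟩ := h1
    obtain ⟨k1, k2, k3, k4⟩ := a1a n F u q p Θ H Q E g e x e1 e2 e4 e5 e3
    exact a1b n F u q H e fq e2 e4 e5 k1 k2 k3 k4
  obtain ⟨-, iv, -, k⟩ := bi n F u q p Θ H Q E g x
  obtain ⟨tr, b, b0, rk⟩ := k h1
  rcases b0.eq_or_lt with rfl | b2
  · obtain ⟨f, f1, f2, f3, f4, f5, f6⟩ := b1 n F u q E fq hE rk
    exact a3 n F u q p Θ H Q E g c np ab f f1 f2 f3 f4 f5 f6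
  by_cases n1 : (1 : Mt n F) ∈ Bl u q E
  · rcases t1 n F u q p Θ H Q E g x n1 with k | ⟨rfl, e, e1, e2, e3, e4⟩
    · exact a5 n F u q p Θ H Q E g c np ab k
    · exact absurd e4 (a4 n F q p Θ H Q E g e x e1 e2 e3)
  have x2 : X2 u q p Θ H Q E g b := ⟨x, rk, b2, n1, tr, iv, mk n F u q p Θ H Q E g x n1⟩
  have hq := qf n F u q p Θ H Q E g b x2
  obtain ⟨𝒯, hT, hs⟩ := (bk n F u q E fq hE).2.2.2
  obtain ⟨f, hf⟩ : 𝒯.Nonempty := by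
    refine Finset.nonempty_iff_ne_empty.2 fun e => ?_
    rw [e, Finset.sum_empty] at hs
    have : NeZero n := ⟨by have := c.par.two; omega⟩
    exact zero_ne_one hs
  have hf' : f ∈ Bl u q E := hT ▸ Finset.mem_coe.2 hf
  have := ncf n F u q p Θ H Q E f c.toCf0 hf'.2.1
    (fun y hy => ⟨c.HG (c.QH hy), hq y hy f hf'⟩) (x2.sh f hf')
  rw [rk f hf'] at this
  obtain ⟨rfl, rfl, rfl⟩ := a24 n F u q p Θ H Q E g b x2 hq (a23 n F u q p Θ H Q E g b x2 hq)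
    (this.resolve_left (by omega))
  exact absurd x2 (a2u n F p Θ H Q E g)

end H53.XA
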