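import Cfsg.Agent.H91.CL3Spec
import Cfsg.Agent.H29.Burnside

/-! CL3 tower (row S3621), chapter 3, the part on the `𝔽₂`-space `E / Kˣ`.
Notes: `blueprints/CL3F.md`. -/

set_option autoImplicit false
set_option linter.unusedSectionVars false

namespace H53.F2

open Subgroup H91.CL

section defs

variable {W X : Type} [AddCommGroup W] [Group X] [DistribMulAction X W]

/-- `M` is a maximal isotropic subgroup of good vectors. -/
structure MaxG (B : W →+ W →+ ZMod 2) (Gd : Set W) (M : AddSubgroup W) : Prop where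
  gd : ∀ m ∈ M, m ∈ Gd
  iso : ∀ m ∈ M, ∀ m' ∈ M, B m m' = 0
  max : ∀ w ∈ Gd, (∀ m ∈ M, B m w = 0) → w ∈ M

/-- `X = Y Z`. -/
def Fac (Y Z : Subgroup X) : Prop := ∀ x, ∃ y ∈ Y, y⁻¹ * x ∈ Z

/-- What the pair `v₀`, `∑ s ∈ S, t_s v₀` gives (`v₀` a common eigenvector of `M`). -/
def Col (B : W →+ W →+ ZMod 2) (Y : Subgroup X) (M : AddSubgroup W) : Prop :=
  ∀ S : Set W, (∀ v ∈ S, ∀ w ∈ S, (∀ m ∈ M, B m v = B m w) → v = w) →
    ∃ Z : Subgroup X, Fac Y Z ∧ ∀ z ∈ Z, (∀ m ∈ M, z • m ∈ M) ∧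
      (∀ w ∈ S, ∃ w' ∈ S, z • w - w' ∈ M) ∧ ((∀ w, z • w - w ∈ M) → ∀ a b c, a ∈ S → a + b ∈ S →
        a + c ∈ S → a + b + c ∈ S → B (z • b - b) c = 0)

/-- `Q` is an invariant quadratic form with polar form `B`; good means singular. -/
structure Quad (X : Type) [Group X] [DistribMulAction X W] (B : W →+ W →+ ZMod 2) (Gd : Set W)
    (Q : W → ZMod 2) : Prop where
  add : ∀ v w, Q (v + w) = Q v + Q w + B v w
  gd : ∀ w, w ∈ Gd ↔ Q w = 0
  inv : ∀ (x : X) w, Q (x • w) = Q w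

/-- The setting. -/
structure St (B : W →+ W →+ ZMod 2) (Gd : Set W) (Y : Subgroup X) : Prop where
  two : ∀ w : W, w + w = 0
  alt : ∀ w, B w w = 0
  nd : ∀ w, (∀ v, B v w = 0) → w = 0
  inv : ∀ (x : X) v w, B (x • v) (x • w) = B v w
  sol : Group.IsSolvable Y
  irr : ∀ U : AddSubgroup W, (∀ y ∈ Y, ∀ w ∈ U, y • w ∈ U) → U = ⊥ ∨ U = ⊤
  col : ∀ M, MaxG B Gd M → Col B Y M

end defs

/-- The statement delivered to chapter 3 (the action need not be faithful). -/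
def JobF2 : Prop := ∀ (W X : Type) [AddCommGroup W] [Finite W] [Group X] [Finite X]
  [DistribMulAction X W] (B : W →+ W →+ ZMod 2) (Gd : Set W) (Y : Subgroup X), St B Gd Y →
  ((Gd = Set.univ ∧ Nat.card W ≠ 64) ∨ ∃ Q, Quad X B Gd Q) → SolOn X W

/-- A statement in the faithful setting. -/
def AllF (P : ∀ (W X : Type) [AddCommGroup W] [Group X] [DistribMulAction X W],
    (W →+ W →+ ZMod 2) → Set W → Subgroup X → Prop) : Prop :=
  ∀ (W X : Type) [AddCommGroup W] [Finite W] [Group X] [Finite X] [DistribMulAction X W]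
    [FaithfulSMul X W] (B : W →+ W →+ ZMod 2) (Gd : Set W) (Y : Subgroup X), St B Gd Y →
    P W X B Gd Y

/-- A minimal normal subgroup of `Y`. -/
def JobMN : Prop := AllF fun W X _ _ _ _ _ Y => 2 < Nat.card W → ∃ (l : ℕ) (R : Subgroup X),
  l.Prime ∧ R ≤ Y ∧ R ≠ ⊥ ∧ (∀ y ∈ Y, ∀ r ∈ R, y * r * y⁻¹ ∈ R) ∧
  (∀ r ∈ R, ∀ s ∈ R, r * s = s * r) ∧ (∀ r ∈ R, r ^ l = 1) ∧
  ∀ T : Set W, 0 ∈ T → (∀ y ∈ Y, ∀ w ∈ T, y • w ∈ T) → Nat.card T ≡ 1 [MOD l]

def JobS8 : Prop := JobMN → AllF fun W X _ _ _ B Gd Y => ∀ Q, Quad X B Gd Q → Nat.card W = 256 →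
  Nat.card Gd = 120 → ∀ r : ℕ, r.Prime → r ∣ Nat.card Y → r = 2 ∨ r = 17

def JobS6 : Prop := JobMN → AllF fun W X _ _ _ B Gd Y => ∀ Q, Quad X B Gd Q → Nat.card W = 64 →
  Nat.card Gd = 36 → Y.index ≤ 6

section data

variable {N : Type} [AddCommGroup N]

/-- `U` is small. -/
structure Sm (U : Set N) : Prop where
  zero : 0 ∉ U
  gen : ∀ (p : N) (L : AddSubgroup N), (∀ a, a ∉ U → a ≠ p → a ∈ L) → L = ⊤
  pl : ∀ β : N →+ N →+ ZMod 2,
    (∀ a b c, a ∉ U → a + b ∉ U → a + c ∉ U → a + b + c ∉ U → β b c = 0) → β = 0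

/-- A property of the order of every group that stabilises `U`. -/
def Stab (U : Set N) (P : ℕ → Prop) : Prop :=
  ∀ (Z : Type) [Group Z] [Finite Z] [DistribMulAction Z N] [FaithfulSMul Z N],
    (∀ (z : Z), ∀ u ∈ U, z • u ∈ U) → P (Nat.card Z)

end data

/-- A statement on elementary abelian `2`-groups. -/
def AllN (P : ∀ (N : Type) [AddCommGroup N], Prop) : Prop :=
  ∀ (N : Type) [AddCommGroup N] [Finite N], (∀ a : N, a + a = 0) → P N

def JobD5 : Prop := AllN fun N _ => 32 ≤ Nat.card N →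
  ∃ U : Set N, U.Nonempty ∧ Sm U ∧ Stab U (· ≤ 4)

def JobD4 : Prop := AllN fun N _ => Nat.card N = 16 →
  ∃ U : Set N, U.Nonempty ∧ Sm U ∧ Stab U (· ∣ 12)

def JobDA : Prop := AllN fun N _ => Nat.card N ≤ 16 →
  (∃ U : Set N, 0 ∈ U ∧ Stab U fun n => ∃ a, n = 2 ^ a) ∧
    (Nat.card N ≤ 4 → Stab (∅ : Set N) (· ∣ 6))

section kit

variable {X : Type} [Group X] {Y Z : Subgroup X}

theorem Fac.index_dvd (h : Fac Y Z) : Y.index ∣ Nat.card Z := by
  have : MulAction.IsPretransitive Z (X ⧸ Y) := MulAction.IsPretransitive.of_orbit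
    (x₀ := ((1 : X) : X ⧸ Y)) fun q => QuotientGroup.induction_on q fun x => by
      obtain ⟨y, hy, hz⟩ := h x⁻¹
      exact ⟨⟨_, inv_mem hz⟩, QuotientGroup.eq.2 (by simpa using hy)⟩
  rw [index, ← MulAction.index_stabilizer_of_transitive Z ((1 : X) : X ⧸ Y)]
  exact index_dvd_card _

theorem solv_of_index [Finite X] (hY : Group.IsSolvable Y) (h : Y.index ≤ 4) :
    Group.IsSolvable X := by
  classical
  have := Fintype.ofFinite (X ⧸ Y)
  refine SolMod.solvable Y ((SolMod.of_hom (MulAction.toPermHom X (X ⧸ Y))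
    (H29.isSolvable_of_card_dvd_pow_mul_pow (p := 2) (q := 3) (a := 3) (b := 1) Nat.prime_two
      Nat.prime_three ?_)).mono fun a e => ?_) hY
  · rw [Nat.card_perm]
    exact Nat.factorial_dvd_factorial h
  · simpa using QuotientGroup.eq.1 (congrArg (· ((1 : X) : X ⧸ Y)) e).symm

end kit

end H53.F2
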