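import Cfsg.Agent.H42.IVSpec

/-! A degree bound for abelian groups of permutations. -/

set_option autoImplicit false

namespace H53.IV

open Subgroup

universe u

theorem quo_bound {Z : Type*} [CommGroup Z] [Finite Z] (W : Subgroup Z) (r : ℕ)
    (hW : ∀ v ∈ W, v ^ 2 = 1 ∧ ∃ y, y ^ 2 ^ r = v) (v : Z) (hv : v ∈ W) (h1 : v ≠ 1) :
    2 ^ r * Nat.card W ≤ Nat.card Z := by
  set φ : Z →* Z := powMonoidHom (2 ^ r) with hφ
  obtain ⟨h2, y, hy⟩ := hW v hv
  have hWr : W ≤ φ.range := fun w hw => by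
    obtain ⟨-, z, hz⟩ := hW w hw
    exact ⟨z, hz⟩
  have hy2 : y ^ 2 ^ (r + 1) = 1 := by rw [pow_succ, pow_mul, hy, h2]
  have hord : orderOf y = 2 ^ (r + 1) :=
    orderOf_eq_prime_pow (p := 2) (by rw [hy]; exact h1) hy2
  have hord2 : orderOf (y ^ 2) = 2 ^ r := by
    rw [orderOf_pow' y two_ne_zero, hord, Nat.gcd_eq_right (Dvd.intro_left _ (pow_succ 2 r).symm),
      pow_succ, Nat.mul_div_cancel _ two_pos]
  have hker : zpowers (y ^ 2) ≤ φ.ker := by
    rw [zpowers_le, MonoidHom.mem_ker, hφ, powMonoidHom_apply, ← pow_mul, ← pow_succ', hy2]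
  have hA : 2 ^ r ≤ Nat.card φ.ker := by
    rw [← hord2, ← Nat.card_zpowers]
    exact card_le_of_le hker
  have hB : Nat.card W ≤ Nat.card φ.range := card_le_of_le hWr
  rw [← φ.ker.card_mul_index, index_ker]
  exact Nat.mul_le_mul hA hB

theorem two_mul_le_pow (s : ℕ) : 2 * s ≤ 2 ^ s := by
  induction s with
  | zero => simp
  | succ n ih =>
    rcases Nat.eq_zero_or_pos n with rfl | hn
    · simp
    · have : 2 ≤ 2 ^ n := by omega
      rw [pow_succ]; omega

theorem main {Y : Type*} [CommGroup Y] [Finite Y] {Ω : Type*} [Finite Ω] [MulAction Y Ω] (r : ℕ) :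
    ∀ (s : ℕ) (V : Subgroup Y) (S : Set Ω), (∀ y : Y, ∀ ω ∈ S, y • ω ∈ S) →
      (∀ v ∈ V, (∀ ω ∈ S, v • ω = ω) → v = 1) → Nat.card V = 2 ^ s →
      (∀ v ∈ V, v ^ 2 = 1 ∧ ∃ y, y ^ 2 ^ r = v) → 2 ^ (r + 1) * s ≤ S.ncard := by
  intro s
  induction s using Nat.strong_induction_on with
  | _ s ih =>
  intro V S hS hf hc hV
  rcases Nat.eq_zero_or_pos s with rfl | hs
  · simp
  have hne : V ≠ ⊥ := by
    rintro rfl
    rw [card_bot] at hc
    have := Nat.one_lt_two_pow hs.ne'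
    omega
  obtain ⟨⟨v, hvV⟩, hv1⟩ := (ne_bot_iff_exists_ne_one).1 hne
  have hv1' : v ≠ 1 := fun h => hv1 (Subtype.ext h)
  obtain ⟨ω, hωS, hω⟩ : ∃ ω ∈ S, v • ω ≠ ω := by
    by_contra h
    push Not at h
    exact hv1' (hf v hvV h)
  set H : Subgroup Y := MulAction.stabilizer Y ω with hH
  set π : Y →* Y ⧸ H := QuotientGroup.mk' H with hπ
  have hker : π.ker = H := QuotientGroup.ker_mk' H
  -- orders
  have hmul : Nat.card (H ⊓ V : Subgroup Y) * Nat.card (V.map π) = Nat.card V := by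
    rw [← relIndex_ker, hker, relIndex, ← card_mul_index (H.subgroupOf V),
      ← inf_subgroupOf_right H V]
    congr 1
    exact (Nat.card_congr (subgroupOfEquivOfLe (inf_le_right : H ⊓ V ≤ V)).toEquiv).symm
  obtain ⟨s0, -, h0⟩ := (Nat.dvd_prime_pow Nat.prime_two).1 (hc ▸ Dvd.intro _ hmul)
  obtain ⟨s1, -, h1⟩ := (Nat.dvd_prime_pow Nat.prime_two).1 (hc ▸ Dvd.intro_left _ hmul)
  have hsum : s0 + s1 = s := by
    rw [h0, h1, hc, ← pow_add] at hmul
    exact Nat.pow_right_injective (le_refl 2) hmul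
  have hπv : π v ≠ 1 := by
    intro h
    have : v ∈ π.ker := h
    rw [hker] at this
    exact hω this
  have hq := quo_bound (V.map π) r (by
    rintro _ ⟨w, hw, rfl⟩
    obtain ⟨a, y, hy⟩ := hV w hw
    exact ⟨by rw [← map_pow, a, map_one], π y, by rw [← map_pow, hy]⟩) (π v) ⟨v, hvV, rfl⟩ hπv
  have hs1 : 0 < s1 := by
    by_contra h
    have h' : s1 = 0 := by omega
    rw [h', pow_zero, card_eq_one] at h1
    have : π v ∈ V.map π := ⟨v, hvV, rfl⟩
    rw [h1] at this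
    exact hπv this
  have hO : (MulAction.orbit Y ω).ncard = Nat.card (Y ⧸ H) := by
    rw [← MulAction.index_stabilizer]; rfl
  have hOS : MulAction.orbit Y ω ⊆ S := by
    rintro _ ⟨y, rfl⟩
    exact hS y ω hωS
  have hrec := ih s0 (by omega) (H ⊓ V) (S \ MulAction.orbit Y ω) (by
    rintro y x ⟨hx, hx'⟩
    refine ⟨hS y x hx, fun h => hx' ?_⟩
    obtain ⟨z, hz⟩ := h
    exact ⟨y⁻¹ * z, by simp only at hz ⊢; rw [mul_smul, hz, inv_smul_smul]⟩) (by
    rintro w ⟨hwH, hwV⟩ hw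
    refine hf w hwV fun x hx => ?_
    by_cases hx' : x ∈ MulAction.orbit Y ω
    · obtain ⟨z, rfl⟩ := hx'
      have : w • ω = ω := hwH
      simp only
      rw [← mul_smul, mul_comm, mul_smul, this]
    · exact hw x ⟨hx, hx'⟩) h0 (fun w hw => hV w hw.2)
  have hsplit := Set.ncard_sdiff_add_ncard_of_subset hOS (Set.toFinite S)
  rw [h1] at hq
  have h2 := two_mul_le_pow s1
  have h3 : 2 ^ (r + 1) * s1 ≤ 2 ^ r * 2 ^ s1 := by
    rw [pow_succ, mul_assoc]; exact Nat.mul_le_mul_left _ h2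
  rw [← hsum, mul_add]
  omega

open scoped IsMulCommutative in
theorem jobP1 : H42.IV.JobP1.{u} := by
  intro Y _ _ _ Ω _ f V r s _ hf hc hV
  letI : MulAction Y Ω := MulAction.compHom Ω f
  have := main (Y := Y) (Ω := Ω) r s V Set.univ (fun _ _ _ => trivial)
    (fun v hv h => hf v hv (Equiv.ext fun x => h x trivial)) hc hV
  rwa [Set.ncard_univ] at this

end H53.IV
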