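import Cfsg.Agent.H53.CW
import Cfsg.Agent.H53.CGL
import Cfsg.Agent.H53.Wall
import Cfsg.Agent.S2385

/-! Upper bounds for the class numbers of symplectic and orthogonal groups in odd characteristic. -/

set_option autoImplicit false

open Polynomial Finset Module

namespace H53

open H56 (IsBasisMod SqCl sqcl)

variable {F : Type*} [Field F] {s : Multiset F[X]} {P Q : F[X]} {k : ℕ} {c : F}

/-- palindromic polynomials of even degree -/
def Pal (P : F[X]) : Prop := P.Monic ∧ Even P.natDegree ∧ P.coeff 0 = 1 ∧ pstar (RingHom.id F) P = P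

theorem Pal.mul (h : Pal P) (h' : Pal Q) : Pal (P * Q) :=
  ⟨h.1.mul h'.1, h.1.natDegree_mul h'.1 ▸ h.2.1.add h'.2.1, by rw [mul_coeff_zero, h.2.2.1, h'.2.2.1,
    mul_one], by rw [pstar_mul, h.2.2.2, h'.2.2.2]⟩

theorem pal_pow (hc : c * c = 1) (j : ℕ) : Pal ((X - C c) ^ (2 * j)) :=
  ⟨(monic_X_sub_C c).pow _, by simp, by simp [coeff_zero_eq_eval_zero, pow_mul, sq, hc], by
    rw [pstar_pow, pstar_X_sub_C_of_mul_self hc]⟩

theorem cnt_pal [Finite F] (hk : 0 < k) :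
    Cnt {P : F[X] | Pal P} (k * ·.natDegree) (GS (Nat.card F) (2 * k)) := fun j => by
  simp only [GS, PowerSeries.coeff_mk]
  split_ifs with h
  · obtain ⟨m, rfl⟩ := h
    have hf : {P : F[X] | P.Monic ∧ P.natDegree = 2 * m ∧ P.coeff 0 = 1 ∧
      pstar (RingHom.id F) P = P}.Finite := finite_monic' _ _
    refine ⟨hf.toFinset, fun P hP h => hf.mem_toFinset.2 ⟨hP.1, Nat.eq_of_mul_eq_mul_left hk
      (h.trans (by ring)), hP.2.2⟩, ?_⟩
    rw [← Nat.card_eq_card_finite_toFinset, Nat.mul_div_cancel_left _ (by omega)]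
    exact (Cfsg.Agent.S2385.card_palin m).le
  · exact ⟨∅, fun P ⟨_, ⟨m, hm⟩, _⟩ h1 => (h ⟨m, by rw [← h1, hm]; ring⟩).elim, le_rfl⟩

open Classical in
/-- the part without the eigenvalues `±1` -/
noncomputable def rg (s : Multiset F[X]) : Multiset F[X] := s.filter (IsCoprime · (X ^ 2 - 1))

theorem not_isCoprime_pow (hc : c * c = 1) (hk : 0 < k) : ¬ IsCoprime ((X - C c) ^ k) (X ^ 2 - 1) :=
  fun ⟨a, b, h⟩ => by simpa [hk.ne', sq, hc] using congrArg (eval c) h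

open Classical in
theorem lay_eq (h2 : (2 : F) ≠ 0) (hs : ∀ P ∈ s, IsPP P) (hk : 0 < k) : lay s k =
    (X - C 1) ^ s.count ((X - C 1) ^ k) * ((X - C (-1)) ^ s.count ((X - C (-1)) ^ k) * lay (rg s) k) := by
  have h0 : ∀ {a b : F} {j}, 0 < j → ((X - C a) ^ k = (X - C b) ^ j ↔ a = b ∧ j = k) := fun hj =>
    ⟨fun h => (monic_irreducible_eq_of_pow_eq (monic_X_sub_C _) (irreducible_X_sub_C _) (monic_X_sub_C _)
      (irreducible_X_sub_C _) hk h).imp (fun h => C_injective (sub_right_injective h)) Eq.symm, by rintro ⟨rfl, rfl⟩; rfl⟩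
  have h1 : (1 : F) ≠ -1 := fun h => h2 (by linear_combination h)
  induction s using Multiset.induction_on with
  | empty => simp [rg, lay_zero]
  | cons P s ih =>
    obtain ⟨hP, hs'⟩ := Multiset.forall_mem_cons.1 hs
    rw [lay_cons, ih hs', Multiset.count_cons, Multiset.count_cons, rg, rg]
    obtain h | ⟨j, hj, h⟩ := hP.isCoprime_or
    · rw [Multiset.filter_cons_of_pos (p := (IsCoprime · (X ^ 2 - 1))) _ h, lay_cons,
        if_neg (c := (X - C 1) ^ k = P) fun h3 => not_isCoprime_pow (one_mul (1 : F)) hk (h3 ▸ h),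
        if_neg (c := (X - C (-1)) ^ k = P) fun h3 => not_isCoprime_pow (c := -1) (by simp) hk (h3 ▸ h)]
      ring
    obtain ⟨c, hc, rfl⟩ : ∃ c : F, (c = 1 ∨ c = -1) ∧ P = (X - C c) ^ j :=
      h.elim (fun h => ⟨1, .inl rfl, h⟩) fun h => ⟨-1, .inr rfl, by simpa using h⟩
    rw [Multiset.filter_cons_of_neg (p := (IsCoprime · (X ^ 2 - 1))) _
      (not_isCoprime_pow (mul_self_eq_one_iff.2 hc) hj),
      (bas_xp_pow (monic_X_sub_C c) (irreducible_X_sub_C c) hj).1,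
      (bas_xp_pow (monic_X_sub_C c) (irreducible_X_sub_C c) hj).2]
    simp only [h0 hj]
    rcases hc with rfl | rfl <;> by_cases h : j = k <;> simp only [h, h1, h1.symm, and_self, and_true,
      and_false, if_true, if_false] <;> ring

theorem pal_lay_rg (h2 : (2 : F) ≠ 0) (hs : ∀ P ∈ s, IsPP P) (h0 : ∀ P ∈ s, P.coeff 0 ≠ 0)
    (hp : s.map (pstar (RingHom.id F)) = s) (k : ℕ) : Pal (lay (rg s) k) := by
  classical
  have h1 : ∀ P ∈ rg s, IsPP P := fun P h => hs P (Multiset.mem_of_mem_filter h)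
  have h3 := coeff_zero_lay h1 (fun P h => h0 P (Multiset.mem_of_mem_filter h)) k
  have h4 : pstar (RingHom.id F) (lay (rg s) k) = lay (rg s) k := pstar_lay (fun _ => rfl) h1 (by
    conv_rhs => rw [rg, ← hp, Multiset.filter_map]
    refine congrArg _ (Multiset.filter_congr fun P h => ?_)
    have h5 := (monic_X_pow_sub_C (1 : F) two_ne_zero)
    rw [map_one] at h5
    refine ⟨fun h3 => ?_, fun h3 => ?_⟩
    · simpa only [pstar_X_pow_sub_one, Function.comp] using isCoprime_pstar (σ := RingHom.id F) (fun _ => rfl)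
        (hs P h).monic h5 h3
    · simpa only [pstar_X_pow_sub_one, pstar_pstar (σ := RingHom.id F) (fun _ => rfl) (hs P h).monic]
        using isCoprime_pstar (σ := RingHom.id F) (fun _ => rfl) (monic_pstar (hs P h).ne_zero) h5 h3) k
  have h5 : ∀ c : F, c * c = 1 → (lay (rg s) k).eval c ≠ 0 := fun c hc h => by
    rw [lay, eval_multiset_prod, Multiset.prod_eq_zero_iff, Multiset.map_map, Multiset.mem_map] at h
    obtain ⟨P, h6, h7⟩ := h
    have h8 := Multiset.mem_of_mem_filter h6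
    obtain ⟨a, b, h9⟩ := (Multiset.mem_filter.1 h8).2
    rw [(h1 P h8).spec.2.2.2] at h9
    simpa [show eval c (bas P) = 0 from h7, (h1 P h8).spec.2.2.1.ne', sq, hc] using congrArg (eval c) h9
  have h6 := Cfsg.Agent.S2385.coeff_zero_of_rigid h3 h4 (h5 1 (one_mul 1))
  refine ⟨monic_lay h1 k, ?_, h6, h4⟩
  have := aeval_pstar (σ := RingHom.id F) (f := (-1 : F)) (g := -1) (by simp) h3
  simp only [h4, h6, coe_aeval_eq_eval, RingHom.id_apply, Polynomial.map_id, inv_one, one_smul] at this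
  exact (neg_one_pow_eq_one_iff_even fun h => h2 (by linear_combination -h)).1
    ((mul_eq_right₀ (h5 _ (by simp))).1 this.symm)

theorem exists_bits (a : ℕ) (δ : Prop) (h : a = 0 → δ) :
    ∃ e e' j, e ≤ 1 ∧ e' ≤ 1 ∧ a = e + e' + 2 * j ∧ (δ ↔ e = 0) := by
  by_cases hδ : δ
  · exact ⟨0, a % 2, a / 2, by omega, by omega, by omega, by simp [hδ]⟩
  · have := mt h hδ
    exact ⟨1, (a - 1) % 2, (a - 1) / 2, by omega, by omega, by omega, by simp [hδ]⟩

open Classical in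
theorem count_form (h2 : (2 : F) ≠ 0) {Y : Type*} {n : ℕ} (s : Y → Multiset F[X])
    (δ : Y → F → ℕ → Prop) (hs : ∀ x, ∀ P ∈ s x, IsPP P) (hd : ∀ x, ((s x).map natDegree).sum = n)
    (p p' : ℕ → Prop) [DecidablePred p] [DecidablePred p'] (T : ℕ → Set F[X]) (t : ℕ → PowerSeries ℕ)
    (ht : ∀ k, 0 < k → Cnt (T k) (k * ·.natDegree) (t k))
    (h0 : ∀ x c k, c * c = 1 → (X - C c) ^ k ∉ s x → δ x c k)
    (hp : ∀ x c k, c * c = 1 → ¬ p k → δ x c k)
    (hp' : ∀ x c k, c * c = 1 → ¬ p' k → δ x c k ∧ Even ((s x).count ((X - C c) ^ k)))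
    (hT : ∀ x k i j, 2 * i ≤ (s x).count ((X - C 1) ^ k) → 2 * j ≤ (s x).count ((X - C (-1)) ^ k) →
      (X - C 1) ^ (2 * i) * ((X - C (-1)) ^ (2 * j) * lay (rg (s x)) k) ∈ T k)
    (inj : ∀ x y, s x = s y → (∀ c k, c * c = 1 → (δ x c k ↔ δ y c k)) → x = y) :
    Nat.card Y ≤ PowerSeries.coeff n (∏ k ∈ Icc 1 n, ((if p k then 1 + PowerSeries.X ^ k else 1) *
      if p' k then 1 + PowerSeries.X ^ k else 1) ^ 2 * t k) := by
  let S : ℕ → Set (ℕ × ℕ) := fun k => {e | e ≤ 1 ∧ (¬ p k → e = 0)} ×ˢ {e | e ≤ 1 ∧ (¬ p' k → e = 0)}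
  have h1 : ∀ x k c, c * c = 1 → ∃ e ∈ S k, ∃ j, (s x).count ((X - C c) ^ k) = e.1 + e.2 + 2 * j ∧
      (δ x c k ↔ e.1 = 0) := fun x k c hc => by
    obtain ⟨e, e', j, h3, h4, h5, h6⟩ := exists_bits ((s x).count ((X - C c) ^ k)) (δ x c k)
      fun h => h0 x c k hc (Multiset.count_eq_zero.1 h)
    refine ⟨(e, e'), ⟨⟨h3, fun h => h6.1 (hp x c k hc h)⟩, h4, fun h => ?_⟩, j, h5, h6⟩
    obtain ⟨h7, i, h8⟩ := hp' x c k hc h
    have := h6.1 h7
    simp only
    omega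
  have h3 : ∀ x k, ∃ y : (ℕ × ℕ) × (ℕ × ℕ) × F[X], 0 < k → y ∈ S k ×ˢ S k ×ˢ T k ∧
      lay (s x) k = (X - C 1) ^ (y.1.1 + y.1.2) * ((X - C (-1)) ^ (y.2.1.1 + y.2.1.2) * y.2.2) ∧
      y.2.2.Monic ∧ (δ x 1 k ↔ y.1.1 = 0) ∧ (δ x (-1) k ↔ y.2.1.1 = 0) := fun x k => by
    obtain ⟨e, h3, i, h4, h5⟩ := h1 x k 1 (one_mul 1)
    obtain ⟨e', h6, j, h7, h8⟩ := h1 x k (-1) (by simp)
    exact ⟨(e, e', _), fun hk => ⟨⟨h3, h6, hT x k i j (by omega) (by omega)⟩, by
      rw [lay_eq h2 (hs x) hk, h4, h7]; ring, ((monic_X_sub_C _).pow _).mul (((monic_X_sub_C _).pow _).mul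
        (monic_lay (fun P h => hs x P (Multiset.mem_of_mem_filter h)) k)), h5, h8⟩⟩
  choose y hy using h3
  refine (Cnt.pi ((0, 0), (0, 0), 0) (Icc 1 n) fun k hk => by
    have h3 := (cnt_bit (p k) (mem_Icc.1 hk).1).mul (cnt_bit (p' k) (mem_Icc.1 hk).1)
    rw [sq, mul_assoc]
    exact h3.mul (h3.mul (ht k (mem_Icc.1 hk).1))).card_le
    (fun x k => if k ∈ Icc 1 n then y x k else ((0, 0), (0, 0), 0)) (fun a b h => ?_)
    (fun x => ⟨fun k hk => by simpa only [if_pos hk] using (hy x k (mem_Icc.1 hk).1).1,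
      fun k hk => if_neg hk⟩) fun x => ?_
  · have h3 : ∀ k ∈ Icc 1 n, y a k = y b k := fun k hk => by simpa only [if_pos hk] using congrFun h k
    refine inj a b (lay_inj (hs a) (hs b) fun k => ?_) fun c k hc => ?_
    · by_cases hk : k ∈ Icc 1 n
      · rw [(hy a k (mem_Icc.1 hk).1).2.1, (hy b k (mem_Icc.1 hk).1).2.1, h3 k hk]
      · rw [natDegree_lay_eq_zero (hs a) (hd a) hk, natDegree_lay_eq_zero (hs b) (hd b) hk]
    by_cases hk : k ∈ Icc 1 n
    · rcases mul_self_eq_one_iff.1 hc with rfl | rfl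
      · rw [(hy a k (mem_Icc.1 hk).1).2.2.2.1, (hy b k (mem_Icc.1 hk).1).2.2.2.1, h3 k hk]
      · rw [(hy a k (mem_Icc.1 hk).1).2.2.2.2, (hy b k (mem_Icc.1 hk).1).2.2.2.2, h3 k hk]
    · have h4 : ∀ x, δ x c k := fun x => h0 x c k hc fun h => hk (by
        have := xp_mem (hs x) (hd x) _ h
        rwa [(bas_xp_pow (monic_X_sub_C c) (irreducible_X_sub_C c) (Nat.pos_of_ne_zero fun h1 =>
          (hs x _ h).not_isUnit (by simp [h1]))).2] at this)
      exact iff_of_true (h4 a) (h4 b)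
  · refine Eq.trans (sum_congr rfl fun k hk => ?_) (sum_natDegree_lay (hs x) (hd x))
    obtain ⟨-, h3, h4, -⟩ := hy x k (mem_Icc.1 hk).1
    rw [if_pos hk, h3, ((monic_X_sub_C _).pow _).natDegree_mul (((monic_X_sub_C _).pow _).mul h4),
      ((monic_X_sub_C _).pow _).natDegree_mul h4]
    simp only [natDegree_pow, natDegree_X_sub_C]
    ring

theorem sqCl_eq [Finite F] {a b : SqCl F} (h : a = 1 ↔ b = 1) : a = b := by
  by_cases ha : a = 1
  · rw [ha, h.1 ha]
  · exact H56.SqCl.eq_of_ne_one ha (mt h.2 ha)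

variable {V : Type*} [AddCommGroup V] [Module F V] [FiniteDimensional F V] [Finite F]
  {B : V →ₗ[F] V →ₗ[F] F} {ε : F}

open Classical in
theorem count_le_one (h2 : (2 : F) ≠ 0) (hB : IsSF (σ := RingHom.id F) ε B) {f : End F V} (hf : Inv B f)
    (hc : c * c = 1) (hk : ε * (-1) ^ k = 1) {κ : SqCl F} (h : ∀ v, (nl f c ^ (k + 1)) v = 0 →
      B v ((nl f c ^ k) v) ≠ 0 → sqcl (B v ((nl f c ^ k) v)) = κ) :
    (ed f).count ((X - C c) ^ (k + 1)) ≤ 1 ∧ ((X - C c) ^ (k + 1) ∈ ed f → wd B f c k = κ) := by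
  obtain ⟨x, hx⟩ := H56.exists_isBasisMod (LinearMap.ker (tf B f c k))
  have hr := tf_isRefl (k := k) hB hf hc
  have h1 : finrank F (_ ⧸ LinearMap.ker (tf B f c k)) ≤ 1 := le_of_not_gt fun h1 => by
    have h3 := isSF_liftQ (one_mul 1) hr fun x y => by rw [tf_symm hB hf hc, hk]
    obtain ⟨Q, hQ⟩ := exists_qinv_of_two_ne h2 h3
    have := Finite.one_lt_card_iff_nontrivial.1 ((H56.card_SqCl h2).symm ▸ one_lt_two)
    obtain ⟨z, hz⟩ := exists_ne κ
    obtain ⟨a, ha, rfl⟩ := H56.sqcl_surjective z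
    obtain ⟨v, hv⟩ := H58.exists_Q_eq (Q := Q) (hQ ▸ h3.nondegenerate) h1 (a / 2)
    obtain ⟨v, rfl⟩ := Submodule.Quotient.mk_surjective _ v
    have h4 : B v ((nl f c ^ k) v) = a := (LinearMap.congr_fun₂ hQ _ _).symm.trans
      ((H56.polar_self' Q _).trans (by rw [hv, mul_div_cancel₀ _ h2]))
    exact hz (h4 ▸ h v v.2 (h4 ▸ ha))
  obtain ⟨A, hA, hd, h3, h4, -⟩ := exists_peel hB hf hc hx
  have h5 : (ed f).count ((X - C c) ^ (k + 1)) ≤ finrank F (_ ⧸ LinearMap.ker (tf B f c k)) := by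
    rw [hf.ed_eq_add hB hA hd, Multiset.count_add, Multiset.count_eq_zero.2 h4, add_zero, ← h3.sim.ed_eq]
    have := multiset_sum_le_of_le (Multiset.map_le_map (f := natDegree) (Multiset.le_count_iff_replicate_le.1
      (le_refl ((ed (fM (Fin (finrank F (_ ⧸ LinearMap.ker (tf B f c k)))) k c)).count
        ((X - C c) ^ (k + 1))))))
    simpa [sum_natDegree_ed] using this
  refine ⟨h5.trans h1, fun h6 => ?_⟩
  have h7 := le_antisymm h1 ((Multiset.one_le_count_iff_mem.2 h6).trans h5)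
  have h8 := gramB_ne_zero_of_mod hr hx
  rw [wd, dsc_eq hr hx]
  generalize finrank F (_ ⧸ LinearMap.ker (tf B f c k)) = r at *
  subst h7
  rw [H58.gramB, Matrix.det_unique] at h8 ⊢
  exact h _ (x _).2 h8

variable {G : Type*} [Group G] (φ : G → End F V)

theorem classes_alt (h2 : (2 : F) ≠ 0) (hB : IsSF (σ := RingHom.id F) (-1) B) (hφ : ∀ g, Inv B (φ g))
    (hc : ∀ a b, Iso (σ := RingHom.id F) B (φ a) B (φ b) → IsConj a b) :
    Nat.card (ConjClasses G) ≤ PowerSeries.coeff (finrank F V) (∏ k ∈ Icc 1 (finrank F V),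
      ((if k % 2 = 0 then 1 + PowerSeries.X ^ k else 1) ^ 4 * GS (Nat.card F) (2 * k))) := by
  have ha : ∀ x, B x x = 0 := fun x =>
    (mul_eq_zero.1 (show 2 * B x x = 0 by linear_combination hB.symm x x)).resolve_left h2
  refine (count_form h2 (fun C => ed (φ (rep C))) (fun C c k => k % 2 = 0 → (X - Polynomial.C c) ^ k ∈
    ed (φ (rep C)) → wd B (φ (rep C)) c (k - 1) = 1) (fun _ => ed_isPP _) (fun _ => sum_natDegree_ed _)
    (· % 2 = 0) (· % 2 = 0) (fun _ => {P | Pal P}) _ (fun _ => cnt_pal) (fun _ _ _ _ h _ h' => (h h').elim)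
    (fun _ _ _ _ h h' => (h h').elim) (fun x c k h h' => ⟨fun h => (h' h).elim,
      (hφ _).even_count_alt hB ha h (Nat.odd_iff.2 (by omega))⟩)
    (fun x k i j _ _ => (pal_pow (one_mul 1) i).mul ((pal_pow (by simp) j).mul (pal_lay_rg h2 (ed_isPP _)
      ((isUnit_iff_ed _).1 ((hφ _).isUnit hB)) ((hφ _).map_pstar_ed hB) k))) fun a b h H => ?_).trans_eq
    (by simp only [← sq, ← pow_mul]; rfl)
  rw [← mk_rep a, ← mk_rep b, ConjClasses.mk_eq_mk_iff_isConj]
  refine hc _ _ (wall h2 hB hB (hφ _) (hφ _) h fun c hc k hk hP => sqCl_eq ?_)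
  have h3 : (k + 1) % 2 = 0 := Nat.even_iff.1 ((neg_one_pow_eq_one_iff_even fun h =>
    h2 (by linear_combination -h)).1 (pow_succ' (-1 : F) k ▸ hk))
  simpa only [h3, hP, h ▸ hP, forall_const, Nat.add_sub_cancel] using H c (k + 1) hc

theorem classes_symm [Finite G] (h2 : (2 : F) ≠ 0) (hB : IsSF (σ := RingHom.id F) 1 B)
    (hφ : ∀ g, Inv B (φ g)) (hc : ∀ a b, Iso (σ := RingHom.id F) B (φ a) B (φ b) → IsConj a b) :
    2 * Nat.card (ConjClasses G) ≤ PowerSeries.coeff (finrank F V) (∏ k ∈ Icc 1 (finrank F V),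
      ((if k % 2 = 1 then 1 + PowerSeries.X ^ k else 1) ^ 4 * GS (Nat.card F) (2 * k))) +
      PowerSeries.coeff (finrank F V) (∏ k ∈ Icc 1 (finrank F V), GS (Nat.card F) (2 * k)) := by
  classical
  let gd : Multiset F[X] → F × ℕ → Prop := fun s p => p.1 * p.1 = 1 ∧ p.2 % 2 = 0 ∧
    (X - C p.1) ^ (p.2 + 1) ∈ s
  have h0 : ∀ {k}, 1 * (-1 : F) ^ k = 1 → k % 2 = 0 := fun hk => Nat.even_iff.1
    ((neg_one_pow_eq_one_iff_even fun h => h2 (by linear_combination -h)).1 (one_mul (_ : F) ▸ hk))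
  have hT : ∀ g k i j, Pal ((X - C 1) ^ (2 * i) * ((X - C (-1)) ^ (2 * j) * lay (rg (ed (φ g))) k)) :=
    fun g k i j => (pal_pow (one_mul 1) i).mul ((pal_pow (by simp) j).mul (pal_lay_rg h2 (ed_isPP _)
      ((isUnit_iff_ed _).1 ((hφ _).isUnit hB)) ((hφ _).map_pstar_ed hB) k))
  let p : ConjClasses G × Bool → Prop := fun x => (∃ p, gd (ed (φ (rep x.1))) p) ∨ x.2
  have h5 : 2 * Nat.card (ConjClasses G) = Nat.card {x // p x} + Nat.card {x // ¬ p x} := by
    rw [← Nat.card_sum, Nat.card_congr (Equiv.sumCompl p), Nat.card_prod, mul_comm]; simp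
  refine h5.trans_le (Nat.add_le_add ((count_form h2 (fun x : {x // p x} => ed (φ (rep x.1.1)))
    (fun x c k => k % 2 = 1 →
    (X - C c) ^ k ∈ ed (φ (rep x.1.1)) → if (c, k - 1) = Classical.epsilon (gd (ed (φ (rep x.1.1))))
      then x.1.2 = true else wd B (φ (rep x.1.1)) c (k - 1) = 1) (fun _ => ed_isPP _)
    (fun _ => sum_natDegree_ed _) (· % 2 = 1) (· % 2 = 1) (fun _ => {P | Pal P}) _ (fun _ => cnt_pal)
    (fun _ _ _ _ h _ h' => (h h').elim) (fun _ _ _ _ h h' => (h h').elim)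
    (fun x c k h h' => ⟨fun h => (h' h).elim,
      (hφ _).even_count_symm h2 hB h (Nat.even_iff.2 (by omega))⟩)
    (fun x k i j _ _ => hT _ k i j) ?_).trans_eq (by simp only [← sq, ← pow_mul]; rfl))
    ((count_form h2 (fun x : {x // ¬ p x} => ed (φ (rep x.1.1))) (fun _ _ _ => True) (fun _ => ed_isPP _)
    (fun _ => sum_natDegree_ed _) (fun _ => False) (fun _ => False) (fun _ => {P | Pal P}) _
    (fun _ => cnt_pal) (fun _ _ _ _ _ => trivial) (fun _ _ _ _ _ => trivial)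
    (fun x c k h _ => ⟨trivial, ?_⟩) (fun x k i j _ _ => hT _ k i j) ?_).trans_eq (by simp)))
  · rintro ⟨⟨a, u⟩, ha⟩ ⟨⟨b, v⟩, hb⟩ h H
    simp only [p] at h H ha hb
    obtain rfl : a = b := by
      rw [← mk_rep a, ← mk_rep b, ConjClasses.mk_eq_mk_iff_isConj]
      refine hc _ _ (wall_symm h2 hB hB (hφ _) (hφ _) h rfl (Classical.epsilon (gd (ed (φ (rep a)))))
        fun c hc k hk hp hP => sqCl_eq ?_)
      have h3 : (k + 1) % 2 = 1 := by have := h0 hk; omega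
      simpa only [h3, hP, ← h, forall_const, Nat.add_sub_cancel, if_neg hp] using H c (k + 1) hc
    refine Subtype.ext (Prod.ext rfl ?_)
    by_cases h1 : ∃ p, gd (ed (φ (rep a))) p
    · obtain ⟨h3, h4, h5⟩ := Classical.epsilon_spec h1
      generalize Classical.epsilon (gd (ed (φ (rep a)))) = r at *
      have h6 := H _ (r.2 + 1) h3
      simp only [h5, Nat.add_sub_cancel, forall_const, if_true, show (r.2 + 1) % 2 = 1 by omega] at h6
      exact Bool.eq_iff_iff.2 h6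
    · exact (ha.resolve_left h1).trans (hb.resolve_left h1).symm
  · rcases k.even_or_odd with hk | ⟨k, rfl⟩
    · exact (hφ _).even_count_symm h2 hB h hk
    · rw [Multiset.count_eq_zero.2 fun h1 => x.2 (.inl ⟨(c, 2 * k), h, by simp, h1⟩)]
      exact Even.zero
  · rintro ⟨⟨a, u⟩, ha⟩ ⟨⟨b, v⟩, hb⟩ h -
    simp only [p, not_or, Bool.not_eq_true] at h ha hb
    refine Subtype.ext (Prod.ext ?_ (ha.2.trans hb.2.symm))
    exact (mk_rep a).symm.trans ((ConjClasses.mk_eq_mk_iff_isConj.2 (hc _ _ (wall h2 hB hB (hφ _) (hφ _)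
      h fun c hc k hk hP => (ha.1 ⟨(c, k), hc, h0 hk, hP⟩).elim))).trans (mk_rep b))

theorem classes_split (h2 : (2 : F) ≠ 0) (hB : IsSF (σ := RingHom.id F) 1 B)
    (hφ : ∀ g, Inv B (φ g)) (hc : ∀ a b, Iso (σ := RingHom.id F) B (φ a) B (φ b) → IsConj a b)
    (p : ConjClasses G → Prop) (κ : ℕ → SqCl F) (h1 : ∀ x, p x → ∀ c k v, c * c = 1 → Even k →
      (nl (φ (rep x)) c ^ (k + 1)) v = 0 → B v ((nl (φ (rep x)) c ^ k) v) ≠ 0 →
        sqcl (B v ((nl (φ (rep x)) c ^ k) v)) = κ k)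
    (h3 : ∀ x, p x → ∀ P ∈ ed (φ (rep x)), Irreducible P → ¬ IsCoprime P (X ^ 2 - 1)) :
    Nat.card {x // p x} ≤ PowerSeries.coeff (finrank F V) (∏ k ∈ Icc 1 (finrank F V),
      ((if k % 2 = 1 then 1 + PowerSeries.X ^ k else 1) ^ 2 *
        if k = 1 then 1 else GS (Nat.card F) (2 * k))) := by
  classical
  have h4 := fun (x : {x // p x}) c (hc : c * c = 1) k (hk : Even k) => count_le_one h2 hB (hφ _) hc
    (by simp [hk.neg_one_pow]) fun v => h1 x.1 x.2 c k v hc hk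
  refine (count_form h2 (fun x => ed (φ (rep x.1))) (fun _ _ _ => True) (fun _ => ed_isPP _)
    (fun _ => sum_natDegree_ed _) (fun _ => False) (· % 2 = 1)
    (fun k => if k = 1 then {1} else {P | Pal P}) _ (fun k hk => ?_) (fun _ _ _ _ _ => trivial)
    (fun _ _ _ _ _ => trivial) (fun x c k h h' => ⟨trivial,
      (hφ _).even_count_symm h2 hB h (Nat.even_iff.2 (by omega))⟩) (fun x k i j hi hj => ?_)
    fun a b h _ => Subtype.ext ?_).trans_eq (by simp only [if_false, one_mul]; rfl)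
  · split_ifs
    · exact cnt_one _ _ (by simp)
    · exact cnt_pal hk
  · split_ifs with hk
    · subst hk
      obtain rfl : i = 0 := by have := hi.trans (h4 x 1 (one_mul 1) 0 Even.zero).1; omega
      obtain rfl : j = 0 := by have := hj.trans (h4 x (-1) (by simp) 0 Even.zero).1; omega
      have h5 : ∀ P ∈ rg (ed (φ (rep x.1))), IsPP P := fun P h => ed_isPP _ P (Multiset.mem_of_mem_filter h)
      have : lay (rg (ed (φ (rep x.1)))) 1 = 1 := (monic_lay h5 1).natDegree_eq_zero.1 (by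
        by_contra h
        obtain ⟨P, -, h6, h7⟩ := exists_of_lay h5 h
        rw [pow_one, rg, Multiset.mem_filter] at h7
        exact h3 x.1 x.2 P h7.1 h6 h7.2)
      simp [this]
    · exact (pal_pow (one_mul 1) i).mul ((pal_pow (by simp) j).mul (pal_lay_rg h2 (ed_isPP _)
        ((isUnit_iff_ed _).1 ((hφ _).isUnit hB)) ((hφ _).map_pstar_ed hB) k))
  · rw [← mk_rep a.1, ← mk_rep b.1, ConjClasses.mk_eq_mk_iff_isConj]
    refine hc _ _ (wall h2 hB hB (hφ _) (hφ _) h fun c hc k hk hP => ?_)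
    have h5 : Even k := (neg_one_pow_eq_one_iff_even fun h => h2 (by linear_combination -h)).1
      (one_mul (_ : F) ▸ hk)
    rw [(h4 a c hc k h5).2 hP, (h4 b c hc k h5).2 (h ▸ hP)]

end H53
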