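import Cfsg.Agent.H53.CForm
import Cfsg.Agent.H53.JO
import Cfsg.Agent.H24.ClassCount

/-! Bounds for the class numbers of the orthogonal groups in odd characteristic. -/

set_option autoImplicit false

open Polynomial Finset Module Matrix

namespace H53

section grp
variable {G : Type*} [Group G] [Finite G]

theorem two_mul_classes_le (H : Subgroup G) (hH : H.index = 2) :
    2 * Nat.card (ConjClasses H) ≤ Nat.card (ConjClasses G) +
      3 * Nat.card {C : ConjClasses G // ∀ y, Commute (rep C) y → y ∈ H} := by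
  classical
  have := Fintype.ofFinite G
  have := H.normal_of_index_eq_two hH
  let a : G → ℕ := fun x => #{y : G | y ∈ H ∧ Commute x y}
  let b : G → ℕ := fun x => #{y : G | y ∉ H ∧ Commute x y}
  let S : G → Prop := fun x => ∀ y, Commute x y → y ∈ H
  have h1 : ∀ x, Nat.card (Subgroup.centralizer ({x} : Set G)) = a x + b x := fun x => by
    rw [H24.card_centralizer_eq_card_filter, ← card_filter_add_card_filter_not (· ∈ H),
      filter_filter, filter_filter]
    simp only [a, b, and_comm]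
  have h2 : ∀ x, ¬ S x → a x = b x := fun x hx => by
    obtain ⟨y, hy, h3⟩ : ∃ y, Commute x y ∧ y ∉ H := by simpa [S] using hx
    refine card_bij' (fun v _ => v * y) (fun v _ => v * y⁻¹) (fun v hv => ?_) (fun v hv => ?_)
      (by simp) (by simp)
    · simp only [mem_filter, mem_univ, true_and] at hv ⊢
      exact ⟨fun h => h3 ((H.mul_mem_cancel_left hv.1).1 h), hv.2.mul_right hy⟩
    · simp only [mem_filter, mem_univ, true_and] at hv ⊢
      exact ⟨(Subgroup.mul_mem_iff_of_index_two hH).2 (by simp [hv.1, h3]),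
        hv.2.mul_right hy.inv_right⟩
  have h3 : ∑ x with x ∉ H, a x = ∑ x with x ∈ H, b x := by
    simp only [a, b, card_filter, sum_filter]
    have h4 : ∀ (p : G → Prop) [DecidablePred p] (f : G → G → ℕ),
      ∑ x, (if p x then ∑ y, f x y else 0) = ∑ x, ∑ y, if p x then f x y else 0 := fun p _ f =>
        sum_congr rfl fun x _ => by split_ifs <;> simp
    rw [h4, h4, sum_comm]
    refine sum_congr rfl fun x _ => sum_congr rfl fun y _ => ?_
    by_cases hx : x ∈ H <;> by_cases hy : y ∈ H <;> simp [hx, hy, Commute.symm_iff]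
  have h4 : ∑ x with x ∉ H, b x = ∑ x with x ∉ H, a x := sum_congr rfl fun x hx =>
    (h2 x fun h => (mem_filter.1 hx).2 (h x (Commute.refl x))).symm
  have h5 : Nat.card (ConjClasses H) * Nat.card H = ∑ x with x ∈ H, a x := by
    rw [H24.card_conjClasses_mul_card, sum_subtype (p := (· ∈ H)) _ (by simp)]
    refine sum_congr rfl fun x _ => ?_
    rw [H24.card_centralizer_eq_card_filter, ← H24.card_filter_mem_commute]
  have h6 := H24.card_conjClasses_mul_card (G := G)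
  have h7 := H24.card_classes_mul_card (G := G) fun C => S (rep C)
  have h8 : ∀ x, S (rep (ConjClasses.mk x)) ↔ S x := fun x => by
    obtain ⟨c, hc⟩ := isConj_iff.1 (isConj_rep x)
    generalize rep (ConjClasses.mk x) = r at hc
    subst hc
    refine ⟨fun h y hy => ?_, fun h y hy => ?_⟩
    · have := h (c⁻¹ * y * c) (by simpa [mul_assoc] using hy.map (MulAut.conj c⁻¹))
      simpa [mul_assoc] using ‹H.Normal›.conj_mem _ this c
    · have := h (c * y * c⁻¹) (by simpa using hy.map (MulAut.conj c))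
      simpa [mul_assoc] using ‹H.Normal›.conj_mem _ this c⁻¹
  simp only [h1, h8] at h6 h7
  have h9 : ∑ x with x ∈ H, a x ≤ ∑ x with x ∈ H, b x + ∑ x with S x, (a x + b x) := by
    simp only [sum_filter, ← sum_add_distrib]
    refine sum_le_sum fun x _ => ?_
    by_cases hx : S x
    · simp only [hx, if_true]; split_ifs <;> omega
    · simp [hx, h2 x hx]
  rw [← sum_filter_add_sum_filter_not univ (· ∈ H), sum_add_distrib, sum_add_distrib] at h6
  have h10 := H.card_mul_index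
  refine Nat.le_of_mul_le_mul_right ?_ (Nat.card_pos (α := G))
  rw [add_mul, mul_assoc 3, h6, h7, ← h10, hH]
  nlinarith

theorem two_mul_classes_le_of_center {N H : Subgroup G} [N.Normal] (hN : N ≤ H) {z : G}
    (hz : z ∈ Subgroup.center G) (h1 : z ∈ H) (h2 : z ∉ N) (h : ∀ g ∈ H, g ∈ N ∨ z * g ∈ N) :
    2 * Nat.card (ConjClasses N) ≤ Nat.card (ConjClasses H) := by
  have h4 : ∀ g, z * g = g * z := fun g => (Subgroup.mem_center_iff.1 hz g).symm
  have h3 : ∀ {x y : H}, IsConj x y → ∃ c ∈ N, c * x * c⁻¹ = y := fun {x y} hc => by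
    obtain ⟨c, rfl⟩ := isConj_iff.1 hc
    rcases h c c.2 with h5 | h5
    · exact ⟨c, h5, rfl⟩
    · refine ⟨_, h5, Eq.trans (b := z * (c * x * c⁻¹) * z⁻¹) (by simp [mul_assoc]) ?_⟩
      rw [h4, mul_inv_cancel_right]; rfl
  rw [mul_comm, show 2 = Nat.card Bool by simp, ← Nat.card_prod]
  refine Nat.card_le_card_of_injective (fun p => ConjClasses.mk ⟨(if p.2 then z else 1) * (rep p.1).1,
    H.mul_mem (by split_ifs <;> simp [h1]) (hN (rep p.1).2)⟩) ?_
  rintro ⟨a, u⟩ ⟨b, v⟩ hab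
  obtain ⟨c, hc, h5⟩ := h3 (ConjClasses.mk_eq_mk_iff_isConj.1 hab)
  have h6 := ‹N.Normal›.conj_mem _ (rep a).2 c
  have h7 : c * (z * (rep a).1) * c⁻¹ = z * (c * (rep a).1 * c⁻¹) := by
    rw [← mul_assoc c, ← h4 c]; group
  have h8 : c * (rep a).1 * c⁻¹ = rep b → a = b := fun h8 => by
    rw [← mk_rep a, ← mk_rep b, ConjClasses.mk_eq_mk_iff_isConj]
    exact isConj_iff.2 ⟨⟨c, hc⟩, Subtype.ext h8⟩
  cases u <;> cases v <;> simp only [if_true, Bool.false_eq_true, if_false, one_mul, h7] at h5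
  · rw [h8 h5]
  · exact (h2 ((N.mul_mem_cancel_right (rep b).2).1 (h5 ▸ h6))).elim
  · exact (h2 ((N.mul_mem_cancel_right h6).1 (h5 ▸ (rep b).2))).elim
  · rw [h8 (mul_left_cancel h5)]

end grp

open H56 (O SqCl sqcl spinor)
open H58 (IsPlus)
open H59 (perp)

variable {F : Type*} [Field F]
variable {V W : Type*} [AddCommGroup V] [Module F V] [AddCommGroup W] [Module F W]
  [FiniteDimensional F V] [FiniteDimensional F W]
variable {Q : QuadraticForm F V} {Q' : QuadraticForm F W} {f : End F V} {g : End F W} {δ : F}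
  {θ : SqCl F}

/-- some isometry commuting with `f` has determinant `δ` and spinor norm `θ` -/
def Cen (Q : QuadraticForm F V) (f : End F V) (δ : F) (θ : SqCl F) : Prop :=
  ∃ (hQ : Q.polarBilin.Nondegenerate) (z : O Q), Commute z.lin f ∧ LinearMap.det z.lin = δ ∧
    spinor hQ z = θ

theorem Cen.of_qiso (h2 : (2 : F) ≠ 0) (h : Cen Q f δ θ) (h' : QIso Q f Q' g) : Cen Q' g δ θ := by
  have h3 := h'.nondeg
  obtain ⟨hQ, z, h4, rfl, rfl⟩ := h
  obtain ⟨e, h5, h6⟩ := h'
  refine ⟨h3 hQ, H56.O.congr e h6 z, LinearMap.ext fun w => ?_, ?_, spinor_congr h2 _ _ _ _ _⟩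
  · obtain ⟨v, rfl⟩ := e.surjective w
    simpa [← h5] using LinearMap.congr_fun h4 v
  · rw [← LinearMap.det_conj z.lin e]; rfl

theorem Cen.prod (h2 : (2 : F) ≠ 0) (h : Cen Q f δ θ) (hQ' : Q'.polarBilin.Nondegenerate) :
    Cen (Q.prod Q') (f.prodMap g) δ θ := by
  obtain ⟨hQ, z, h4, rfl, rfl⟩ := h
  refine ⟨nondeg_prod hQ hQ', H56.O.prodHom Q Q' (z, 1), LinearMap.ext fun w => ?_, ?_, ?_⟩
  · simpa using LinearMap.congr_fun h4 w.1
  · rw [lin_prodHom, LinearMap.det_prodMap]; simp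
  · rw [spinor_prodHom h2 hQ hQ', map_one, mul_one]

theorem Cen.of_restrict (h2 : (2 : F) ≠ 0) (hQ : Q.polarBilin.Nondegenerate) (hf : QInv Q f)
    {A : Submodule F V} (hA : ∀ v ∈ A, f v ∈ A) (hd : Disjoint A (perp Q.polarBilin A))
    (h : Cen (Q.restrict A) (f.restrict hA) δ θ) : Cen Q f δ θ :=
  (h.prod h2 (nondeg_restrict hQ ((isSF_polar hQ).disjoint_perp hd))).of_qiso h2
    (hf.qiso_prod hQ hA hd)

variable [Finite F]

theorem cen_neg (h2 : (2 : F) ≠ 0) (hQ : Q.polarBilin.Nondegenerate) (f : End F V) :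
    Cen Q f ((-1) ^ finrank F V) (sqcl 2 ^ finrank F V * disc Q) :=
  ⟨hQ, H56.O.negOne Q, LinearMap.ext fun v => by simp,
    (det_neg' (1 : End F V)).trans (by simp), spinor_negOne' h2 hQ⟩

theorem dsc_polar (hQ : Q.polarBilin.Nondegenerate) : dsc Q.polarBilin = disc Q := by
  rw [(isSF_polar hQ).dsc_eq (Module.finBasis F V), disc, H58.gram_eq_gramB]

theorem cen_piece (h2 : (2 : F) ≠ 0) (hQ : Q.polarBilin.Nondegenerate) (hf : QInv Q f) {c : F}
    (hc : c * c = 1) {k : ℕ} (hk : Even k) {v : V} (hv : (nl f c ^ (k + 1)) v = 0)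
    (h0 : Q.polarBilin v ((nl f c ^ k) v) ≠ 0) :
    Cen Q f (-1) (sqcl 2 * (sqcl (kap F Unit k) * sqcl (Q.polarBilin v ((nl f c ^ k) v)))) := by
  have hB := isSF_polar hQ
  have h1 : H58.gramB (Q.polarBilin.compl₂ (nl f c ^ k)) (fun _ : Unit => v) =
    Q.polarBilin v ((nl f c ^ k) v) := by simp [H58.gramB]
  obtain ⟨hA, hd, h3⟩ := exists_piece hB hf.inv hc (x := fun _ : Unit => v) (fun _ => hv) (h1 ▸ h0)
  have h4 := dsc_pull_phi hB hf.inv hc (x := fun _ : Unit => v) (fun _ => hv) (h1 ▸ h0)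
  have h5 := nondeg_restrict hQ hd
  have h6 : finrank F (LinearMap.range (phi f c k fun _ : Unit => v)) = k + 1 := by
    obtain ⟨e, -⟩ := h3
    simpa using e.finrank_eq.symm
  have h7 : ∀ x : SqCl F, x ^ (k + 1) = x := fun x => by
    obtain ⟨j, rfl⟩ := hk
    rw [pow_succ, pow_add, H56.SqCl.mul_self, one_mul]
  have h8 := cen_neg h2 h5 (f.restrict hA)
  rw [h6, hk.add_one.neg_one_pow, h7, ← dsc_polar h5, polarBilin_restrict,
    ← h3.dsc_eq (hB.restrict hd).isRefl, h4, h7, h1] at h8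
  exact h8.of_restrict h2 hQ hf hA hd

theorem exists_cen_tb {K : Type*} [Field K] [Algebra F K] [IsAlgClosed K] [Algebra.IsAlgebraic F K]
    (h2 : (2 : F) ≠ 0) {u : Kˣ} {d : ℕ} {ε : ℤ} (hu : u * u ≠ 1) (h : TB (Nat.card F) u d ε)
    (hm : ∀ j, u ^ (Nat.card F : ℤ) ^ j = u ∨ u ^ (Nat.card F : ℤ) ^ j = u⁻¹ → d ∣ j) :
    ∃ (n : ℕ) (R : QuadraticForm F (Fin n → F)) (g : End F (Fin n → F)) (θ : SqCl F), QInv R g ∧
      jds K (ed g) = tb (Nat.card F) u d 1 ∧ θ ≠ 1 ∧ Cen R g 1 θ := by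
  obtain ⟨c, hc⟩ : ∃ c : ℕ, 2 * (c : ℤ) = (Nat.card F : ℤ) ^ d - ε := by
    obtain ⟨a, ha⟩ : Odd (Nat.card F ^ d) := Odd.pow ⟨_, (two_mul_card_div_two h2).symm⟩
    rw [← Nat.cast_pow, ha]
    rcases h.eps with rfl | rfl
    · exact ⟨a, by simp⟩
    · exact ⟨a + 1, by push_cast; ring⟩
  have h0 : ((2 * c : ℕ) : K) ≠ 0 := fun h0 => by
    have h1 : (Nat.card F : K) = 0 := by
      have := Fintype.ofFinite F
      rw [← map_natCast (algebraMap F K), Nat.card_eq_fintype_card, FiniteField.cast_card_eq_zero,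
        map_zero]
    have h3 := congrArg (Int.cast : ℤ → K) hc
    push_cast at h0 h3
    rw [h0, h1, zero_pow h.pos.ne'] at h3
    rcases h.eps with rfl | rfl <;> simp at h3
  obtain ⟨w, hw⟩ := exists_orderOf_eq_of_ne_zero h0
  have h1 : 0 < c := Nat.pos_of_ne_zero fun h => h0 (by simp [h])
  obtain ⟨j, rfl⟩ : u ∈ Submonoid.powers w := by
    have : NeZero (orderOf w) := ⟨by omega⟩
    rw [(isOfFinOrder_unit F w).mem_powers_iff_mem_zpowers, (IsPrimitiveRoot.orderOf w).zpowers_eq,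
      mem_rootsOfUnity, ← orderOf_dvd_iff_pow_eq_one, hw, ← Int.natCast_dvd_natCast]
    push_cast
    exact hc ▸ h.dvd
  have h3 : TB (Nat.card F) w d ε := tB_of_dvd h.pos h.eps (by rw [hw, ← hc]; simp)
  obtain ⟨n, R, hR, z, h4, -, h5⟩ := rd_tb h2 h3 hc
  refine ⟨n, R, z.lin ^ j, _, (qinv_lin z).pow j, ?_, fun h6 => ?_, hR, z, (Commute.refl _).pow_right j,
    (det_eq_one_iff_jds (K := K) (isUnit_lin z)).2 (h4 ▸ jdet_tb), rfl⟩
  · have h6 := (isUnit_lin z).pow j
    have h7 : ¬ IsUnit (aeval (z.lin ^ j) (mp F (w ^ j))) := fun h7 => by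
      rw [show z.lin ^ j = aeval z.lin (X ^ j : F[X]) by simp, ← aeval_comp, isUnit_aeval_iff_ed] at h7
      obtain ⟨a, b, h8⟩ := h7 _ ((mem_jds (ed_isPP _)).1 (h4 ▸ self_mem_tb h.pos))
      have h9 := minpoly.aeval F ((w ^ j : Kˣ) : K)
      simpa [aeval_comp, ← Units.val_pow_eq_pow_val, h9] using congrArg (aeval (w : K)) h8
    rw [isUnit_aeval_iff_ed] at h7
    push Not at h7
    obtain ⟨P, h8, h9⟩ := h7
    obtain ⟨v, k, hk, rfl⟩ := (ed_isPP _ P h8).exists_eq_mp (K := K) ((pok_ed h6).2 P h8)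
    have h10 : mp F v = mp F (w ^ j) := by_contra fun h => h9 (isCoprime_of_monic_irreducible_ne
      (monic_mp _) (irreducible_mp _) (monic_mp _) (irreducible_mp _) h).pow_left
    have h11 := (rd_ed (K := K) h2 hR (z ^ j)).fd h2
    rw [lin_pow] at h11
    obtain ⟨e, η, t, h12, -, h13⟩ := exists_tb_add (zpow_card_injective F) h11.inv h11.neg
      ((mem_jds (ed_isPP _)).2 (h10 ▸ h8)) hu
    have h14 := Nat.le_of_dvd h12.pos (hm e (by
      rw [h12.eq]; rcases h12.eps with rfl | rfl <;> simp))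
    have h15 := congrArg jdeg h13
    rw [jdeg_jds_ed h6, ← jdeg_jds_ed (K := K) (isUnit_lin z), h4, jdeg_add, jdeg_tb, jdeg_tb] at h15
    have h16 := h.pos
    obtain rfl : k = 1 := by nlinarith
    obtain rfl : e = d := by omega
    obtain rfl : t = 0 := (jpos_add.1 (h13 ▸ h11.pos : JPos (_ + t))).2.eq_zero (by omega)
    rw [h13, add_zero]
  · rw [h6, lg_one, eq_comm, ← orderOf_dvd_iff_zpow_eq_one, hw, Int.natCast_dvd_natCast] at h5
    have := Nat.le_of_dvd h1 h5
    omega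

theorem exists_cen_of_irreducible (h2 : (2 : F) ≠ 0) (hQ : Q.polarBilin.Nondegenerate) (hf : QInv Q f)
    {P : F[X]} (hP : P ∈ ed f) (hi : Irreducible P) (hc : IsCoprime P (X ^ 2 - 1)) :
    ∃ θ ≠ 1, Cen Q f 1 θ := by
  classical
  let K := AlgebraicClosure F
  have hB := isSF_polar hQ
  have h1 := (Multiset.filter_add_not (IsCoprime · (X ^ 2 - 1)) (ed f)).symm
  set s := (ed f).filter (IsCoprime · (X ^ 2 - 1))
  set t := (ed f).filter (¬ IsCoprime · (X ^ 2 - 1))
  have h3 : ∀ R ∈ t, ∃ c k, c * c = 1 ∧ R = (X - C c) ^ k := fun R hR => by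
    obtain ⟨k, -, h | h⟩ := (ed_isPP f R (Multiset.mem_filter.1 hR).1).isCoprime_or.resolve_left
      (Multiset.mem_filter.1 hR).2
    · exact ⟨1, k, one_mul 1, h⟩
    · exact ⟨-1, k, by simp, by simpa using h⟩
  have h4 : ∀ P ∈ s, ∀ R ∈ t, IsCoprime P R := fun P hP R hR => by
    obtain ⟨c, k, hc, rfl⟩ := h3 R hR
    exact ((Multiset.mem_filter.1 hP).2.of_isCoprime_of_dvd_right
      ⟨X + C c, by rw [← C_1, ← hc, C_mul]; ring⟩).pow_right
  have h5 : s.map (pstar (RingHom.id F)) = s := by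
    have h6 := hf.inv.map_pstar_ed hB
    have h7 : t.map (pstar (RingHom.id F)) = t := by
      conv_rhs => rw [← Multiset.map_id t]
      refine Multiset.map_congr rfl fun P hP => ?_
      obtain ⟨c, k, hc, rfl⟩ := h3 P hP
      rw [pstar_pow, pstar_X_sub_C_of_mul_self hc, id]
    rwa [h1, Multiset.map_add, h7, add_left_inj] at h6
  have h6 := (hf.inv.disjoint_ker_of_add hB h1 h4 h5).2
  have h7 := (ed_restrict_ker_of_add h1 h4).2.1
  have h8 : POk s := (pok_ed (hf.isUnit hQ)).mono (Multiset.filter_le _ _)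
  have h9 : P ∈ s := Multiset.mem_filter.2 ⟨hP, hc⟩
  obtain ⟨u, rfl⟩ := exists_eq_mp (K := K) (h8.1 P h9).monic hi (h8.2 P h9)
  have hu : u * u ≠ 1 := fun h => by
    obtain ⟨a, b, h10⟩ := hc
    simpa [sq, ← Units.val_mul, h] using congrArg (aeval (u : K)) h10
  obtain ⟨d, ε, m, h10, h11, h12⟩ := exists_tb_add (k := 1) (zpow_card_injective F) (jinv_jds h8.1)
    ((map_pstar_id_eq_iff_jinv h8).1 h5) ((mem_jds h8.1).2 ((pow_one (mp F u)).symm ▸ h9)) hu
  obtain ⟨n, R, g, θ, h13, h14, h15, h16⟩ := exists_cen_tb h2 hu h10 h11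
  have hR := h16.1
  obtain ⟨s', h17⟩ := Multiset.le_iff_exists_add.1 ((jds_le_jds_iff (K := K) (pok_ed (h13.isUnit hR))
    h8).1 (by rw [h12, h14]; exact Multiset.le_add_right _ _))
  have h18 : s' ≤ s := h17 ▸ Multiset.le_add_left _ _
  obtain ⟨-, n', R', g', hR', h19, rfl, -⟩ := exists_realQ_of_rigid (h8.mono h18).1 (h8.mono h18).2
    (by rwa [h17, Multiset.map_add, h13.inv.map_pstar_ed (isSF_polar hR), add_right_inj] at h5)
    fun P h => (Multiset.mem_filter.1 (Multiset.mem_of_le h18 h)).2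
  refine ⟨θ, h15, ((h16.prod h2 hR').of_qiso h2 (qiso_of_rigid (nondeg_restrict hQ h6)
    (nondeg_prod hR hR') (hf.restrict (ker_aeval_mapsTo f _)) (h13.prodMap h19) (sim_of_ed_eq ?_)
    fun P h => (Multiset.mem_filter.1 (h7 ▸ h : P ∈ s)).2).symm).of_restrict h2 hQ hf _ h6⟩
  rw [h7, ed_prodMap, h17]

theorem isConj_of_iso (h2 : (2 : F) ≠ 0) {a b : O Q}
    (h : Iso (σ := RingHom.id F) Q.polarBilin a.lin Q.polarBilin b.lin) : IsConj a b := by
  obtain ⟨e, h3, h4⟩ := qiso_of_iso_of_two_ne h2 h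
  exact isConj_iff.2 ⟨⟨e, h4⟩, mul_inv_eq_iff_eq_mul.2 (H56.O.ext h3)⟩

theorem three_le_card (h2 : (2 : F) ≠ 0) : 3 ≤ Nat.card F := by
  have := two_mul_card_div_two h2
  have := Finite.one_lt_card (α := F)
  omega

theorem classes_O_even_le (h2 : (2 : F) ≠ 0) (hQ : Q.polarBilin.Nondegenerate) {n : ℕ} (hn : 0 < n)
    (hV : finrank F V = 2 * n) : 2 * Nat.card (ConjClasses (O Q)) ≤ 19 * Nat.card F ^ n := by
  have h1 := classes_symm (G := O Q) (·.lin) h2 (isSF_polar hQ) (fun g => (qinv_lin g).inv)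
    fun a b => isConj_of_iso h2
  rw [hV] at h1
  have h3 := (bd2_o (three_le_card h2) (N := 2 * n) (by omega) n).1
  have h4 := (bd2_o' (three_le_card h2) (N := 2 * n) (by omega) n).1
  have h5 := (Nat.cast_le (α := ℝ)).2 h1
  have h6 : (0 : ℝ) ≤ Nat.card F ^ n := by positivity
  rw [← Nat.cast_le (α := ℝ)]
  push_cast at h3 h4 h5 ⊢
  linarith

theorem classes_omega_le (h2 : (2 : F) ≠ 0) (hQ : Q.polarBilin.Nondegenerate) {n : ℕ} (hn : 0 < n)
    (hV : finrank F V = 2 * n + 1) :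
    10 * Nat.card (ConjClasses (commutator (O Q))) ≤ 73 * Nat.card F ^ n := by
  classical
  have h0 : spinor hQ (H56.O.negOne Q) = sqcl 2 * disc Q := by
    rw [spinor_negOne' h2, hV, pow_succ, two_mul, pow_add, H56.SqCl.mul_self, one_mul]
  have h0' : H56.dickson hQ (H56.O.negOne Q) = -1 := by
    rw [H56.dickson_apply, H56.O.rk_negOne h2, hV, pow_succ, pow_mul]; simp
  let ψ : ℤˣ →* SqCl F := ⟨⟨fun u => if u = 1 then 1 else sqcl 2 * disc Q, if_pos rfl⟩, fun a b => by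
    rcases Int.units_eq_one_or a with rfl | rfl <;> rcases Int.units_eq_one_or b with rfl | rfl <;> simp⟩
  let χ : O Q →* SqCl F := spinor hQ * ψ.comp (H56.dickson hQ)
  have hχ : ∀ g, χ g = spinor hQ g * if LinearMap.det g.lin = 1 then 1 else sqcl 2 * disc Q :=
    fun g => by simp only [← H56.dickson_eq_one_iff_det hQ h2]; rfl
  have h1 : χ.ker.index = 2 := by
    rw [Subgroup.index_ker, MonoidHom.range_eq_top.2 fun x => ?_, Subgroup.card_top, H56.card_SqCl h2]
    obtain ⟨g, hg⟩ := H56.dickson_prod_spinor_surjective hQ (by omega) (1, x)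
    simp only [MonoidHom.prod_apply, Prod.mk.injEq] at hg
    exact ⟨g, by simp [χ, hg.1, hg.2]⟩
  have hm := H56.mem_commutator_iff hQ (H56.not_isExc_of_two_ne h2)
  have h3 := two_mul_classes_le_of_center (N := commutator (O Q)) (H := χ.ker)
    (fun g hg => by simp [χ, ((hm g).1 hg).1, ((hm g).1 hg).2]) H56.O.negOne_mem_center
    (by simp [χ, ψ, h0, h0']) (by simp [hm, h0']) fun g hg => by
      rcases Int.units_eq_one_or (H56.dickson hQ g) with h | h
      · exact .inl ((hm g).2 ⟨h, by simpa [χ, h] using hg⟩)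
      · exact .inr ((hm _).2 ⟨by simp [h, h0'], by simpa [χ, ψ, h, h0, mul_comm] using hg⟩)
  have h4 := two_mul_classes_le χ.ker h1
  have h5 := classes_symm (G := O Q) (·.lin) h2 (isSF_polar hQ) (fun g => (qinv_lin g).inv)
    fun a b => isConj_of_iso h2
  have h6 : ∀ {x : O Q} {δ θ}, (∀ y, Commute x y → y ∈ χ.ker) → Cen Q x.lin δ θ →
      θ * (if δ = 1 then 1 else sqcl 2 * disc Q) = 1 := fun h ⟨_, z, h7, h8, h9⟩ => by
    rw [← h8, ← h9, ← hχ]
    exact h z (H56.O.ext fun v => LinearMap.congr_fun h7.symm v)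
  have h7 := classes_split (G := O Q) (·.lin) h2 (isSF_polar hQ) (fun g => (qinv_lin g).inv)
    (fun a b => isConj_of_iso h2) (fun C => ∀ y, Commute (rep C) y → y ∈ χ.ker)
    (fun k => sqcl (kap F Unit k) * disc Q) (fun x hx c k v hc hk hv h7 => by
      have h8 := h6 hx (cen_piece h2 hQ (qinv_lin _) hc hk hv h7)
      rw [if_neg fun h => h2 (by linear_combination -h), mul_mul_mul_comm, H56.SqCl.mul_self, one_mul,
        mul_right_comm, mul_eq_one_iff_inv_eq, H56.SqCl.inv_eq] at h8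
      exact h8.symm) fun x hx P hP hi hc => by
      obtain ⟨θ, h8, h9⟩ := exists_cen_of_irreducible h2 hQ (qinv_lin _) hP hi hc
      exact h8 (by simpa using h6 hx h9)
  rw [hV] at h5 h7
  have h8 := (bd2_o (three_le_card h2) (N := 2 * n + 1) (by omega) n).2
  have h9 := (bd2_o' (three_le_card h2) (N := 2 * n + 1) (by omega) n).2
  have h10 := (bd2_split (three_le_card h2) (N := 2 * n + 1) (by omega) n).2
  have h11 : (0 : ℝ) ≤ Nat.card F ^ n := by positivity
  rw [← Nat.cast_le (α := ℝ)] at h3 h4 h5 h7 ⊢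
  push_cast at h3 h4 h5 h7 h8 h9 h10 ⊢
  linarith

theorem card_classes_congr {G H : Type*} [Group G] [Group H] [Finite G] (e : G ≃* H) :
    Nat.card (ConjClasses G) = Nat.card (ConjClasses H) := by
  refine Nat.eq_of_mul_eq_mul_right (Nat.card_pos (α := G)) ?_
  rw [← card_comm_eq_card_conjClasses_mul_card, Nat.card_congr e.toEquiv,
    ← card_comm_eq_card_conjClasses_mul_card]
  exact Nat.card_congr ((e.toEquiv.prodCongr e.toEquiv).subtypeEquiv fun p =>
    ⟨fun h => h.map e, fun h => by simpa using Commute.map h e.symm⟩)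

theorem card_le_classes {Y : Type*} (P : Y → F[X]) (hP : Function.Injective P)
    (h : ∀ y, ∃ g : O Q, (ed g.lin).prod = P y) : Nat.card Y ≤ Nat.card (ConjClasses (O Q)) := by
  choose g hg using h
  refine Nat.card_le_card_of_injective (fun y => ConjClasses.mk (g y)) fun a b hab => hP ?_
  obtain ⟨c, hc⟩ := isConj_iff.1 (ConjClasses.mk_eq_mk_iff_isConj.1 hab)
  rw [← hg, ← hg, Sim.ed_eq (f := (g a).lin) (g := (g b).lin) ⟨c.1, fun v => by simp [← hc]⟩]

omit [Finite F] in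
theorem real_of_irreducible (h2 : (2 : F) ≠ 0) {s : Multiset F[X]}
    (hs : ∀ P ∈ s, P.Monic ∧ Irreducible P) (h0 : s.prod.coeff 0 ≠ 0)
    (hp : pstar (RingHom.id F) s.prod = s.prod) :
    Real (RingHom.id F) 1 False s := by
  classical
  refine (real_symm_iff h2).2 ⟨fun P h => isPP_of_irreducible (hs P h).1 (hs P h).2,
    coeff_zero_ne_of_prod h0, eq_of_prod_eq (fun P hP => ?_) hs (by rw [← pstar_multiset_prod, hp]),
    fun c _ k hk => ?_⟩
  · obtain ⟨R, hR, rfl⟩ := Multiset.mem_map.1 hP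
    exact ⟨monic_pstar (hs R hR).2.ne_zero, irreducible_pstar (fun _ => rfl) (hs R hR).1 (hs R hR).2⟩
  · rw [Multiset.count_eq_zero.2 fun h => not_irreducible_pow (by rintro rfl; simp at hk) (hs _ h).2]
    exact Even.zero

theorem disc_eq_eval (h2 : (2 : F) ≠ 0) (hQ : Q.polarBilin.Nondegenerate) (hf : QInv Q f)
    (he : Even (finrank F V)) (h : (ed f).prod.eval 1 * (ed f).prod.eval (-1) ≠ 0) :
    disc Q = sqcl ((ed f).prod.eval 1 * (ed f).prod.eval (-1)) := by
  obtain ⟨g, rfl⟩ := hf.exists_lin_eq hQ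
  have h1 : (ed g.lin).prod.eval 1 = LinearMap.det (1 + (H56.O.negOne Q * g).lin) := by
    rw [← charpoly_eq_prod_ed, LinearMap.eval_charpoly, map_one, sub_eq_add_neg]; rfl
  have h3 : (ed g.lin).prod.eval (-1) = LinearMap.det (1 + g.lin) := by
    rw [← charpoly_eq_prod_ed, LinearMap.eval_charpoly, map_neg, map_one, ← neg_add', det_neg',
      he.neg_one_pow, one_mul]
  rw [h1, h3] at h ⊢
  have h4 := left_ne_zero_of_mul h
  have h5 := right_ne_zero_of_mul h
  have h6 := spinor_of_det_ne_zero h2 hQ _ h4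
  obtain ⟨m, hm⟩ := he
  rw [map_mul, spinor_negOne' h2, spinor_of_det_ne_zero h2 hQ g h5, hm, pow_add, pow_add,
    H56.SqCl.mul_self, one_mul, H56.sqcl_mul_self_mul (pow_ne_zero _ h2),
    H56.sqcl_mul_self_mul (pow_ne_zero _ h2)] at h6
  rw [H56.sqcl_mul h4 h5, ← h6, mul_assoc, H56.SqCl.mul_self, mul_one]

theorem exists_O_of_pal (h2 : (2 : F) ≠ 0) (hQ : Q.polarBilin.Nondegenerate) {P : F[X]} (hP : Pal P)
    (hd : P.natDegree = finrank F V)
    (h : P.eval 1 * P.eval (-1) ≠ 0 → sqcl (P.eval 1 * P.eval (-1)) = disc Q) :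
    ∃ g : O Q, (ed g.lin).prod = P := by
  classical
  obtain ⟨s, hs, rfl⟩ := exists_prod_eq hP.1
  have hd' := (natDegree_multiset_prod_of_monic _ fun P h => (hs P h).1).symm.trans hd
  have he := hd ▸ hP.2.1
  have h0 : s.prod.coeff 0 ≠ 0 := hP.2.2.1 ▸ one_ne_zero
  have h1 := real_of_irreducible h2 hs h0 hP.2.2.2
  suffices h3 : RealQ (IsPlus Q) s by
    obtain ⟨d, R, f, h3, h4, rfl, h5⟩ := h3
    rw [sum_natDegree_ed] at hd'
    obtain ⟨e, h6⟩ := H58.exists_equiv_of_isPlus_iff h3 hQ hd' (hd' ▸ he) h5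
    obtain ⟨g, rfl⟩ := h4.exists_lin_eq h3
    exact ⟨_, congrArg _ (sim_congrMul e one_ne_zero (by simpa using h6) g).ed_eq.symm⟩
  by_cases h3 : s.prod.eval 1 * s.prod.eval (-1) = 0
  · obtain ⟨c, hc, h4⟩ : ∃ c : F, c * c = 1 ∧ s.prod.eval c = 0 :=
      (mul_eq_zero.1 h3).elim (fun h => ⟨1, one_mul 1, h⟩) fun h => ⟨-1, by simp, h⟩
    have h5 : X - C c ∈ s := by
      obtain ⟨R, hR, h5⟩ := (prime_X_sub_C c).exists_mem_multiset_dvd (dvd_iff_isRoot.2 h4)
      rwa [eq_of_monic_of_associated (monic_X_sub_C c) (hs R hR).1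
        ((irreducible_X_sub_C c).associated_of_dvd (hs R hR).2 h5)]
    obtain ⟨j, hj⟩ := Cfsg.Agent.S2385.even_count hs hP.2.2.1 h1.map_pstar (hd' ▸ he) hc
    have h6 := Multiset.count_pos.2 h5
    obtain ⟨t, rfl⟩ := Multiset.le_iff_exists_add.1
      (Multiset.le_count_iff_replicate_le.1 (show 2 * 1 ≤ s.count (X - C c) by omega))
    have h7 := pal_pow hc 1
    rw [Multiset.prod_add, Multiset.prod_replicate] at h0 hP
    obtain ⟨ε, h8⟩ := (real_of_irreducible h2 (s := t) (fun P h => hs P (Multiset.mem_add.2 (.inr h)))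
      (right_ne_zero_of_mul (mul_coeff_zero (_ : F[X]) _ ▸ h0)) (mul_left_cancel₀ h7.1.ne_zero (by
        rw [← hP.2.2.2, pstar_mul, h7.2.2.2]))).exists_realQ_of_two_ne h2
    have h9 : Even ((Multiset.replicate (2 * 1) (X - C c)).map natDegree).sum := by simp
    rw [← hd', Multiset.map_add, Multiset.sum_add] at he
    exact ((realQ_replicate hc (IsPlus Q ↔ ε) (.inr one_pos)).add h8 h9
      ((Nat.even_add.1 he).1 h9)).congr (by tauto)
  · obtain ⟨ε, d, R, f, h4, h5, rfl, h6⟩ := h1.exists_realQ_of_two_ne h2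
    rw [sum_natDegree_ed] at hd'
    obtain ⟨m, hm⟩ := he
    refine ⟨d, R, f, h4, h5, rfl, ?_⟩
    rw [isPlus_iff_lg (K := AlgebraicClosure F) h2 h4 (hd'.trans (hm.trans (two_mul m).symm)),
      isPlus_iff_lg (K := AlgebraicClosure F) h2 hQ (hm.trans (two_mul m).symm), disc_eq_eval h2 h4 h5 ⟨m, hd'.trans hm⟩ h3,
      h h3]

theorem le_classes_O_even (h2 : (2 : F) ≠ 0) (hQ : Q.polarBilin.Nondegenerate) {n : ℕ} (hn : 2 ≤ n)
    (hV : finrank F V = 2 * n) : Nat.card F ^ n ≤ 2 * Nat.card (ConjClasses (O Q)) := by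
  obtain ⟨m, rfl⟩ := Nat.exists_eq_add_of_le' hn
  have := Finite.one_lt_card_iff_nontrivial.1 ((H56.card_SqCl h2).symm ▸ one_lt_two)
  obtain ⟨x, hx⟩ := exists_ne (1 : SqCl F)
  obtain ⟨a, ha, rfl⟩ := H56.sqcl_surjective x
  have h4 : (4 : F) ≠ 0 := fun h => mul_ne_zero h2 h2 (by linear_combination h)
  let p : F[X] → Prop := fun P => P.eval 1 * P.eval (-1) ≠ 0 → sqcl (P.eval 1 * P.eval (-1)) = disc Q
  let A := {P : F[X] // P.Monic ∧ P.natDegree = 2 * (m + 2) ∧ P.coeff 0 = 1 ∧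
    pstar (RingHom.id F) P = P}
  let Φ : F[X] → F[X] := fun P => P + C ((a - 1) * P.eval 1 / 4) * (X ^ (m + 1) * (X + 1) ^ 2)
  have h1 : ∀ P, (Φ P).eval 1 = a * P.eval 1 := fun P => by simp [Φ]; field_simp; ring
  have h3 : ∀ P, (Φ P).eval (-1) = P.eval (-1) := fun P => by simp [Φ]
  have h5 : ∀ P : A, (Φ P).Monic ∧ (Φ P).natDegree = 2 * (m + 2) ∧ (Φ P).coeff 0 = 1 ∧
      pstar (RingHom.id F) (Φ P) = Φ P := fun ⟨P, h5, h6, h7, h8⟩ => by
    have h9 : (C ((a - 1) * P.eval 1 / 4) * (X ^ (m + 1) * (X + 1) ^ 2)).natDegree < P.natDegree := by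
      rw [h6]; refine lt_of_le_of_lt (b := m + 3) (by compute_degree!) (by omega)
    have h10 := natDegree_add_eq_left_of_natDegree_lt h9
    have h11 : (Φ P).coeff 0 = 1 := by simp [Φ, h7]
    refine ⟨h5.add_of_left (degree_lt_degree h9), h10.trans h6, h11, ?_⟩
    rw [pstar_eq_reflect (h7 ▸ one_ne_zero), h7, h6] at h8
    change pstar _ (Φ P) = Φ P
    rw [pstar_eq_reflect (h11.trans_ne one_ne_zero), h11, h10, h6]
    simp only [map_one, inv_one, one_mul, Polynomial.map_id] at h8 ⊢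
    rw [reflect_add, h8, reflect_C_mul, show (X ^ (m + 1) * (X + 1) ^ 2 : F[X]) =
      X ^ (m + 3) + (X ^ (m + 2) + X ^ (m + 2)) + X ^ (m + 1) by ring]
    simp only [reflect_add, reflect_monomial]
    rw [revAt_le (by omega), revAt_le (by omega), revAt_le (by omega), show 2 * (m + 2) - (m + 3) = m + 1
      by omega, show 2 * (m + 2) - (m + 2) = m + 2 by omega, show 2 * (m + 2) - (m + 1) = m + 3 by omega]
    simp only [Φ]
    ring
  have h6 : Nat.card {P : A // p P} ≤ Nat.card (ConjClasses (O Q)) := card_le_classes (·.1.1)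
    (Subtype.val_injective.comp Subtype.val_injective) fun P => exists_O_of_pal h2 hQ
      ⟨P.1.2.1, ⟨m + 2, P.1.2.2.1.trans (two_mul _)⟩, P.1.2.2.2⟩ (P.1.2.2.1.trans hV.symm) P.2
  have h7 : Nat.card {P : A // ¬ p P} ≤ Nat.card {P : A // p P} := Nat.card_le_card_of_injective
    (fun P => ⟨⟨Φ P, h5 P⟩, fun _ => by
      obtain ⟨h7, h8⟩ := Classical.not_imp.1 P.2
      rw [h1, h3, mul_assoc, H56.sqcl_mul ha h7, H56.SqCl.eq_of_ne_one hx
        (y := disc Q * sqcl (P.1.1.eval 1 * P.1.1.eval (-1))) fun h => h8 (by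
          rw [← H56.SqCl.inv_eq (disc Q), eq_inv_of_mul_eq_one_right h]), mul_assoc,
        H56.SqCl.mul_self, mul_one]⟩) fun P R h => by
    have h8 : Φ P = Φ R := congrArg (·.1.1) h
    have h9 := mul_left_cancel₀ ha ((h1 _).symm.trans (h8 ▸ h1 _))
    simp only [Φ, h9, add_left_inj] at h8
    exact Subtype.ext (Subtype.ext h8)
  classical
  rw [← Cfsg.Agent.S2385.card_palin, ← Nat.card_congr (Equiv.sumCompl fun P : A => p P), Nat.card_sum]
  omega

theorem le_classes_O_odd {ι : Type} [Fintype ι] [DecidableEq ι] {Q : QuadraticForm F (ι → F)}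
    (h2 : (2 : F) ≠ 0) (hQ : Q.polarBilin.Nondegenerate) {n : ℕ} (hV : Fintype.card ι = 2 * n + 1) :
    2 * Nat.card F ^ n ≤ Nat.card (ConjClasses (O Q)) := by
  rw [← Cfsg.Agent.S2385.card_palin]
  refine le_of_eq_of_le (b := Nat.card (Bool × _)) (by rw [Nat.card_prod]; simp; rfl) ?_
  refine card_le_classes (fun y => (X - C (if y.1 then 1 else -1)) * y.2.1) ?_ ?_
  · rintro ⟨a, P⟩ ⟨b, R⟩ h
    have h1 := congrArg (coeff · 0) h
    have h3 : (1 : F) ≠ -1 := fun h => h2 (by linear_combination h)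
    obtain rfl : a = b := by
      cases a <;> cases b <;> simp [P.2.2.2.1, R.2.2.2.1, h3, h3.symm] at h1 ⊢
    exact Prod.ext rfl (Subtype.ext (mul_left_cancel₀ (X_sub_C_ne_zero _) h))
  · rintro ⟨a, P, h1, h3, h4, h5⟩
    have hc : (if a then 1 else -1 : F) * (if a then 1 else -1) = 1 := by split_ifs <;> simp
    generalize (if a then 1 else -1 : F) = c at hc ⊢
    obtain ⟨s, hs, h6⟩ := exists_prod_eq ((monic_X_sub_C c).mul h1)
    obtain ⟨g, hg⟩ := exists_O_med_eq_of_odd rfl hQ ⟨n, hV⟩ (real_of_irreducible h2 hs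
      (by simpa [h6, h4] using left_ne_zero_of_mul_eq_one hc)
      (by rw [h6, pstar_mul, h5, pstar_X_sub_C_of_mul_self hc])) (by
        rw [← natDegree_multiset_prod_of_monic _ fun P h => (hs P h).1, h6,
          (monic_X_sub_C c).natDegree_mul h1, h3, hV, natDegree_X_sub_C, add_comm])
    exact ⟨H56.toO Q rfl g, h6 ▸ congrArg _ hg⟩

end H53
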