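import Cfsg.Agent.H53.CNum

/-! Counting with generating functions (`Cnt`), and estimates with the weights
`wt q j = (12/7)^(j % 2) q^(j / 2)`. -/

set_option autoImplicit false

namespace H53

open Finset PowerSeries

section cnt
variable {Y Z : Type*} {S : Set Y} {T : Set Z} {d : Y → ℕ} {e : Z → ℕ} {f g : ℕ⟦X⟧}

/-- the number of elements of `S` of degree `j` is at most the coefficient of `f` -/
def Cnt (S : Set Y) (d : Y → ℕ) (f : ℕ⟦X⟧) : Prop :=
  ∀ j, ∃ T : Finset Y, (∀ y ∈ S, d y = j → y ∈ T) ∧ #T ≤ coeff j f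

theorem Cnt.mul (h : Cnt S d f) (h' : Cnt T e g) : Cnt (S ×ˢ T) (fun p => d p.1 + e p.2) (f * g) :=
  fun j => by
    classical
    choose A hA hA' using h
    choose B hB hB' using h'
    refine ⟨(antidiagonal j).biUnion fun p => A p.1 ×ˢ B p.2, fun y hy hj => mem_biUnion.2
      ⟨(d y.1, e y.2), HasAntidiagonal.mem_antidiagonal.2 hj, mem_product.2 ⟨hA _ _ hy.1 rfl,
        hB _ _ hy.2 rfl⟩⟩, card_biUnion_le.trans ?_⟩
    rw [coeff_mul]
    exact sum_le_sum fun p _ => (card_product _ _).trans_le (Nat.mul_le_mul (hA' _) (hB' _))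

theorem Cnt.image (h : Cnt S d f) (φ : Y → Z) (hφ : ∀ z ∈ T, ∃ y ∈ S, φ y = z ∧ d y = e z) :
    Cnt T e f := fun j => by
  classical
  obtain ⟨A, hA, hA'⟩ := h j
  exact ⟨A.image φ, fun z hz hj => by
    obtain ⟨y, h1, rfl, h2⟩ := hφ z hz
    exact mem_image_of_mem _ (hA y h1 (h2.trans hj)), card_image_le.trans hA'⟩

theorem cnt_one (y : Y) (d : Y → ℕ) (h : d y = 0) : Cnt {y} d 1 := fun j =>
  ⟨if j = 0 then {y} else ∅, by rintro _ rfl rfl; simp [h], by rw [coeff_one]; split_ifs <;> simp⟩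

theorem Cnt.pi {S : ℕ → Set Y} {d : ℕ → Y → ℕ} {R : ℕ → ℕ⟦X⟧} (y : Y) (s : Finset ℕ)
    (h : ∀ k ∈ s, Cnt (S k) (d k) (R k)) :
    Cnt {z : ℕ → Y | (∀ k ∈ s, z k ∈ S k) ∧ ∀ k ∉ s, z k = y} (fun z => ∑ k ∈ s, d k (z k))
      (∏ k ∈ s, R k) := by
  induction s using Finset.induction_on with
  | empty => exact (cnt_one (fun _ => y) (fun _ => 0) rfl).image id fun z hz =>
      ⟨z, funext fun k => hz.2 k (notMem_empty k), rfl, rfl⟩
  | insert a s ha ih =>
    rw [prod_insert ha]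
    refine ((h a (mem_insert_self _ _)).mul (ih fun k hk => h k (mem_insert_of_mem hk))).image
      (fun p => Function.update p.2 a p.1) fun z hz => ⟨(z a, Function.update z a y),
        ⟨hz.1 a (mem_insert_self _ _), fun k hk => ?_, fun k hk => ?_⟩, by simp, ?_⟩
    · simpa [ne_of_mem_of_not_mem hk ha] using hz.1 k (mem_insert_of_mem hk)
    · by_cases h : k = a
      · simp [h]
      · simp [h, hz.2 k (by simp [h, hk])]
    · rw [sum_insert ha]
      exact congrArg _ (sum_congr rfl fun k hk => by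
        simp [ne_of_mem_of_not_mem hk ha])

theorem Cnt.card_le (h : Cnt S d f) {X : Type*} {n : ℕ} (φ : X → Y) (hφ : Function.Injective φ)
    (hS : ∀ x, φ x ∈ S) (hd : ∀ x, d (φ x) = n) : Nat.card X ≤ coeff n f := by
  obtain ⟨T, h1, h2⟩ := h n
  exact (Nat.card_le_card_of_injective (fun x => (⟨φ x, h1 _ (hS x) (hd x)⟩ : T))
    fun _ _ h => hφ (Subtype.mk.inj h)).trans ((Nat.card_eq_finsetCard T).trans_le h2)

theorem cnt_bit (p : Prop) [Decidable p] {k : ℕ} (hk : 0 < k) :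
    Cnt {e : ℕ | e ≤ 1 ∧ (¬ p → e = 0)} (k * ·) (if p then 1 + X ^ k else 1) := by
  split_ifs with h
  · refine fun j => ⟨if j = 0 then {0} else if j = k then {1} else ∅, fun e he hj => ?_, ?_⟩
    · obtain rfl | rfl : e = 0 ∨ e = 1 := by have := he.1; omega
      · simp [← hj]
      · simp [← hj, hk.ne']
    · rw [map_add, coeff_one, coeff_X_pow]
      split_ifs <;> simp
  · exact (cnt_one 0 _ (mul_zero k)).image id fun e he => ⟨e, he.2 h, rfl, rfl⟩

end cnt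

section wt
variable {q k : ℕ} {f g : ℕ⟦X⟧} {ρ σ : ℝ}

/-- the weights -/
noncomputable def wt (q j : ℕ) : ℝ := (12 / 7) ^ (j % 2) * q ^ (j / 2)

theorem wt_even (m : ℕ) : wt q (2 * m) = q ^ m := by simp [wt]

theorem wt_odd (m : ℕ) : wt q (2 * m + 1) = 12 / 7 * q ^ m := by
  rw [wt, Nat.mul_add_mod, show (2 * m + 1) / 2 = m by omega]; simp

/-- the weighted sum of the coefficients is at most `ρ` -/
def EvW (q : ℕ) (f : ℕ⟦X⟧) (ρ : ℝ) : Prop := ∀ N, ∑ j ∈ range N, (coeff j f : ℕ) / wt q j ≤ ρ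

/-- bounds for the even and odd coefficients -/
def Bd2 (q : ℕ) (f : ℕ⟦X⟧) (ρ σ : ℝ) : Prop :=
  ∀ m, (coeff (2 * m) f : ℕ) ≤ ρ * q ^ m ∧ (coeff (2 * m + 1) f : ℕ) ≤ σ * q ^ m

theorem EvW.nonneg (h : EvW q f ρ) : 0 ≤ ρ := by simpa using h 0

theorem EvW.mono (h : EvW q f ρ) (h' : ρ ≤ σ) : EvW q f σ := fun N => (h N).trans h'

theorem EvW.add (h : EvW q f ρ) (h' : EvW q g σ) : EvW q (f + g) (ρ + σ) := fun N => by
  simpa only [map_add, Nat.cast_add, add_div, sum_add_distrib] using add_le_add (h N) (h' N)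

theorem Bd2.mono {ρ' σ' : ℝ} (h : Bd2 q f ρ σ) (h1 : ρ ≤ ρ') (h2 : σ ≤ σ') : Bd2 q f ρ' σ' :=
  fun m => ⟨(h m).1.trans (by gcongr), (h m).2.trans (by gcongr)⟩

theorem bd2_GS (hq : 0 < q) (hk : 0 < k) : Bd2 q (GS q (2 * k)) 1 0 := fun m => by
  simp only [GS, coeff_mk]
  rw [if_neg (c := 2 * k ∣ 2 * m + 1) fun h => by have := dvd_of_mul_right_dvd h; omega]
  refine ⟨?_, by simp⟩
  split_ifs
  · rw [one_mul, Nat.mul_div_mul_left _ _ two_pos]
    exact_mod_cast Nat.pow_le_pow_right hq (Nat.div_le_self _ _)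
  · simp

variable (hq : 3 ≤ q)
include hq

theorem Bd2.one_add_X (h : Bd2 q f ρ σ) (hσ : 0 ≤ σ) : Bd2 q ((1 + X) * f) (ρ + σ / 3) (σ + ρ) := fun m => by
  have h3 : (3 : ℝ) ≤ q := by exact_mod_cast hq
  simp only [add_mul, one_mul, map_add, coeff_succ_X_mul, Nat.cast_add]
  refine ⟨add_le_add (h m).1 ?_, add_le_add (h m).2 (h m).1⟩
  rcases m with _ | m
  · simp; positivity
  · rw [show 2 * (m + 1) = 2 * m + 1 + 1 by ring, coeff_succ_X_mul, pow_succ']
    exact (h m).2.trans (by rw [← mul_assoc]; gcongr; linarith [mul_le_mul_of_nonneg_left h3 hσ])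

theorem wt_pos (j : ℕ) : 0 < wt q j := by
  have : 0 < q := by omega
  rw [wt]; positivity

theorem wt_mul_le (i j : ℕ) : wt q i * wt q j ≤ wt q (i + j) := by
  have h3 : (3 : ℝ) ≤ q := by exact_mod_cast hq
  obtain ⟨i, rfl | rfl⟩ := i.even_or_odd' <;> obtain ⟨j, rfl | rfl⟩ := j.even_or_odd'
  · rw [← mul_add, wt_even, wt_even, wt_even, pow_add]
  · rw [← add_assoc, ← mul_add, wt_even, wt_odd, wt_odd, pow_add, mul_left_comm]
  · rw [add_right_comm, ← mul_add, wt_even, wt_odd, wt_odd, pow_add, mul_assoc]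
  · rw [show 2 * i + 1 + (2 * j + 1) = 2 * (i + j + 1) by ring, wt_even, wt_odd, wt_odd, pow_succ,
      pow_add]
    nlinarith [show (0 : ℝ) < q ^ i * q ^ j by positivity]

theorem evW_X_pow (e : ℕ) : EvW q (X ^ e) (1 / wt q e) := fun N => by
  have := wt_pos hq e
  simp only [coeff_X_pow, Nat.cast_ite, Nat.cast_one, Nat.cast_zero, ite_div, zero_div, sum_ite_eq']
  split_ifs <;> first | rfl | positivity

theorem evW_one : EvW q 1 1 := by simpa [wt] using evW_X_pow hq 0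

theorem sum_coeff_mul_le' (f g : ℕ⟦X⟧) (N : ℕ) :
    ∑ j ∈ range N, ((coeff j (f * g) : ℕ) : ℝ) / wt q j ≤ (∑ j ∈ range N, ((coeff j f : ℕ) : ℝ) / wt q j) *
      ∑ j ∈ range N, ((coeff j g : ℕ) : ℝ) / wt q j := by
  have h0 := wt_pos hq
  simp only [coeff_mul, Nat.cast_sum, sum_div]
  rw [sum_mul_sum, ← sum_product', sum_sigma']
  refine le_trans ?_ (sum_le_sum_of_subset_of_nonneg (s := {p ∈ range N ×ˢ range N | p.1 + p.2 < N})
    (filter_subset _ _) fun p _ _ => by have := h0 p.1; have := h0 p.2; positivity)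
  refine le_trans (le_of_eq (sum_nbij' (g := fun p : ℕ × ℕ => ((coeff p.1 f * coeff p.2 g : ℕ) : ℝ) /
    wt q (p.1 + p.2)) (fun x => x.2) (fun p => ⟨p.1 + p.2, p⟩) (fun a ha => ?_) (by simp) (fun a ha => ?_)
    (by simp) fun a ha => ?_)) (sum_le_sum fun p _ => ?_)
  · simp only [mem_sigma, mem_range, HasAntidiagonal.mem_antidiagonal, mem_product, mem_filter] at ha ⊢
    omega
  · rw [HasAntidiagonal.mem_antidiagonal.1 (mem_sigma.1 ha).2]
  · rw [HasAntidiagonal.mem_antidiagonal.1 (mem_sigma.1 ha).2]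
  · rw [div_mul_div_comm, Nat.cast_mul]
    exact div_le_div_of_nonneg_left (by positivity) (mul_pos (h0 _) (h0 _)) (wt_mul_le hq _ _)

theorem EvW.mul (h : EvW q f ρ) (h' : EvW q g σ) : EvW q (f * g) (ρ * σ) := fun N =>
  (sum_coeff_mul_le' hq f g N).trans (mul_le_mul (h N) (h' N)
    (sum_nonneg fun j _ => div_nonneg (Nat.cast_nonneg _) (wt_pos hq j).le) h.nonneg)

theorem EvW.pow (h : EvW q f ρ) (k : ℕ) : EvW q (f ^ k) (ρ ^ k) := by
  induction k with
  | zero => simpa using evW_one hq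
  | succ k ih => simpa only [pow_succ] using ih.mul hq h

theorem EvW.prod {s : Finset ℕ} {f : ℕ → ℕ⟦X⟧} {ρ : ℕ → ℝ}
    (h : ∀ k ∈ s, EvW q (f k) (ρ k)) : EvW q (∏ k ∈ s, f k) (∏ k ∈ s, ρ k) := by
  induction s using Finset.induction_on with
  | empty => simpa using evW_one hq
  | insert a s ha ih =>
    rw [prod_insert ha, prod_insert ha]
    exact (h a (by simp)).mul hq (ih fun k hk => h k (by simp [hk]))

theorem evW_GS (hk : 0 < k) : EvW q (GS q (2 * (k + 1))) (1 / (1 - 1 / 3 ^ k)) := fun N => by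
  have h3 : (3 : ℝ) ≤ q := by exact_mod_cast hq
  have h0 : EvW q (C q) q := fun N => by
    simp only [coeff_C, Nat.cast_ite, Nat.cast_zero, ite_div, zero_div, sum_ite_eq']
    split_ifs <;> simp [wt]
  have h2 : 0 ≤ ∑ j ∈ range N, ((coeff j (GS q (2 * (k + 1))) : ℕ) : ℝ) / wt q j :=
    sum_nonneg fun j _ => div_nonneg (Nat.cast_nonneg _) (wt_pos hq j).le
  have h1 : ∑ j ∈ range N, ((coeff j (GS q (2 * (k + 1))) : ℕ) : ℝ) / wt q j ≤
      1 + 1 / 3 ^ k * ∑ j ∈ range N, ((coeff j (GS q (2 * (k + 1))) : ℕ) : ℝ) / wt q j := by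
    conv_lhs => rw [GS_eq (by omega)]
    simp only [map_add, Nat.cast_add, add_div, sum_add_distrib]
    refine add_le_add (evW_one hq N) ((sum_coeff_mul_le' hq _ _ N).trans
      (mul_le_mul_of_nonneg_right (((h0.mul hq (evW_X_pow hq _)) N).trans ?_) h2))
    rw [wt_even, pow_succ', mul_one_div, div_mul_cancel_left₀ (by positivity), ← one_div]
    gcongr
  rw [le_div_iff₀ (sub_pos.2 ((div_lt_one (by positivity)).2 (one_lt_pow₀ (by norm_num) hk.ne')))]
  linarith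

theorem Bd2.mul (h : Bd2 q f ρ (12 / 7 * ρ)) (h' : EvW q g σ) :
    Bd2 q (f * g) (ρ * σ) (12 / 7 * (ρ * σ)) := by
  have h0 : 0 ≤ ρ := by simpa using (Nat.cast_nonneg _).trans (h 0).1
  have h1 : ∀ N, (coeff N f : ℕ) ≤ ρ * wt q N := fun N => by
    obtain ⟨m, rfl | rfl⟩ := N.even_or_odd'
    · rw [wt_even]; exact (h m).1
    · rw [wt_odd, ← mul_assoc, mul_comm ρ]; exact (h m).2
  have h2 : ∀ N, (coeff N (f * g) : ℕ) ≤ ρ * σ * wt q N := fun N => by
    rw [mul_comm f, coeff_mul, Nat.sum_antidiagonal_eq_sum_range_succ_mk, Nat.cast_sum, mul_right_comm]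
    refine le_trans ?_ (mul_le_mul_of_nonneg_left (h' (N + 1)) (mul_nonneg h0 (wt_pos hq N).le))
    rw [mul_sum]
    refine sum_le_sum fun j hj => ?_
    obtain ⟨i, rfl⟩ := Nat.exists_eq_add_of_le (Nat.lt_succ_iff.1 (mem_range.1 hj))
    have h3 := wt_pos hq j
    rw [Nat.cast_mul, Nat.add_sub_cancel_left]
    calc _ ≤ ((coeff j g : ℕ) : ℝ) * (ρ * wt q i) := mul_le_mul_of_nonneg_left (h1 i) (Nat.cast_nonneg _)
      _ = ρ * (wt q j * wt q i) * ((coeff j g : ℕ) / wt q j) := by field_simp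
      _ ≤ _ := by gcongr; exact wt_mul_le hq _ _
  exact fun m => ⟨wt_even m ▸ h2 _, (h2 _).trans_eq (by rw [wt_odd]; ring)⟩

omit hq in
theorem prod_le_of_step {ρ : ℕ → ℝ} {K c : ℝ} {a I : ℕ} (hK : 0 ≤ K) (hc : 0 ≤ c) (h1 : ∀ i, a ≤ i → 1 ≤ ρ i)
    (hI : a ≤ I + 1) (h : ∏ i ∈ Icc a I, ρ i ≤ K * (1 - c / 3 ^ I))
    (hs : ∀ J, I ≤ J → (1 - c / 3 ^ J) * ρ (J + 1) ≤ 1 - c / 3 ^ (J + 1)) {s : Finset ℕ}
    (hs' : ∀ i ∈ s, a ≤ i) : ∏ i ∈ s, ρ i ≤ K := by
  have h2 : ∀ J, I ≤ J → ∏ i ∈ Icc a J, ρ i ≤ K * (1 - c / 3 ^ J) := fun J hJ => by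
    induction J, hJ using Nat.le_induction with
    | base => exact h
    | succ J hJ ih =>
      rw [prod_Icc_succ_top (by omega)]
      exact (mul_le_mul_of_nonneg_right ih (zero_le_one.trans (h1 _ (by omega)))).trans
        (by rw [mul_assoc]; exact mul_le_mul_of_nonneg_left (hs J hJ) hK)
  refine (prod_le_prod_of_subset_of_one_le (t := Icc a (I + s.sup id)) (fun i hi => mem_Icc.2
    ⟨hs' i hi, le_add_left (le_sup (f := id) hi)⟩) (fun i hi => zero_le_one.trans (h1 i (hs' i hi)))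
      fun i hi _ => h1 i (mem_Icc.1 hi).1).trans ((h2 _ le_self_add).trans ?_)
  exact mul_le_of_le_one_right hK (sub_le_self _ (by positivity))

theorem evW_prod_GS (N : ℕ) : EvW q (∏ k ∈ Icc 3 N, GS q (2 * k)) 1.191 := by
  refine (EvW.prod hq (ρ := fun k => 1 / (1 - 1 / 3 ^ (k - 1))) fun k hk => by
    have := evW_GS hq (k := k - 1) (by have := (mem_Icc.1 hk).1; omega)
    rwa [Nat.sub_add_cancel (by have := (mem_Icc.1 hk).1; omega)] at this).mono
    (prod_le_of_step (c := 3 / 2) (a := 3) (I := 4) (by norm_num) (by norm_num) (fun i hi => ?_)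
      (by norm_num) (by simp [prod_Icc_succ_top]; norm_num) (fun J hJ => ?_) fun i hi => (mem_Icc.1 hi).1)
  · have : (1 : ℝ) < 3 ^ (i - 1) := one_lt_pow₀ (by norm_num) (by omega)
    exact one_le_one_div (sub_pos.2 ((div_lt_one (by positivity)).2 this)) (sub_le_self _ (by positivity))
  · have : (1 : ℝ) < 3 ^ J := one_lt_pow₀ (by norm_num) (by omega)
    have h1 : (0 : ℝ) < 1 / 3 ^ J := by positivity
    rw [Nat.add_sub_cancel, mul_one_div, div_le_iff₀ (sub_pos.2 ((div_lt_one (by positivity)).2 this)),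
      pow_succ, ← div_div, div_eq_mul_one_div (3 / 2 : ℝ) (3 ^ J)]
    nlinarith

theorem evW_prod_GS' {N : ℕ} (hN : 2 ≤ N) : EvW q (∏ k ∈ Icc 2 N, GS q (2 * k)) 1.7865 := by
  rw [← insert_Icc_succ_left_eq_Icc hN, prod_insert (by simp)]
  exact ((evW_GS hq one_pos).mul hq (evW_prod_GS hq N)).mono (by norm_num)

theorem evW_prod_bit (N r : ℕ) {K : ℝ} (hK : 0 ≤ K) (h : ∏ i ∈ Icc 1 3, (1 + (7 / 12) ^ r / 3 ^ i) ≤
    K * (1 - (7 / 12) ^ r / 2 / 3 ^ 3)) : EvW q (∏ k ∈ Icc 2 N with k % 2 = r, (1 + X ^ k)) K := by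
  have h3 : (3 : ℝ) ≤ q := by exact_mod_cast hq
  refine (EvW.prod hq (ρ := fun k => 1 + (7 / 12) ^ r / 3 ^ (k / 2)) fun k hk =>
    ((evW_one hq).add (evW_X_pow hq k)).mono ?_).mono ?_
  · rw [wt, (mem_filter.1 hk).2, ← div_div, ← one_div_pow, one_div_div]
    gcongr
  rw [← prod_image (g := (· / 2)) (f := fun i => 1 + (7 / 12 : ℝ) ^ r / 3 ^ i) fun a ha b hb h => by
    have := (mem_filter.1 ha).2; have := (mem_filter.1 hb).2; simp only at h; omega]
  refine prod_le_of_step hK (by positivity) (fun i _ => le_add_of_nonneg_right (by positivity))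
    (by norm_num) h (fun J _ => ?_) fun i hi => ?_
  · have h1 : (0 : ℝ) ≤ (7 / 12) ^ r / 3 ^ J := by positivity
    rw [pow_succ, ← div_div, ← div_div, div_right_comm _ 2]
    nlinarith
  · obtain ⟨k, hk, rfl⟩ := mem_image.1 hi
    have := (mem_Icc.1 (mem_filter.1 hk).1).1
    omega

omit hq in
theorem prod_split {N : ℕ} (hN : 1 ≤ N) (r m : ℕ) (t : ℕ → ℕ⟦X⟧) :
    ∏ k ∈ Icc 1 N, ((if k % 2 = r then 1 + X ^ k else 1) ^ m * t k) =
      (if 1 = r then 1 + X else 1) ^ m * t 1 *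
        ((∏ k ∈ Icc 2 N with k % 2 = r, (1 + X ^ k)) ^ m * ∏ k ∈ Icc 2 N, t k) := by
  rw [← insert_Icc_succ_left_eq_Icc hN, prod_insert (by simp), prod_mul_distrib, prod_pow, prod_filter,
    pow_one]
  rfl

theorem bd2_sp {N : ℕ} (hN : 2 ≤ N) : Bd2 q (∏ k ∈ Icc 1 N,
    ((if k % 2 = 0 then 1 + X ^ k else 1) ^ 4 * GS q (2 * k))) 10.8 (12 / 7 * 10.8) := by
  rw [prod_split (by omega), if_neg one_ne_zero, one_pow, one_mul]
  exact (((bd2_GS (by omega) one_pos).mono le_rfl (by norm_num)).mul hq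
    (((evW_prod_bit hq N 0 (K := 1.566) (by norm_num) (by simp [prod_Icc_succ_top]; norm_num)).pow hq 4).mul
      hq (evW_prod_GS' hq hN))).mono (by norm_num) (by norm_num)

theorem evW_odd (N : ℕ) : EvW q (∏ k ∈ Icc 2 N with k % 2 = 1, (1 + X ^ k)) 1.314 :=
  evW_prod_bit hq N 1 (by norm_num) (by simp [prod_Icc_succ_top]; norm_num)

theorem bd2_o {N : ℕ} (hN : 2 ≤ N) : Bd2 q (∏ k ∈ Icc 1 N,
    ((if k % 2 = 1 then 1 + X ^ k else 1) ^ 4 * GS q (2 * k))) 16.6 (12 / 7 * 16.6) := by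
  rw [prod_split (by omega), if_pos rfl, show (1 + X : ℕ⟦X⟧) ^ 4 * GS q (2 * 1) =
    (1 + X) * ((1 + X) * ((1 + X) * ((1 + X) * GS q (2 * 1)))) by ring]
  exact (((((((bd2_GS (by omega) one_pos).one_add_X hq le_rfl).one_add_X hq (by norm_num)).one_add_X hq
    (by norm_num)).one_add_X hq (by norm_num)).mono (ρ' := 28 / 9) (by norm_num) (by norm_num)).mul hq
      (((evW_odd hq N).pow hq 4).mul hq (evW_prod_GS' hq hN))).mono (by norm_num) (by norm_num)

theorem bd2_o' {N : ℕ} (hN : 2 ≤ N) : Bd2 q (∏ k ∈ Icc 1 N, GS q (2 * k)) 1.7865 0 := fun m => by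
  refine ⟨?_, ?_⟩
  · rw [← insert_Icc_succ_left_eq_Icc (by omega), prod_insert (by simp)]
    simpa using (((bd2_GS (by omega) one_pos).mono le_rfl (by norm_num)).mul hq (evW_prod_GS' hq hN) m).1
  · rw [coeff_prod, sum_eq_zero fun l hl => ?_]
    · simp
    by_contra h
    refine Nat.not_even_iff_odd.2 ⟨m, rfl⟩ ((mem_finsuppAntidiag.1 hl).1 ▸ even_sum _ fun k hk => ?_)
    have := prod_ne_zero_iff.1 h k hk
    simp only [GS, coeff_mk, ne_eq, ite_eq_right_iff, Classical.not_imp] at this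
    exact even_iff_two_dvd.2 (dvd_of_mul_right_dvd this.1)

theorem bd2_split {N : ℕ} (hN : 2 ≤ N) : Bd2 q (∏ k ∈ Icc 1 N,
    ((if k % 2 = 1 then 1 + X ^ k else 1) ^ 2 * if k = 1 then 1 else GS q (2 * k))) 2.75
      (12 / 7 * 2.75) := by
  rw [prod_split (by omega), if_pos rfl, if_pos rfl, prod_congr rfl fun k hk => if_neg (by
    have := (mem_Icc.1 hk).1; omega), ← insert_Icc_succ_left_eq_Icc (a := 2) hN, prod_insert (by simp),
    show ∀ a b c : ℕ⟦X⟧, (1 + X) ^ 2 * 1 * (a * (b * c)) = (1 + X) * ((1 + X) * b) * (a * c) from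
      fun a b c => by ring, insert_Icc_succ_left_eq_Icc hN]
  exact (((((bd2_GS (by omega) two_pos).one_add_X hq le_rfl).one_add_X hq (by norm_num)).mono
    (ρ' := 4 / 3) (by norm_num) (by norm_num)).mul hq
      (((evW_odd hq N).pow hq 2).mul hq (evW_prod_GS hq N))).mono (by norm_num) (by norm_num)

end wt

end H53
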