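/- Tower DG: assembly. -/
import Cfsg.Agent.H53.DGSpec2
import Cfsg.Agent.H55.Transport
import Cfsg.Agent.H28.Degree

set_option autoImplicit false

namespace H53.DG

open Cfsg H28 Matrix Module

theorem degs_congr {G : Type*} {H : Type*} [Group G] [Group H] (e : G ≃* H) {d : ℕ}
    (h : d ∈ charDegrees H) : d ∈ charDegrees G := by
  obtain ⟨χ, rfl⟩ := h
  exact ⟨⟨_, χ.2.comp_mulEquiv e⟩, charDegree_comp χ.1 e.toMonoidHom⟩

theorem dvd_card_of_mem {G : Type*} {H : Type*} [Group G] [Finite G] [Group H] (e : G ≃* H) {r : ℕ}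
    (h : r ∈ degreePrimes G) : r ∣ Nat.card H := by
  obtain ⟨-, d, ⟨χ, rfl⟩, hd⟩ := h
  exact Nat.card_congr e.toEquiv ▸ hd.trans χ.2.charDegree_dvd_card

theorem adj_of_full {G : Type*} {H : Type} [Group G] [Finite G] [Group H] (e : G ≃* H) {N : ℕ}
    (hF : Full H N) (hN : ∀ r : ℕ, r.Prime → r ∣ Nat.card H → r ∣ N) {r s : ℕ} (hr : r ∈ degreePrimes G)
    (hs : s ∈ degreePrimes G) (hrs : r ≠ s) : (degreeGraph G).Adj r s := by
  obtain ⟨d, hd, h⟩ := hF r s hr.1 hs.1 hrs (hN r hr.1 (dvd_card_of_mem e hr))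
    (hN s hs.1 (dvd_card_of_mem e hs))
  exact ⟨hrs, hr.1, hs.1, d, degs_congr e hd, h⟩

theorem An2.map {F K : Type} [Field F] [Field K] (e : F ≃+* K) {a b : F} (h : An2 a b) : An2 (e a) (e b) := by
  intro z₁ z₂ hz
  obtain ⟨x, rfl⟩ := e.surjective z₁
  obtain ⟨y, rfl⟩ := e.surjective z₂
  obtain ⟨rfl, rfl⟩ := h x y (e.injective (by simpa using hz))
  simp

theorem asm (bs : ABS) (bo : ABO) (fc : AFC) (fb : AFB) (fp : AFP) (fm : AFM) (fs : JobFS)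
    {G : Type*} [Group G] [Finite G]
    (h : IsPSp G ∨ IsPOmegaOdd G ∨ IsPOmegaPlus G ∨ IsPOmegaMinus G) (r s : ℕ) (hr : r ∈ degreePrimes G)
    (hs : s ∈ degreePrimes G) (hrs : r ≠ s) : (degreeGraph G).Adj r s := by
  classical
  have : Fact (Nat.Prime 3) := ⟨Nat.prime_three⟩
  rcases h with ⟨F, _, _, n, h2, h3, ⟨e⟩⟩ | ⟨F, _, _, n, h3, hq, ⟨e⟩⟩ | ⟨F, _, _, n, h4, ⟨e⟩⟩ |
    ⟨F, _, _, n, a, b, h4, hab, ⟨e⟩⟩
  · refine adj_of_full e (fun r s hr hs hrs h1 h1' => ?_) (bs F n h2).2 hr hs hrs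
    obtain ⟨d, hd, h⟩ := fc F n h2 h3 r s hr hs hrs h1 h1'
    exact ⟨d, (bs F n h2).1 d hd, h⟩
  · have h2 : (2 : F) ≠ 0 := Ring.two_ne_zero fun h => by
      have := FiniteField.even_card_iff_char_two.1 h
      have := Nat.odd_iff.1 hq
      omega
    obtain ⟨⟨e'⟩, -, hN⟩ := (bo F).1 h2 n h3
    exact adj_of_full (e.trans e') (fb F h2 n h3) hN hr hs hrs
  · by_cases hx : n = 5 ∧ Fintype.card F = 2
    · obtain ⟨rfl, hq⟩ := hx
      obtain ⟨⟨e'⟩, -, hN⟩ := (bo (ZMod 2)).2.1 5 h4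
      have k := (ZMod.ringEquivOfPrime F Nat.prime_two hq).symm
      exact adj_of_full ((e.trans (H55.pOmegaCongr k (H55.quadFormPlus_comp k 5))).trans e') fs.1 hN hr hs hrs
    · obtain ⟨⟨e'⟩, -, hN⟩ := (bo F).2.1 n h4
      exact adj_of_full (e.trans e') (fp F n h4 hx) hN hr hs hrs
  · by_cases hx : n = 4 ∧ Fintype.card F ≤ 3
    · obtain ⟨rfl, hq⟩ := hx
      have h1 : 1 < Fintype.card F := Fintype.one_lt_card
      by_cases hq2 : Fintype.card F = 2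
      · have k := (ZMod.ringEquivOfPrime F Nat.prime_two hq2).symm
        obtain ⟨⟨e'⟩, -, hN⟩ := (bo (ZMod 2)).2.2 _ _ (An2.map k hab) 4 h4
        exact adj_of_full ((e.trans (H55.pOmegaCongr k (H55.quadFormMinus_comp k 3 a b))).trans e')
          (fs.2.1 _ _ _) hN hr hs hrs
      · have k := (ZMod.ringEquivOfPrime F Nat.prime_three (by omega)).symm
        obtain ⟨⟨e'⟩, -, hN⟩ := (bo (ZMod 3)).2.2 _ _ (An2.map k hab) 4 h4
        exact adj_of_full ((e.trans (H55.pOmegaCongr k (H55.quadFormMinus_comp k 3 a b))).trans e')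
          (fs.2.2 _ _ _) hN hr hs hrs
    · obtain ⟨⟨e'⟩, -, hN⟩ := (bo F).2.2 a b hab n h4
      exact adj_of_full (e.trans e') (fm F a b hab n h4 hx) hN hr hs hrs

end H53.DG
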