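/- Tower DG: the generic family. -/
import Cfsg.Agent.H53.DGSpec2

set_option autoImplicit false

namespace H53.DG

open Cfsg H28 Matrix Module

theorem jobGen (ind : AInd) (cusp : ACusp) (idx : AIdx) (iso : AIso) :
    AGen := by
  intro F _ _ _ V _ _ _ S hS m k d hk h2 h3 hd
  obtain ⟨σ, hσ, hσ1, hc, hr, hev⟩ := cusp F k hk h2 h3
  obtain ⟨τ, hτ, hτ1, hle, hτe⟩ : ∃ τ : (S.ext m).I → ℂ, IsIrrCharacter _ τ ∧ τ 1 = d ∧
      ((S.ext m).Le τ ∨ (S.ext m).NoTs k) ∧ τ (S.ext m).neg = τ 1 := by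
    rcases hd with rfl | ⟨τ, a, b, c⟩
    · exact ⟨fun _ => 1, isIrrCharacter_one, by simp, one_le_or _ (by omega), rfl⟩
    · exact ⟨τ, a, b, Or.inl c, c.even a.isCharacter⟩
  obtain ⟨χ, hχ, hχ1, hχe⟩ := ind F _ (S.ext m) k σ τ hσ hτ hc hle (by omega) hr
  have hi := idx F V S hS m k
  have ht := ((iso F _ ((S.ext m).ext k)).2.2 _ (S.ext (m + k)) ((iso F V S).1 m k)).2.2
  set D := ((S.ext m).P k).index * ((∏ i ∈ Finset.Ico 1 k, (Fintype.card F ^ i - 1)) * d) with hD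
  have hD1 : χ 1 = D := by rw [hχ1, hσ1, hτ1, hD, Nat.cast_mul, Nat.cast_mul]
  refine ⟨D, ?_, (ht D).2.1 ⟨χ, hχ, hD1⟩, fun h => (ht D).1 ⟨χ, hχ, hD1, hχe (by rw [hev h, hτe])⟩⟩
  rw [← hi, ← Finset.Ico_add_one_right_eq_Icc, Finset.prod_Ico_succ_top hk, hD]
  ring

end H53.DG
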