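/- Tower DG: the rank 2 and rank 3 permutation characters on points. -/
import Cfsg.Agent.H53.DGPt

set_option autoImplicit false

namespace H53.DG

open Cfsg H28 Matrix Module

theorem FS.a_pos {F V : Type} [Field F] [Finite F] [AddCommGroup V] [Module F V] [Finite V] (S : FS F V) :
    0 < S.a := by
  unfold FS.a
  split_ifs
  · simp
  · exact Nat.mul_pos Nat.card_pos Nat.card_pos

theorem jobR2 (hsv : ASv) : AR2 := by
  intro F _ _ _ V _ _ _ S hS ha
  have h1 : 1 < Fintype.card F := Fintype.one_lt_card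
  have hc : Nat.card (S.ext 1).Pt = S.a + 1 := by
    have := (hsv F V S hS 1).2
    simp only [sv, pow_one, Nat.sub_self, pow_zero, one_mul] at this
    exact Nat.eq_of_mul_eq_mul_right (by omega) (this.trans (mul_comm _ _))
  have hR : ∀ x y, ¬ (S.ext 1).R x y := fun x y h => by
    have := ((S.ext 1).nbrs S ⟨rfl, LinearEquiv.refl _ _, fun _ _ => rfl, fun _ => rfl⟩).1 x
    have h0 : IsEmpty {v // v ≠ 0 ∧ S.Q v = 0} := ⟨fun v => v.2.1 (hS _ v.2.2)⟩
    rw [Nat.card_of_isEmpty, mul_zero, mul_eq_zero, Set.ncard_eq_zero] at this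
    rcases this with e | e
    · exact (Set.ext_iff.1 e y).1 h
    · omega
  have : Nontrivial (S.ext 1).Pt := Finite.one_lt_card_iff_nontrivial.1 (by omega)
  have : MulAction.IsPretransitive (S.ext 1).I (S.ext 1).Pt := ⟨(S.ext 1).trans_pt⟩
  refine ⟨_, (H30.isIrr_fixChar_sub_one_iff (S.ext 1).Pt).2 (MulAction.is_two_pretransitive_iff.2 ?_), ?_,
    _, isCharacter_one, by simp [FS.pc]⟩
  · intro a b c d h h'
    obtain ⟨g, hg⟩ := (S.ext 1).pt_top.pair a b c d h h' (iff_of_false (hR _ _) (hR _ _))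
    exact ⟨g.1, hg⟩
  · simp [H30.fixChar_one, hc]

theorem jobR3 (srg : JobSRG) (hsv : ASv) (iso : AIso) : AR3 := by
  intro F _ _ _ V _ _ _ S hS r hr
  refine ⟨(S.ext r).pt_top, fun G hG => ?_⟩
  obtain ⟨n, rfl⟩ : ∃ n, r = n + 2 := ⟨r - 2, by omega⟩
  have h1 : 1 < Fintype.card F := Fintype.one_lt_card
  have ha := S.a_pos
  obtain ⟨hk, hμ⟩ := (S.ext (n + 2)).nbrs (S.ext (n + 1)) ((iso F V S).1 (n + 1) 1)
  obtain ⟨e1, e2⟩ := hsv F V S hS (n + 1)
  have e3 := (hsv F V S hS (n + 2)).2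
  rw [e1, ← e2] at hk hμ
  have := Fintype.ofFinite (S.ext (n + 2)).Pt
  rw [Nat.card_eq_fintype_card] at e3
  generalize Nat.card (S.ext (n + 1)).Pt = m at *
  generalize S.a = a at *
  obtain ⟨p, hp⟩ : ∃ p, Fintype.card F = p + 1 := ⟨Fintype.card F - 1, by omega⟩
  have hp0 : 0 < p := by omega
  clear e1
  simp only [hp] at hk hμ e2 e3 ⊢
  have hq : ∀ j, 1 ≤ (p + 1) ^ j := fun j => Nat.one_le_pow _ _ (by omega)
  simp only [sv, Nat.add_sub_cancel, show n + 2 - 1 = n + 1 from rfl] at hk hμ e2 e3 ⊢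
  have hp1 : (p : ℂ) ≠ 0 := Nat.cast_ne_zero.2 (by omega)
  have e2' := congrArg (Nat.cast : ℕ → ℂ) e2
  push_cast [Nat.cast_sub (hq _)] at e2'
  obtain ⟨f, g, hf, hg, hfg, hs⟩ := srg G (S.ext (n + 2)).Pt (S.ext (n + 2)).R ((p + 1) * m)
    ((p + 1) ^ (2 * n + 2) * a) m (((p : ℂ) + 1) ^ (n + 1) - 1) (-(((p : ℂ) + 1) ^ n * a + 1))
    (S.ext (n + 2)).R_symm (fun x h => h.1 rfl) (fun g => (S.ext (n + 2)).R_smul g.1)
    (fun x y x' y' h h' => hG.pair x y x' y' h.1 h'.1 (iff_of_true h h'))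
    (fun x y x' y' h k h' k' => hG.pair x y x' y' h h' (iff_of_false k k'))
    (fun x => Nat.eq_of_mul_eq_mul_right hp0 ((hk x).trans (mul_assoc _ _ _).symm))
    (Nat.eq_of_mul_eq_mul_right hp0 (by
      zify [hq] at e2 e3 ⊢
      linear_combination e3 - (p + 1) * e2))
    (Nat.mul_ne_zero (by omega) fun h => by
      have : 1 < (p + 1) ^ (n + 1) := Nat.one_lt_pow (by omega) (by omega)
      rw [h, zero_mul] at e2
      exact Nat.mul_ne_zero (by omega) (by omega) e2.symm)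
    (Nat.mul_ne_zero (by have := hq (2 * n + 2); omega) (by omega))
    (fun x y h h' => Nat.eq_of_mul_eq_mul_right hp0 (hμ x y h h'))
    (by push_cast; linear_combination e2') (by push_cast; linear_combination -(p + 1) * m * e2')
    (fun h => by
      have : (((p + 1) ^ (n + 1) + (p + 1) ^ n * a : ℕ) : ℂ) = 0 := by push_cast; linear_combination h
      have := Nat.cast_eq_zero.1 this
      have := hq (n + 1)
      omega)
  obtain ⟨d, hd⟩ := hf.isCharacter.exists_degree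
  obtain ⟨e, he⟩ := hg.isCharacter.exists_degree
  have e4 := congrFun hfg 1
  rw [H30.fixChar_one, Nat.card_eq_fintype_card, Pi.add_apply, Pi.add_apply, Pi.one_apply, hd, he] at e4
  have e3' := congrArg (Nat.cast : ℕ → ℂ) e3
  push_cast [Nat.cast_sub (hq _)] at e3'
  rw [hd, he] at hs
  push_cast at hs
  have hn : ((p : ℂ) + 1) ^ n ≠ 0 := pow_ne_zero _ (by exact_mod_cast Nat.succ_ne_zero p)
  refine ⟨f, g, d, e, hf, hg, hfg, hd, he, Nat.cast_injective (R := ℂ) (mul_left_cancel₀ hn ?_),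
    Nat.cast_injective (R := ℂ) (mul_left_cancel₀ hn ?_)⟩ <;> push_cast [Nat.cast_sub (hq _)]
  · linear_combination p * hs + ((p + 1) ^ n * a + 1) * e3' - ((p + 1) ^ n * a + 1) * p * e4 - (p + 1) * e2'
  · linear_combination -p * hs + ((p + 1) ^ (n + 1) - 1) * e3' - ((p + 1) ^ (n + 1) - 1) * p * e4 +
      (p + 1) * e2'

theorem jobPS (srg : JobSRG) (hsv : ASv) (iso : AIso) : APS := by
  intro F _ _ _ V _ _ _ S hS r hr
  obtain ⟨h, H⟩ := jobR3 srg hsv iso F V S hS r hr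
  obtain ⟨f, g, d, e, hf, hg, hfg, hd, he, h1, h2⟩ := H ⊤ h
  have hf' := hf.comp_mulEquiv Subgroup.topEquiv.symm
  have hg' := hg.comp_mulEquiv Subgroup.topEquiv.symm
  have k1 : (S.ext r).PS d := ⟨_, hf', hd, _, isCharacter_one.add hg'.isCharacter, funext fun x =>
    (congrFun hfg (Subgroup.topEquiv.symm x)).trans (by simp only [Pi.add_apply, Pi.one_apply]; ring)⟩
  have k2 : (S.ext r).PS e := ⟨_, hg', he, _, isCharacter_one.add hf'.isCharacter, funext fun x =>
    (congrFun hfg (Subgroup.topEquiv.symm x)).trans (by simp only [Pi.add_apply, Pi.one_apply]; ring)⟩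
  exact ⟨⟨d, k1, k1.deg, h1⟩, e, k2, k2.deg, h2⟩

end H53.DG
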