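import Cfsg.Agent.H53.F2Spec

/-! CL3 tower, `𝔽₂` part: the structure of `W` and the two families of configurations. -/

set_option autoImplicit false
set_option linter.unusedSectionVars false

namespace H53.F2

open Subgroup H91.CL MulAction

variable {W X : Type} [AddCommGroup W] [Group X] [DistribMulAction X W]
  {B : W →+ W →+ ZMod 2} {Gd : Set W} {Y Z : Subgroup X} {M : AddSubgroup W} {Q : W → ZMod 2}
  {α β : W}

variable (W X) in
/-- the faithful action of the image -/
@[reducible] def imAct : DistribMulAction (toPermHom X W).range W :=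
  { (inferInstance : MulAction (toPermHom X W).range W) with
    smul_zero := by rintro ⟨_, x, rfl⟩; exact smul_zero x
    smul_add := by rintro ⟨_, x, rfl⟩; exact smul_add x }

theorem Stab.index {U : Set W} {P : ℕ → Prop} [Finite W] (h : Stab U P)
    (hU : ∀ (x : X), ∀ u ∈ U, x • u ∈ U) : P (toPermHom X W).ker.index := by
  let _ := imAct W X
  rw [index_ker]
  exact h _ (by rintro ⟨_, x, rfl⟩; exact hU x)

theorem z2 (a : ZMod 2) : a ≠ 0 → a = 1 := by revert a; decide

theorem z2' (a : ZMod 2) : a + a = 0 := by revert a; decide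

/-- the orthogonal complement -/
def perp (B : W →+ W →+ ZMod 2) (M : AddSubgroup W) : AddSubgroup W where
  carrier := {w | ∀ m ∈ M, B m w = 0}
  zero_mem' := fun _ _ => map_zero _
  add_mem' a b m hm := by rw [map_add, a m hm, b m hm, add_zero]
  neg_mem' a m hm := by rw [map_neg, a m hm, neg_zero]

theorem MaxG.le (m : MaxG B Gd M) : M ≤ perp B M := fun w hw v hv => m.iso v hv w hw

/-- the sign character -/
def χ (a : ZMod 2) : ℤ := if a = 0 then 1 else -1

theorem χ_add (a b : ZMod 2) : χ (a + b) = χ a * χ b := by revert a b; decide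

theorem sum_χ {A : Type} [AddCommGroup A] [Fintype A] (f : A →+ ZMod 2) (h : f ≠ 0) :
    ∑ a, χ (f a) = 0 := by
  obtain ⟨b, hb⟩ := DFunLike.ne_iff.1 h
  have := Equiv.sum_comp (Equiv.addRight b) fun a => χ (f a)
  simp only [Equiv.coe_addRight, map_add, χ_add, z2 _ hb, show χ 1 = -1 from rfl, mul_neg, mul_one,
    Finset.sum_neg_distrib] at this
  omega

open Classical in
theorem sum_M [Fintype W] (w : W) :
    ∑ m : M, χ (B m w) = if w ∈ perp B M then (Nat.card M : ℤ) else 0 := by
  split_ifs with h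
  · simp [fun m : M => h m m.2, χ]
  · exact sum_χ ((B.flip w).comp M.subtype) fun e => h fun m hm => DFunLike.congr_fun e ⟨m, hm⟩

section st

variable (s : St B Gd Y)
include s

theorem St.neg (w : W) : -w = w := neg_eq_of_add_eq_zero_left (s.two w)

theorem St.sub (v w : W) : v - w = v + w := by rw [sub_eq_add_neg, s.neg]

theorem St.symm (v w : W) : B v w = B w v := by
  have := s.alt (v + w)
  simp only [map_add, AddMonoidHom.add_apply, s.alt, zero_add, add_zero] at this
  linear_combination this - z2' (B w v)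

theorem St.adj (x : X) (v w : W) : B (x • v - v) w = B v (x⁻¹ • w - w) := by
  simp only [map_sub, AddMonoidHom.sub_apply]
  rw [← s.inv x v (x⁻¹ • w), smul_inv_smul]

theorem St.card [Finite W] (M : AddSubgroup W) :
    Nat.card M * Nat.card (perp B M) = Nat.card W := by
  classical
  have := Fintype.ofFinite W
  have e : ∑ w, ∑ m : M, χ (B m w) = ∑ m : M, ∑ w, χ (B m w) := Finset.sum_comm
  rw [Finset.sum_eq_single (0 : M) (fun m _ h => sum_χ _ fun e => h (Subtype.ext
    (s.nd _ fun v => (s.symm _ _).trans (DFunLike.congr_fun e v)))) (by simp)] at e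
  simp only [sum_M, Finset.sum_ite, Finset.sum_const] at e
  simp [χ, ← Fintype.card_subtype] at e
  simp only [Nat.card_eq_fintype_card]
  exact_mod_cast (mul_comm _ _).trans e

theorem St.card_gd [Finite W] (q : Quad X B Gd Q) (m : MaxG B Gd M) :
    2 * Nat.card Gd + Nat.card (perp B M) = Nat.card W + 2 * Nat.card M := by
  classical
  have := Fintype.ofFinite W
  have e : ∑ w, ∑ v : M, χ (Q (v + w)) = ∑ v : M, ∑ w, χ (Q (v + w)) := Finset.sum_comm
  have e0 : ∀ v : M, ∑ w, χ (Q (v + w)) = ∑ w, χ (Q w) :=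
    fun v => Equiv.sum_comp (Equiv.addLeft (v : W)) fun w => χ (Q w)
  simp only [e0] at e
  simp only [q.add, fun v : M => (q.gd _).1 (m.gd _ v.2), zero_add, χ_add, ← Finset.mul_sum, sum_M,
    Finset.sum_const, Finset.card_univ, nsmul_eq_mul, ← Nat.card_eq_fintype_card] at e
  have e1 : ∀ w, χ (Q w) * (if w ∈ perp B M then (Nat.card M : ℤ) else 0) = Nat.card M *
      (2 * (if w ∈ M then 1 else 0) - if w ∈ perp B M then 1 else 0) := fun w => by
    by_cases h : w ∈ M
    · simp [h, m.le h, (q.gd _).1 (m.gd _ h), χ]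
    · by_cases h' : w ∈ perp B M
      · simp [h, h', χ, mt (fun c => m.max w ((q.gd _).2 c) h') h]
      · simp [h, h']
  have e2 : ∀ w, χ (Q w) = 2 * (if w ∈ Gd then 1 else 0) - 1 := fun w => by
    simp only [χ, q.gd]; split_ifs <;> rfl
  rw [Finset.sum_congr rfl fun w _ => e1 w, ← Finset.mul_sum] at e
  replace e := mul_left_cancel₀ (by exact_mod_cast Nat.card_pos.ne') e
  simp only [e2, Finset.sum_sub_distrib, ← Finset.mul_sum, Finset.sum_boole, ← Fintype.card_subtype,
    ← Nat.card_eq_fintype_card, Finset.sum_const, Finset.card_univ, nsmul_eq_mul, mul_one] at e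
  change 2 * (Nat.card M : ℤ) - Nat.card (perp B M) = 2 * Nat.card Gd - _ at e
  omega

/-- `M + ⟨w⟩` -/
def St.ad (M : AddSubgroup W) (w : W) : AddSubgroup W where
  carrier := {x | x ∈ M ∨ x - w ∈ M}
  zero_mem' := .inl M.zero_mem
  neg_mem' a := by rwa [s.neg]
  add_mem' := by
    rintro x y (a | a) (b | b)
    · exact .inl (add_mem a b)
    · exact .inr (by convert add_mem a b using 1; abel)
    · exact .inr (by convert add_mem a b using 1; abel)
    · exact .inl (by convert add_mem a b using 1; rw [sub_add_sub_comm, s.two, sub_zero])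

theorem St.card_ad [Finite W] {w : W} (h : w ∉ M) : Nat.card (s.ad M w) = 2 * Nat.card M := by
  have le : M ≤ s.ad M w := fun _ => .inl
  rw [← (M.addSubgroupOf (s.ad M w)).index_mul_card,
    Nat.card_congr (AddSubgroup.addSubgroupOfEquivOfLe le).toEquiv]
  congr 1
  refine AddSubgroup.relIndex_eq_two_iff.2 ⟨w, .inr (by simp), fun b hb => ?_⟩
  rw [← s.sub]
  by_cases c : b ∈ M
  · exact .inr ⟨c, fun d => h (by simpa using sub_mem c d)⟩
  · exact .inl ⟨hb.resolve_left c, c⟩

theorem St.exists_max [Finite W] (h0 : 0 ∈ Gd)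
    (h1 : ∀ v ∈ Gd, ∀ w ∈ Gd, B v w = 0 → v + w ∈ Gd) : ∃ M, MaxG B Gd M := by
  obtain ⟨M, ⟨a, b⟩, c⟩ := exists_maximal_of_wellFoundedGT
    (fun M : AddSubgroup W => (∀ m ∈ M, m ∈ Gd) ∧ ∀ m ∈ M, ∀ m' ∈ M, B m m' = 0)
    ⟨⊥, by simpa using h0, by simp⟩
  refine ⟨M, a, b, fun w hw h => c (y := s.ad M w) ⟨?_, ?_⟩ (fun _ => .inl) (.inr (by simp))⟩
  · rintro x (hx | hx)
    exacts [a x hx, by simpa using h1 _ (a _ hx) w hw (h _ hx)]
  have k : ∀ m ∈ M, ∀ x ∈ s.ad M w, B m x = 0 := by
    rintro m hm x (hx | hx)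
    exacts [b m hm x hx, by simpa [h m hm] using b m hm _ hx]
  rintro x (hx | hx) y hy
  · exact k x hx y hy
  · have e : B w y = 0 := by
      rcases hy with hy | hy
      exacts [(s.symm _ _).trans (h y hy), by simpa [s.alt] using (s.symm _ _).trans (h _ hy)]
    simpa [e] using k _ hx y hy

/-- `M^⊥ = M + ⟨α, β⟩` -/
theorem St.exists_ab [Finite W] (q : Quad X B Gd Q) (m : MaxG B Gd M) (h : ¬ perp B M ≤ M) :
    ∃ α β, perp B M = s.ad (s.ad M α) β ∧ Nat.card (perp B M) = 4 * Nat.card M := by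
  obtain ⟨α, a1, a2⟩ := SetLike.not_le_iff_exists.1 h
  have pp : M = perp B (perp B M) := AddSubgroup.eq_of_le_of_card_ge
    (fun w hw v hv => (s.symm _ _).trans (hv w hw)) (Nat.le_of_eq (mul_left_cancel₀ Nat.card_pos.ne'
      ((s.card _).trans ((s.card M).symm.trans (mul_comm _ _)))))
  obtain ⟨β, b1, b2⟩ : ∃ β ∈ perp B M, B β α ≠ 0 := by
    by_contra! c
    exact a2 (pp ▸ c)
  have b3 : β ∉ s.ad M α := by
    rintro (c | c)
    exacts [b2 (a1 β c), b2 (by simpa [s.alt] using a1 _ c)]
  have one : ∀ w ∈ perp B M, w ∉ M → Q w = 1 := fun w a b =>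
    z2 _ fun c => b (m.max w ((q.gd _).2 c) a)
  have two : ∀ w ∈ perp B M, w ∉ s.ad M α → B w α = 1 := fun w a b => by
    have := q.add w α
    rw [← s.sub, one _ (sub_mem a a1) (mt .inr b), one _ a (mt .inl b), one _ a1 a2] at this
    linear_combination -this - z2' 1
  have e : perp B M = s.ad (s.ad M α) β := by
    have l1 : s.ad M α ≤ perp B M := by
      rintro w (c | c)
      exacts [m.le c, by simpa using add_mem (m.le c) a1]
    refine le_antisymm (fun w hw => by_contra fun c => ?_) ?_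
    · have := two _ (sub_mem hw b1) (mt .inr c)
      simp [two w hw (mt .inl c), z2 _ b2] at this
    · rintro w (c | c)
      exacts [l1 c, by simpa using add_mem (l1 c) b1]
  exact ⟨α, β, e, by rw [e, s.card_ad b3, s.card_ad a2]; ring⟩

end st

end H53.F2
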