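import Cfsg.Agent.H53.F2A

/-! CL3 tower, `𝔽₂` part: the configurations `A` and `B`, assembly. -/

set_option autoImplicit false
set_option linter.unusedSectionVars false

namespace H53.F2

open Subgroup H91.CL MulAction

variable {W X : Type} [AddCommGroup W] [Group X] [DistribMulAction X W]
  {B : W →+ W →+ ZMod 2} {Gd : Set W} {Y Z : Subgroup X} {M : AddSubgroup W} {Q : W → ZMod 2}
  {α β : W}

/-- `z` is trivial on `A' / A` -/
def Rl (z : X) (A' A : AddSubgroup W) : Prop := ∀ w ∈ A', z • w - w ∈ A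

variable (s : St B Gd Y)
include s

theorem St.rl_sq {z : X} {A'' A' A : AddSubgroup W} (h : Rl z A'' A') (h' : Rl z A' A) :
    Rl (z * z) A'' A := fun w hw => by
  convert h' _ (h w hw) using 1
  rw [smul_sub, mul_smul, sub_sub, ← add_sub_assoc, s.two, zero_sub, s.neg]

theorem St.rl_ad {z : X} {A : AddSubgroup W} (hA : ∀ m ∈ A, z • m ∈ A) (h : z • α - α ∈ A) :
    Rl z (s.ad A α) A := by
  rintro w (c | c)
  · exact sub_mem (hA w c) c
  · convert add_mem (sub_mem (hA _ c) c) h using 1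
    rw [smul_sub]; abel

theorem St.keep (hZ : ∀ z ∈ Z, ∀ m ∈ M, z • m ∈ M) (z : Z) (w : W) (hw : w ∈ perp B M) :
    z • w ∈ perp B M := fun m hm => by
  rw [← hw _ (hZ _ z⁻¹.2 m hm), ← s.inv z (z⁻¹.1 • m), ← mul_smul]
  simp [Subgroup.smul_def]

theorem St.dual {z : X} {A : AddSubgroup W} (h : Rl z⁻¹ ⊤ (perp B A)) : Rl z A ⊥ := fun w hw =>
  s.nd _ fun v => by rw [s.symm, s.adj, h v trivial w hw]

/-- the step from `M + ⟨α⟩` to `M^⊥` -/
theorem St.step {A : AddSubgroup W} (e : perp B M = s.ad A β) (hZ : ∀ z ∈ Z, ∀ m ∈ M, z • m ∈ M)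
    {z : X} (hz : z ∈ Z) (h : ∀ m ∈ A, z⁻¹ • m ∈ A) : z • β - β ∈ A := by
  rcases (e ▸ s.keep hZ ⟨z, hz⟩ β (e ▸ .inr (by simp)) : z • β ∈ s.ad A β) with c | c
  · exact sub_mem c (by simpa using h _ c)
  · exact c

theorem St.ad_keep {z : X} (hA : ∀ m ∈ M, z • m ∈ M) (h : z • α - α ∈ M) :
    ∀ m ∈ s.ad M α, z • m ∈ s.ad M α := fun m hm => by
  simpa using add_mem (show _ ∈ s.ad M α from .inl (s.rl_ad hA h m hm)) hm

variable [Finite W] [Finite X] [FaithfulSMul X W]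

theorem St.confA (m : MaxG B Gd M) (e : perp B M = s.ad (s.ad M α) β) {U : Set (W ⧸ perp B M)}
    (h0 : 0 ∈ U) (hU : Stab U fun n => ∃ a, n = 2 ^ a) : ∃ a, Y.index = 2 ^ a := by
  classical
  have a1 : α ∈ perp B M := e ▸ .inl (.inr (by simp))
  let τ : W ⧸ perp B M → W := Function.update Quotient.out 0 α
  have τ1 : ∀ a, (τ a : W ⧸ perp B M) = a := fun a => by
    by_cases c : a = 0
    · simpa [τ, c] using a1
    · simp [τ, c]
  obtain ⟨Z, f, hZ⟩ := s.col M m (τ '' U) (by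
    rintro _ ⟨a, -, rfl⟩ _ ⟨b, -, rfl⟩ h
    exact congrArg τ ((τ1 a).symm.trans ((QuotientAddGroup.eq_iff_sub_mem.2 fun v hv => by
      rw [map_sub, h v hv, sub_self]).trans (τ1 b))))
  let _ := quoAct (perp B M) (s.keep fun z hz => (hZ z hz).1)
  have k : ∀ z : Z, ∀ a ∈ U, z • a ∈ U ∧ z.1 • τ a - τ (z • a) ∈ M := fun z a ha => by
    obtain ⟨_, ⟨b, hb, rfl⟩, h⟩ := (hZ z z.2).2.1 _ ⟨a, ha, rfl⟩
    have : z • a = b := by
      rw [← τ1 a, ← τ1 b]; exact QuotientAddGroup.eq_iff_sub_mem.2 (m.le h)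
    exact this ▸ ⟨hb, h⟩
  obtain ⟨a, ha⟩ := hU.index fun z a h => (k z a h).1
  have k0 : ∀ z : Z, z.1 • α - α ∈ M := fun z => by simpa [τ] using (k z 0 h0).2
  have : Fact (Nat.Prime 2) := ⟨Nat.prime_two⟩
  obtain ⟨b, hb⟩ := IsPGroup.iff_card.1 (show IsPGroup 2 (toPermHom Z (W ⧸ perp B M)).ker from
    fun z => ⟨2, by
      have r : ∀ z ∈ (toPermHom Z (W ⧸ perp B M)).ker, Rl z.1 ⊤ (perp B M) := fun z hz w _ =>
        QuotientAddGroup.eq_iff_sub_mem.1 (congrArg (· (w : W ⧸ perp B M)) hz)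
      have r1 := s.ad_keep (hZ _ z.1.2).1 (k0 z)
      have r2 := s.rl_ad r1 (s.step e (fun z hz => (hZ z hz).1) z.1.2
        (s.ad_keep (hZ _ z⁻¹.1.2).1 (k0 z⁻¹.1)))
      rw [← e] at r2
      have := s.rl_sq (s.rl_sq (r _ z.2) r2) (s.rl_sq (s.rl_ad (hZ _ z.1.2).1 (k0 z))
        (s.dual (r _ z⁻¹.2)))
      refine Subtype.ext (Subtype.ext (eq_of_smul_eq_smul (α := W) fun w => ?_))
      simpa [sub_eq_zero, pow_succ, mul_assoc] using this w trivial⟩)
  obtain ⟨c, -, hc⟩ := (Nat.dvd_prime_pow Nat.prime_two (m := a + b) (i := Y.index)).1 (by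
    rw [pow_add, ← ha, ← hb, index_mul_card]; exact f.index_dvd)
  exact ⟨c, hc⟩

theorem St.confB (m : MaxG B Gd M) (e : perp B M = s.ad (s.ad M α) β) {U : Set (W ⧸ perp B M)}
    (h0 : 0 ∉ U) (gen : ∀ (p : W ⧸ perp B M) (L : AddSubgroup _), U.Nonempty ∨ p = 0 →
      (∀ a, a ∉ U → a ≠ p → a ∈ L) → L = ⊤) (pl : ∀ β : _ →+ _ →+ ZMod 2,
      (∀ a b c, a ∉ U → a + b ∉ U → a + c ∉ U → a + b + c ∉ U → β b c = 0) → β = 0)
    {P : ℕ → Prop} (hU : Stab U P) :
    ∃ n k, P n ∧ Y.index ∣ n * k ∧ 0 < n * k ∧ k ∣ 2 ∧ (U.Nonempty → k = 1) := by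
  classical
  have a1 : α ∈ perp B M := e ▸ .inl (.inr (by simp))
  have b1 : β ∈ perp B M := e ▸ .inr (by simp)
  obtain ⟨σ, hσ⟩ : ∃ σ : W ⧸ perp B M →+ W, ∀ a, (σ a : W ⧸ perp B M) = a := by
    let _ : Module (ZMod 2) W := AddCommGroup.zmodModule fun w => by rw [two_nsmul, s.two]
    let _ : Module (ZMod 2) (W ⧸ perp B M) := AddCommGroup.zmodModule fun w =>
      QuotientAddGroup.induction_on w fun w => by rw [two_nsmul, ← QuotientAddGroup.mk_add, s.two]; rfl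
    obtain ⟨g, hg⟩ := ((QuotientAddGroup.mk' (perp B M)).toZModLinearMap 2).exists_rightInverse_of_surjective
      (LinearMap.range_eq_top.2 (QuotientAddGroup.mk'_surjective _))
    exact ⟨g.toAddMonoidHom, fun a => LinearMap.congr_fun hg a⟩
  obtain ⟨G, g1, g2, g3⟩ : ∃ G : Set (W ⧸ perp B M), G ⊆ U ∧ G.Subsingleton ∧
      (G.Nonempty ↔ U.Nonempty ∧ β - α ∉ M) := by
    by_cases c : U.Nonempty ∧ β - α ∉ M
    · exact ⟨{c.1.some}, by simpa using c.1.some_mem, by simp, by simpa using c⟩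
    · exact ⟨∅, by simp, by simp, by simpa using c⟩
  let τ : W ⧸ perp B M → W := fun a => (if a ∈ U then β else α) + σ a
  have τ1 : ∀ a, (τ a : W ⧸ perp B M) = a := fun a => by
    simp only [τ, QuotientAddGroup.mk_add, hσ]
    split_ifs <;> simpa
  have τ2 : ∀ a ∉ U, τ a = α + σ a := fun a h => by simp [τ, h]
  obtain ⟨Z, f, hZ⟩ := s.col M m (τ '' (Uᶜ ∪ G)) (by
    rintro _ ⟨a, -, rfl⟩ _ ⟨b, -, rfl⟩ h
    exact congrArg τ ((τ1 a).symm.trans ((QuotientAddGroup.eq_iff_sub_mem.2 fun v hv => by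
      rw [map_sub, h v hv, sub_self]).trans (τ1 b))))
  let _ := quoAct (perp B M) (s.keep fun z hz => (hZ z hz).1)
  have k : ∀ z : Z, ∀ a ∈ Uᶜ ∪ G, z • a ∈ Uᶜ ∪ G ∧ z.1 • τ a - τ (z • a) ∈ M := fun z a ha => by
    obtain ⟨_, ⟨b, hb, rfl⟩, h⟩ := (hZ z z.2).2.1 _ ⟨a, ha, rfl⟩
    have : z • a = b := by
      rw [← τ1 a, ← τ1 b]; exact QuotientAddGroup.eq_iff_sub_mem.2 (m.le h)
    exact this ▸ ⟨hb, h⟩
  have k0 : ∀ z : Z, z.1 • α - α ∈ M := fun z => by simpa [τ, h0] using (k z 0 (.inl h0)).2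
  have lin : ∀ (z : Z) a, z.1 • σ a - σ (z • a) ∈ M := fun z => by
    obtain ⟨p, p1, p2⟩ : ∃ p, (U.Nonempty ∨ p = 0) ∧ ∀ a, z • a ∈ G → a = p := by
      rcases G.eq_empty_or_nonempty with c | ⟨g, c⟩
      exacts [⟨0, .inr rfl, by simp [c]⟩,
        ⟨z⁻¹ • g, .inl ⟨g, g1 c⟩, fun a h => by rw [← g2 h c, inv_smul_smul]⟩]
    refine (AddSubgroup.eq_top_iff' (M.comap ((DistribSMul.toAddMonoidHom W z.1).comp σ -
      σ.comp (DistribSMul.toAddMonoidHom _ z)))).1 (gen p _ p1 fun a a1 a2 => ?_)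
    obtain ⟨c, d⟩ := k z a (.inl a1)
    rw [τ2 a a1, τ2 _ (c.resolve_right (mt (p2 a) a2))] at d
    change z.1 • σ a - σ (z • a) ∈ M
    convert sub_mem d (k0 z) using 1
    rw [smul_add]; abel
  have kg : ∀ z : Z, ∀ g ∈ G, z • g ∈ G ∧ z.1 • β - β ∈ M := fun z g hg => by
    obtain ⟨c, d⟩ := k z g (.inr hg)
    have d1 : z.1 • β - (if z • g ∈ U then β else α) ∈ M := by
      convert sub_mem d (lin z g) using 1
      simp only [τ, g1 hg, if_true, smul_add]; abel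
    split_ifs at d1 with h
    · exact ⟨c.resolve_left (· h), d1⟩
    · refine ((g3.1 ⟨g, hg⟩).2 ?_).elim
      simpa [← smul_sub] using (hZ _ z⁻¹.2).1 _ (sub_mem d1 (k0 z))
  have kU : ∀ z : Z, ∀ a ∈ U, z • a ∈ U := fun z a ha => by
    by_cases c : a ∈ G
    · exact g1 (kg z a c).1
    · exact by_contra fun d => by simpa [ha, c] using (k z⁻¹ _ (.inl d)).1
  have triv : ∀ z ∈ (toPermHom Z (W ⧸ perp B M)).ker, z.1 • β - β ∈ M → z = 1 := fun z hz hb => by
    have fx : ∀ a : W ⧸ perp B M, z • a = a := fun a => congrArg (· a) hz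
    have dec : ∀ w : W, w - σ w ∈ perp B M := fun w => QuotientAddGroup.eq_iff_sub_mem.1 (hσ _).symm
    have r : Rl z.1 ⊤ M := fun w _ => by
      have : Rl z.1 (perp B M) M := by
        rw [e]
        rintro w (c | c)
        · exact s.rl_ad (hZ _ z.2).1 (k0 z) w c
        · convert add_mem (s.rl_ad (hZ _ z.2).1 (k0 z) _ c) hb using 1
          rw [smul_sub]; abel
      convert add_mem (this _ (dec w)) (fx _ ▸ lin z w) using 1
      rw [smul_sub]; abel
    have r1 := pl ((B.comp ((DistribSMul.toAddMonoidHom W z.1 - AddMonoidHom.id W).comp σ)).compl₂ σ)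
      fun a b c h1 h2 h3 h4 => (hZ _ z.2).2.2 (fun w => r w trivial) _ (σ b) (σ c) ⟨a, .inl h1, rfl⟩
        ⟨_, .inl h2, by rw [τ2 _ h1, τ2 _ h2, map_add, add_assoc]⟩
        ⟨_, .inl h3, by rw [τ2 _ h1, τ2 _ h3, map_add, add_assoc]⟩
        ⟨_, .inl h4, by rw [τ2 _ h1, τ2 _ h4, map_add, map_add, add_assoc, add_assoc, add_assoc]⟩
    have r2 : ∀ v w, B (z.1 • v - v) w = 0 := fun v w => by
      have e1 : B (z.1 • σ v - σ v) (σ w) = 0 := 
        DFunLike.congr_fun (DFunLike.congr_fun r1 (v : W ⧸ perp B M)) (w : W ⧸ perp B M)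
      have e2 := dec w _ (r (σ v) trivial)
      have e3 := dec v _ ((hZ _ z⁻¹.2).1 _ (neg_mem (r w trivial)))
      rw [smul_neg, smul_sub, Subgroup.coe_inv, inv_smul_smul, neg_sub, s.symm, ← s.adj] at e3
      simp only [map_sub, smul_sub, AddMonoidHom.sub_apply] at e1 e2 e3 ⊢
      linear_combination e1 + e2 + e3
    exact Subtype.ext (eq_of_smul_eq_smul (α := W) fun v => by
      simpa [sub_eq_zero] using s.nd _ fun w => (s.symm _ _).trans (r2 v w))
  refine ⟨_, Nat.card (toPermHom Z (W ⧸ perp B M)).ker, hU.index kU,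
    by rw [index_mul_card]; exact f.index_dvd, by rw [index_mul_card]; exact Nat.card_pos, ?_,
    fun h => ?_⟩
  · have : Nat.card (toPermHom Z (W ⧸ perp B M)).ker ≤ Nat.card Prop :=
      Nat.card_le_card_of_injective (fun z => z.1.1 • β - β ∈ M) fun z z' c => by
        refine Subtype.ext (inv_mul_eq_one.1 (triv _ (z⁻¹ * z').2 ?_))
        have : z'.1.1 • β - z.1.1 • β ∈ M := by
          have st := fun z : Z => s.step e (fun z hz => (hZ z hz).1) z.2
            (s.ad_keep (hZ _ z⁻¹.2).1 (k0 z⁻¹))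
          by_cases d : z.1.1 • β - β ∈ M
          · simpa using sub_mem ((iff_of_eq c).1 d) d
          · simpa using sub_mem ((st z'.1).resolve_left (mt (iff_of_eq c).2 d))
              ((st z.1).resolve_left d)
        simpa [smul_sub, mul_smul] using (hZ _ z⁻¹.1.2).1 _ this
    have p : 0 < Nat.card (toPermHom Z (W ⧸ perp B M)).ker := Nat.card_pos
    rw [Nat.card_eq_fintype_card (α := Prop), Fintype.card_prop] at this
    generalize Nat.card _ = n at this p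
    interval_cases n <;> decide
  · refine card_eq_one.2 (eq_bot_iff.2 fun z hz => triv z hz ?_)
    by_cases c : β - α ∈ M
    · convert add_mem (sub_mem ((hZ _ z.2).1 _ c) c) (k0 z) using 1
      rw [smul_sub]; abel
    · obtain ⟨g, hg⟩ := g3.2 ⟨h, c⟩
      exact (kg z g hg).2

omit s in
theorem main (mn : JobMN) (s8 : JobS8) (s6 : JobS6) (d5 : JobD5) (d4 : JobD4) (da : JobDA)
    (s : St B Gd Y) (ty : (Gd = Set.univ ∧ Nat.card W ≠ 64) ∨ ∃ Q, Quad X B Gd Q) :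
    Group.IsSolvable X := by
  obtain ⟨M, m⟩ := s.exists_max (by
      rcases ty with ⟨rfl, -⟩ | ⟨Q, q⟩
      exacts [trivial, (q.gd 0).2 (by simpa using q.add 0 0)]) fun v hv w hw h => by
    rcases ty with ⟨rfl, -⟩ | ⟨Q, q⟩
    exacts [trivial, (q.gd _).2 (by rw [q.add, (q.gd v).1 hv, (q.gd w).1 hw, h]; rfl)]
  obtain ⟨α, β, e, hc⟩ : ∃ α β, perp B M = s.ad (s.ad M α) β ∧ (Nat.card (perp B M) = Nat.card M ∨
      (Nat.card (perp B M) = 4 * Nat.card M ∧ ∃ Q, Quad X B Gd Q)) := by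
    by_cases c : perp B M ≤ M
    · rw [le_antisymm c m.le]
      exact ⟨0, 0, by ext w; simp [St.ad, ← SetLike.mem_coe], .inl rfl⟩
    · obtain ⟨Q, q⟩ := ty.resolve_left fun h => c fun w hw => m.max w (h.1 ▸ trivial) hw
      obtain ⟨α, β, a, b⟩ := s.exists_ab q m c
      exact ⟨α, β, a, .inr ⟨b, Q, q⟩⟩
  have two : ∀ a : W ⧸ perp B M, a + a = 0 := fun a =>
    QuotientAddGroup.induction_on a fun w => by rw [← QuotientAddGroup.mk_add, s.two]; rfl
  have c1 := s.card M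
  have c2 : Nat.card (W ⧸ perp B M) = Nat.card M := mul_right_cancel₀ Nat.card_pos.ne'
    ((AddSubgroup.card_eq_card_quotient_mul_card_addSubgroup _).symm.trans c1.symm)
  obtain ⟨μ, hμ⟩ : ∃ μ, Nat.card (W ⧸ perp B M) = 2 ^ μ := by
    have : Fact (Nat.Prime 2) := ⟨Nat.prime_two⟩
    exact (IsPGroup.iff_card (G := Multiplicative (W ⧸ perp B M))).1
      fun a => ⟨1, (sq a).trans (two _)⟩
  have fin : ∀ a, Y.index = 2 ^ a → Y.index ∣ 12 → Group.IsSolvable X := fun a h1 h2 =>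
    solv_of_index s.sol (Nat.le_of_dvd (by decide) (Nat.Coprime.dvd_of_dvd_mul_right (n := 3)
      (h1 ▸ Nat.Coprime.pow_left a (by decide)) h2))
  rcases (show 5 ≤ μ ∨ μ ≤ 4 by omega) with h | h
  · obtain ⟨U, u1, u2, u3⟩ := d5 _ two (hμ ▸ Nat.pow_le_pow_right (n := 2) (by decide) h)
    obtain ⟨n, k, a, b, c, -, d⟩ := s.confB m e u2.zero (fun p L _ => u2.gen p L) u2.pl u3
    rw [d u1, mul_one] at b c
    exact solv_of_index s.sol ((Nat.le_of_dvd c b).trans a)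
  obtain ⟨⟨U, u1, u2⟩, u3⟩ := da _ two (hμ ▸ Nat.pow_le_pow_right (n := 2) (by decide) h)
  obtain ⟨a, ha⟩ := s.confA m e u1 u2
  rcases (show μ ≤ 2 ∨ μ = 3 ∨ μ = 4 by omega) with h | rfl | rfl
  · obtain ⟨n, k, a, b, -, c, -⟩ := s.confB m e (U := ∅) id (fun p L c d => (AddSubgroup.eq_top_iff' L).2
      fun a => by
        rcases eq_or_ne a p with rfl | h
        exacts [c.resolve_left (by simp) ▸ L.zero_mem, d a id h])
      (fun β h => AddMonoidHom.ext fun b => AddMonoidHom.ext fun c => h 0 b c id id id id)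
      (u3 (hμ ▸ Nat.pow_le_pow_right (n := 2) (by decide) h))
    exact fin _ ha (b.trans (mul_dvd_mul a c))
  · rw [c2] at hμ
    rcases hc with hc | ⟨hc, Q, q⟩
    · rw [hc, hμ] at c1
      obtain ⟨Q, q⟩ := ty.resolve_left fun h => h.2 c1.symm
      have := s6 mn W X B Gd Y s Q q c1.symm (by have := s.card_gd q m; omega)
      refine solv_of_index s.sol ?_
      rw [ha] at this ⊢
      exact Nat.pow_le_pow_right (n := 2) (j := 2) (by decide) (Nat.le_of_lt_succ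
        ((Nat.pow_lt_pow_iff_right (a := 2) (by decide)).1 (this.trans_lt (by decide))))
    · rw [hc, hμ] at c1
      refine H29.isSolvable_of_prime_dvd_card (p := 2) (q := 17) Nat.prime_two (by norm_num)
        fun r hr h => ?_
      rw [← Y.index_mul_card, ha] at h
      exact ((Nat.Prime.dvd_mul hr).1 h).elim (fun c => .inl ((Nat.prime_dvd_prime_iff_eq hr
        Nat.prime_two).1 (hr.dvd_of_dvd_pow c)))
        (s8 mn W X B Gd Y s Q q c1.symm (by have := s.card_gd q m; omega) r hr)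
  · obtain ⟨U, u1, u2, u3⟩ := d4 _ two hμ
    obtain ⟨n, k, a, b, -, -, d⟩ := s.confB m e u2.zero (fun p L _ => u2.gen p L) u2.pl u3
    rw [d u1, mul_one] at b
    exact fin _ ha (b.trans a)

omit s in
theorem jobF2 (mn : JobMN) (s8 : JobS8) (s6 : JobS6) (d5 : JobD5) (d4 : JobD4) (da : JobDA) :
    JobF2 := by
  intro W X _ _ _ _ _ B Gd Y s ty
  let _ := imAct W X
  let φ := (toPermHom X W).rangeRestrict
  have sm : ∀ (x : X) (w : W), φ x • w = x • w := fun _ _ => rfl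
  have sj : Function.Surjective φ := MonoidHom.rangeRestrict_surjective _
  refine (SolMod.of_range _ (main (Y := Y.map φ) mn s8 s6 d5 d4 da ⟨s.two, s.alt, s.nd,
    sj.forall.2 s.inv, have := s.sol; Group.isSolvable_of_surjective (φ.subgroupMap_surjective Y),
    fun U h => s.irr U fun y hy => h _ ⟨y, hy, rfl⟩, fun M m S hS => ?_⟩
    (ty.imp_right fun ⟨Q, q⟩ => ⟨Q, q.add, q.gd, sj.forall.2 q.inv⟩))).mono
    fun a e w => congrArg (· w) e
  obtain ⟨Z, f, hZ⟩ := s.col M m S hS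
  refine ⟨Z.map φ, sj.forall.2 fun x => ?_, by rintro _ ⟨z, hz, rfl⟩; exact hZ z hz⟩
  obtain ⟨y, hy, h⟩ := f x
  exact ⟨φ y, ⟨y, hy, rfl⟩, _, h, by rw [map_mul, map_inv]⟩

end H53.F2
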