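import Cfsg.Agent.H53.F2B
import Cfsg.Agent.H12.CLSpec
import Cfsg.Agent.H22.Weights

/-! CL3 tower, `r = 2`: the stabiliser of the pair `v₀`, `∑ s ∈ S, t_s v₀`. -/

set_option autoImplicit false
set_option linter.unusedSectionVars false

namespace H53.F2

open Module H12.CL H22

variable {K V W : Type} [Field K] [AddCommGroup V] [Module K V] [AddCommGroup W]
  [Module (ZMod 2) W] (S : Ex 2 K V W)

theorem z01 (i : ZMod 2) : i = 0 ∨ i = 1 := by revert i; decide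

theorem χ0 : S.χ 0 = 1 := (S.χ_eq 0).2 rfl

theorem χ1 : S.χ 1 = -1 := (mul_self_eq_one_iff.1 ((S.χ_add 1 1).symm.trans (χ0 S))).resolve_left
  fun e => absurd ((S.χ_eq 1).1 e) (by decide)

theorem χσ (σ : K ≃+* K) (i : ZMod 2) : σ (S.χ i) = S.χ i := by
  rcases z01 i with rfl | rfl <;> simp [χ0, χ1]

theorem χinj {i j : ZMod 2} (h : S.χ i = S.χ j) : i = j := by
  have := (S.χ_eq (i + j)).1 (by rw [S.χ_add, h, ← S.χ_add, z2', χ0])
  linear_combination this - z2' j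

theorem two (w : W) : w + w = 0 := by rw [← two_smul (ZMod 2), show (2 : ZMod 2) = 0 from rfl, zero_smul]

/-- a renormalisation of `t` -/
def Rn (T : W → End K V) : Prop := ∀ w, ∃ c : K, c ≠ 0 ∧ T w = c • S.t w

variable {S} {T : W → End K V}

theorem Rn.comm (h : Rn S T) (a b : W) : T a * T b = S.χ (S.B a b) • (T b * T a) := by
  obtain ⟨c, -, e⟩ := h a
  obtain ⟨d, -, f⟩ := h b
  simp only [e, f, smul_mul_smul_comm, S.comm a b, smul_smul]
  congr 1; ring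

theorem Rn.mul (h : Rn S T) (a b : W) : ∃ c : K, c ≠ 0 ∧ T a * T b = c • T (a + b) := by
  obtain ⟨c, c0, e⟩ := h a
  obtain ⟨d, d0, f⟩ := h b
  obtain ⟨x, x0, g⟩ := h (a + b)
  obtain ⟨y, y0, k⟩ := S.t_mul a b
  refine ⟨c * d * y / x, by simp [*], ?_⟩
  simp only [e, f, g, smul_mul_smul_comm, k, smul_smul]
  congr 1; field_simp

theorem Rn.sq (h : Rn S T) (a : W) : ∃ c : K, c ≠ 0 ∧ ∀ v, T a (T a v) = c • v := by
  obtain ⟨c, c0, e⟩ := h.mul a a
  obtain ⟨d, d0, f⟩ := h 0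
  exact ⟨c * d, mul_ne_zero c0 d0, fun v => by
    simpa [two, f, S.t_zero, smul_smul] using LinearMap.congr_fun e v⟩

theorem Rn.inj (h : Rn S T) (a : W) : Function.Injective (T a) := fun v w e => by
  obtain ⟨c, c0, f⟩ := h.sq a
  exact smul_right_injective V c0 ((f v).symm.trans (e ▸ f w))

theorem Rn.ne (h : Rn S T) (a : W) {v : V} (hv : v ≠ 0) : T a v ≠ 0 :=
  fun e => hv (h.inj a (e.trans (map_zero _).symm))

theorem Rn.st (h : Rn S T) {a : W} {v : V} : S.St v a ↔ ∃ c : K, T a v = c • v := by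
  obtain ⟨c, c0, e⟩ := h a
  exact ⟨fun ⟨d, f⟩ => ⟨c * d, by simp [e, f, smul_smul]⟩,
    fun ⟨d, f⟩ => ⟨c⁻¹ * d, by rw [mul_smul, ← f, e]; simp [c0]⟩⟩

theorem rn_t : Rn S S.t := fun _ => ⟨1, one_ne_zero, (one_smul _ _).symm⟩

theorem exists_rn [Finite W] (hg : ∀ U : Submodule (ZMod 2) W, (∀ a, S.Gd a → a ∈ U) → U = ⊤) :
    ∃ T, Rn S T ∧ ∀ x y, ∃ i, T x * T y = S.χ i • T (x + y) := by
  classical
  obtain ⟨U, ⟨T, h, m⟩, mx⟩ := exists_maximal_of_wellFoundedGT (fun U : Submodule (ZMod 2) W =>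
    ∃ T, Rn S T ∧ ∀ x ∈ U, ∀ y ∈ U, ∃ i, T x * T y = S.χ i • T (x + y))
    ⟨⊥, S.t, rn_t, by rintro _ rfl _ rfl; exact ⟨0, by simp [χ0, S.t_zero]⟩⟩
  obtain rfl := hg U fun e ⟨v, v0, c, hc⟩ => by_contra fun he => by
    let T' : W → End K V := fun w => if w ∈ U then T w else T (w - e) * S.t e
    have t1 : ∀ u ∈ U, T' u = T u := fun u hu => if_pos hu
    have t2 : ∀ u ∈ U, T' (u + e) = T u * S.t e := fun u hu => by
      simp only [T', if_neg fun k : u + e ∈ U => he ((U.add_mem_iff_right hu).1 k), add_sub_cancel_right]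
    have t3 : S.t e * S.t e = 1 := (sq _).symm.trans (S.tg e v c v0 hc)
    have t4 : ∀ u, S.t e * T u = S.χ (S.B e u) • (T u * S.t e) := fun u => by
      obtain ⟨c, -, f⟩ := h u
      rw [f, mul_smul_comm, S.comm, smul_mul_assoc, smul_comm]
    have dec : ∀ x ∈ U ⊔ .span _ {e}, ∃ u ∈ U, x = u ∨ x = u + e := fun x hx => by
      obtain ⟨u, hu, z, hz, rfl⟩ := Submodule.mem_sup.1 hx
      obtain ⟨i, rfl⟩ := Submodule.mem_span_singleton.1 hz
      exact ⟨u, hu, by rcases z01 i with rfl | rfl <;> simp⟩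
    refine he (mx (y := U ⊔ .span _ {e}) ⟨T', fun w => ?_, fun x hx y hy => ?_⟩
      le_sup_left (Submodule.mem_sup_right (Submodule.mem_span_singleton_self e)))
    · by_cases k : w ∈ U
      · exact t1 w k ▸ h w
      · obtain ⟨c, c0, f⟩ := h (w - e)
        obtain ⟨d, d0, g⟩ := S.t_mul (w - e) e
        exact ⟨c * d, mul_ne_zero c0 d0, by
          simp only [T', if_neg k, f, smul_mul_assoc, g, smul_smul, sub_add_cancel]⟩
    obtain ⟨u, hu, e1⟩ := dec x hx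
    obtain ⟨w, hw, e2⟩ := dec y hy
    obtain ⟨i, f⟩ := m u hu w hw
    have k := add_mem hu hw
    rcases e1 with rfl | rfl <;> rcases e2 with rfl | rfl
    · exact ⟨i, by rw [t1 _ hu, t1 _ hw, t1 _ k, f]⟩
    · exact ⟨i, by rw [t1 _ hu, t2 _ hw, ← add_assoc, t2 _ k, ← mul_assoc, f, smul_mul_assoc]⟩
    · exact ⟨S.B e y + i, by
        rw [t1 _ hw, t2 _ hu, add_right_comm, t2 _ k, mul_assoc, t4, mul_smul_comm, ← mul_assoc, f,
          smul_mul_assoc, smul_smul, S.χ_add]⟩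
    · exact ⟨S.B e w + i, by
        rw [t2 _ hw, t2 _ hu, add_add_add_comm, two, add_zero, t1 _ k, mul_assoc,
          ← mul_assoc (S.t e), t4, smul_mul_assoc, mul_assoc, t3, mul_one, mul_smul_comm, f,
          smul_smul, S.χ_add]⟩
  exact ⟨T, h, fun x y => m x trivial y trivial⟩

theorem exists_v0 [Finite W] [Nontrivial V] {M : Set W} (g : ∀ m ∈ M, S.Gd m)
    (iso : ∀ m ∈ M, ∀ m' ∈ M, S.B m m' = 0) : ∃ v : V, v ≠ 0 ∧ ∀ m ∈ M, S.St v m := by
  induction M, M.toFinite using Set.Finite.induction_on with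
  | empty => exact (exists_ne 0).imp fun v h => ⟨h, by simp⟩
  | @insert a M _ _ ih =>
    obtain ⟨v, v0, hv⟩ := ih (fun m h => g m (.inr h)) fun m h m' h' => iso m (.inr h) m' (.inr h')
    obtain ⟨u, u0, c, hc⟩ := g a (.inl rfl)
    have e : ∀ v, S.t a (S.t a v) = v := fun v => by
      simpa [sq] using LinearMap.congr_fun (S.tg a u c u0 hc) v
    by_cases k : v + S.t a v = 0
    · exact ⟨v, v0, by
        rintro m (rfl | h)
        exacts [⟨-1, by simpa using (neg_eq_of_add_eq_zero_right k).symm⟩, hv m h]⟩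
    refine ⟨_, k, ?_⟩
    rintro m (rfl | h)
    · exact ⟨1, by simp [e, add_comm]⟩
    · obtain ⟨d, hd⟩ := hv m h
      have := LinearMap.congr_fun (S.comm m a) v
      rw [iso m (.inr h) a (.inl rfl), χ0] at this
      exact ⟨d, by simpa [hd] using this⟩

theorem fiber {ι A : Type} [DecidableEq (A → K)] (f : A → End K V) (s : Finset ι) (ω ω' : ι → A → K) (x y : ι → V)
    (hx : ∀ i ∈ s, x i ∈ wt f (ω i)) (hy : ∀ i ∈ s, y i ∈ wt f (ω' i))
    (e : ∑ i ∈ s, x i = ∑ i ∈ s, y i) (c : A → K) :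
    ∑ i ∈ s with ω i = c, x i = ∑ i ∈ s with ω' i = c, y i := by
  have := eq_zero_of_sum_wt f id (insert c (s.image ω ∪ s.image ω')) (Set.injOn_id _)
    (fun c => ∑ i ∈ s with ω i = c, x i - ∑ i ∈ s with ω' i = c, y i)
    (fun c _ => sub_mem (sum_mem fun i hi => by simp at hi; exact hi.2 ▸ hx i hi.1)
      (sum_mem fun i hi => by simp at hi; exact hi.2 ▸ hy i hi.1))
    (by rw [Finset.sum_sub_distrib, Finset.sum_fiberwise_of_maps_to (by grind),
      Finset.sum_fiberwise_of_maps_to (by grind), e, sub_self]) c (by simp)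
  exact sub_eq_zero.1 this

theorem col [Finite W] {M : AddSubgroup W} {v₀ : V} (v0 : v₀ ≠ 0) (st : ∀ a, S.St v₀ a ↔ a ∈ M)
    (h : Rn S T) (hs : (∀ x y, ∃ i, T x * T y = S.χ i • T (x + y)) ∨ ∀ m ∈ M, m = 0) (A : Set W)
    (sep : ∀ v ∈ A, ∀ w ∈ A, (∀ m ∈ M, S.B m v = S.B m w) → v = w) :
    ∃ u, ∀ φ : W ≃ₗ[ZMod 2] W, (∀ a b, S.B (φ a) (φ b) = S.B a b) → S.Fx u v₀ φ →
      (∀ m ∈ M, φ m ∈ M) ∧ (∀ w ∈ A, ∃ w' ∈ A, φ w - w' ∈ M) ∧ ((∀ w, φ w - w ∈ M) → ∀ a b c,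
        a ∈ A → a + b ∈ A → a + c ∈ A → a + b + c ∈ A → S.B (φ b - b) c = 0) := by
  classical
  lift A to Finset W using A.toFinite
  refine ⟨∑ w ∈ A, T w v₀, fun φ pB ⟨g, ⟨⟨σ, hσ⟩, ind⟩, ⟨a, ha⟩, b, hb⟩ => ?_⟩
  have g0 : ∀ {v}, v ≠ 0 → g v ≠ 0 := fun k => (map_ne_zero_iff g g.injective).2 k
  have b0 : b ≠ 0 := by rintro rfl; exact g0 v0 (hb.trans (zero_smul _ _))
  choose c c0 hc using fun w => show ∃ c : K, c ≠ 0 ∧ ∀ v, g (T w v) = c • T (φ w) (g v) from by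
    obtain ⟨c, c0, e⟩ := ind w
    obtain ⟨x, x0, e1⟩ := h w
    obtain ⟨y, y0, e2⟩ := h (φ w)
    exact ⟨σ x * c / y, by simp [*], fun v => by
      simp only [e1, e2, LinearMap.smul_apply, hσ, e, smul_smul]; congr 1; field_simp⟩
  choose l hl using fun m : M => h.st.1 ((st m).2 m.2)
  have l0 : ∀ m, l m ≠ 0 := fun m e => h.ne _ v0 (by rw [hl, e, zero_smul])
  have h1 : ∀ m ∈ M, φ m ∈ M := fun m hm => (st _).1 (h.st.2 ⟨(c m * b)⁻¹ * (σ (l ⟨m, hm⟩) * b), by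
    have := hc m v₀
    rw [hl ⟨m, hm⟩, hσ, hb, map_smul, smul_smul, smul_smul] at this
    rw [mul_smul, this, inv_smul_smul₀ (mul_ne_zero (c0 _) b0)]⟩)
  let ω : W → M → K := fun w m => S.χ (S.B m w) * l m
  have wt1 : ∀ w, T w v₀ ∈ wt (fun m : M => T m) (ω w) := fun w m => by
    simpa [hl, smul_smul] using LinearMap.congr_fun (h.comm m w) v₀
  have ω1 : ∀ {v w}, ω v = ω w → ∀ m ∈ M, S.B m v = S.B m w := fun e m hm =>
    χinj S (mul_right_cancel₀ (l0 _) (congrFun e ⟨m, hm⟩))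
  have g1 : ∀ w, g (T w v₀) = (c w * b) • T (φ w) v₀ := fun w => by rw [hc, hb, map_smul, smul_smul]
  have key : ∀ w ∈ A, ∃ w' ∈ A, ω w' = ω (φ w) ∧ g (T w v₀) = a • T w' v₀ := fun w hw => by
    have := fiber (fun m : M => T m) A (fun w => ω (φ w)) ω (fun w => g (T w v₀))
      (fun w => a • T w v₀) (fun w _ => g1 w ▸ Submodule.smul_mem _ _ (wt1 _))
      (fun w _ => Submodule.smul_mem _ _ (wt1 _)) (by rw [← map_sum, ha, Finset.smul_sum]) (ω (φ w))
    rw [Finset.sum_eq_single_of_mem w (by simpa) fun x hx k => (k (sep x (Finset.mem_filter.1 hx).1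
      w hw fun m hm => by rw [← pB, ω1 (Finset.mem_filter.1 hx).2 _ (h1 m hm), pB])).elim] at this
    obtain ⟨w', hw', -⟩ := Finset.exists_ne_zero_of_sum_ne_zero (this ▸ g0 (h.ne w v0))
    rw [Finset.sum_eq_single_of_mem w' hw' fun x hx k => (k (sep x (Finset.mem_filter.1 hx).1
      w' (Finset.mem_filter.1 hw').1 (ω1 ((Finset.mem_filter.1 hx).2.trans
        (Finset.mem_filter.1 hw').2.symm)))).elim] at this
    exact ⟨w', (Finset.mem_filter.1 hw').1, (Finset.mem_filter.1 hw').2, this⟩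
  refine ⟨h1, fun w hw => ?_, fun tr x y z m1 m2 m3 m4 => ?_⟩
  · obtain ⟨w', hw', -, e⟩ := key w hw
    obtain ⟨d, d0, e1⟩ := h.mul w' (φ w)
    obtain ⟨k, -, e2⟩ := h.sq w'
    refine ⟨w', hw', (st _).1 (h.st.2 ⟨(c w * b * d)⁻¹ * (a * k), ?_⟩)⟩
    have := congrArg (T w') ((g1 w).symm.trans e)
    rw [map_smul, map_smul, e2, ← End.mul_apply, e1, LinearMap.smul_apply, smul_smul, smul_smul] at this
    rw [mul_smul, ← this, inv_smul_smul₀ (by simp [*]), sub_eq_add_neg,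
      neg_eq_of_add_eq_zero_left (two w'), add_comm]
  rcases hs with hs | hs
  swap
  · rw [hs _ (tr y), map_zero, LinearMap.zero_apply]
  have iso : ∀ m ∈ M, ∀ m' ∈ M, S.B m m' = 0 := fun m hm m' hm' => (S.χ_eq _).1 (by
    have := wt1 m' ⟨m, hm⟩
    rw [hl ⟨m', hm'⟩, map_smul, hl, smul_comm] at this
    exact (mul_left_eq_self₀.1 (smul_left_injective K (smul_ne_zero (l0 _) v0) this).symm).resolve_right (l0 _))
  have ω2 : ∀ w, ω (φ w) = ω w := fun w => funext fun m => by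
    simp only [ω, show S.B m (φ w) = S.B m w from by
      rw [← sub_eq_zero, ← map_sub, iso _ m.2 _ (tr w)]]
  have fx : ∀ w ∈ A, g (T w v₀) = a • T w v₀ := fun w hw => by
    obtain ⟨w', hw', e, e'⟩ := key w hw
    rwa [sep w' hw' w hw (ω1 (e.trans (ω2 w)))] at e'
  have a0 : a ≠ 0 := by rintro rfl; exact g0 (h.ne x v0) ((fx x m1).trans (zero_smul _ _))
  have main : ∀ w ∈ A, w + z ∈ A → S.χ (S.B (φ w - w) z) • g (T z v₀) = b • T z v₀ :=
    fun w hw hz => by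
      obtain ⟨d, d0, e⟩ := h.mul w (φ w - w)
      rw [add_sub_cancel] at e
      have e1 : ∀ v, g (T w v) = T w ((c w / d) • T (φ w - w) (g v)) := fun v => by
        rw [map_smul, ← End.mul_apply, e, LinearMap.smul_apply, smul_smul, div_mul_cancel₀ _ d0, hc]
      obtain ⟨i, e2⟩ := hs w z
      have e3 := h.inj w ((e1 v₀).symm.trans ((fx w hw).trans (map_smul _ _ _).symm))
      have e4 := h.inj w ((e1 (T z v₀)).symm.trans (show _ = T w (a • T z v₀) by
        rw [map_smul, ← End.mul_apply, e2, LinearMap.smul_apply, hσ, χσ, fx _ hz, smul_comm]))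
      have e5 : T (φ w - w) (g (T z v₀)) = ω z ⟨_, tr w⟩ • g (T z v₀) := by
        rw [g1 z, ← ω2 z]
        exact Submodule.smul_mem _ (c z * b) (wt1 (φ z)) ⟨_, tr w⟩
      rw [hb, map_smul, hl ⟨_, tr w⟩, smul_smul, smul_smul] at e3
      rw [e5, smul_smul] at e4
      refine smul_right_injective V a0 ?_
      simp only
      rw [smul_comm a b, ← e4, ← smul_left_injective K v0 e3, smul_smul, smul_smul]
      congr 1; simp only [ω]; ring
  have := χinj S (smul_left_injective K (g0 (h.ne z v0)) ((main _ m2 m4).trans (main x m1 m3).symm))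
  simp only [map_add, map_sub, LinearMap.add_apply, LinearMap.sub_apply] at this ⊢
  linear_combination this

theorem jobF2E' (f2 : JobF2) : AllX fun r _ V W _ _ _ _ _ S => r = 2 → Ty S.B S.Gd →
    ∀ X Y : Subgroup (W ≃ₗ[ZMod r] W), Y ≤ X → Group.IsSolvable Y →
    (∀ T : Submodule (ZMod r) W, (∀ y ∈ Y, ∀ a ∈ T, y a ∈ T) → T = ⊥ ∨ T = ⊤) →
    (∀ φ ∈ X, ∀ a b, S.B (φ a) (φ b) = S.B a b) → (∀ φ ∈ X, ∀ a, S.Gd (φ a) ↔ S.Gd a) →
    (∀ u v : V, H12.CL.Fac X Y (S.Fx u v)) → (TyO S.B S.Gd ∨ Nat.card W ≠ 64) →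
    Group.IsSolvable X := by
  rintro r _ K V W _ _ _ _ _ _ _ _ _ _ S rfl ty X Y le sol irr pB pG fac ty'
  obtain ⟨T, h, hs⟩ : ∃ T, Rn S T ∧ ((∀ x y, ∃ i, T x * T y = S.χ i • T (x + y)) ∨
      ∀ a, S.Gd a → a = 0) := by
    rcases irr (.span _ {a | S.Gd a}) (fun y hy a ha => (Submodule.span_le
      (p := (Submodule.span _ {a | S.Gd a}).comap y.toLinearMap)).2
      (fun a ha => Submodule.subset_span ((pG y (le hy) a).2 ha)) ha) with c | c
    · exact ⟨_, rn_t, .inr (Submodule.span_eq_bot.1 c)⟩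
    · obtain ⟨T, a, b⟩ := exists_rn (S := S) fun U hU => top_unique (c ▸ Submodule.span_le.2 hU)
      exact ⟨T, a, .inl b⟩
  have : Finite (W ≃ₗ[ZMod 2] W) := DFunLike.finite _
  refine (f2 W X (LinearMap.toAddMonoidHom'.comp S.B.toAddMonoidHom) {a | S.Gd a} (Y.subgroupOf X)
    ⟨two, S.sp.alt, fun w k => S.sp.nd w fun v => ?_, fun x => pB x x.2,
      Group.isSolvable_of_isSolvable_injective (f := (Subgroup.subgroupOfEquivOfLe le).toMonoidHom)
        (Subgroup.subgroupOfEquivOfLe le).injective, fun U k => ?_, fun M m A sep => ?_⟩ ?_).solvable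
  · have := S.sp.alt (v + w)
    simpa [S.sp.alt, show S.B v w = 0 from k v] using this
  · exact (irr (AddSubgroup.toZModSubmodule 2 U) fun y hy => k ⟨y, le hy⟩ hy).imp
      (congrArg Submodule.toAddSubgroup) (congrArg Submodule.toAddSubgroup)
  · obtain ⟨v₀, v0, st⟩ := exists_v0 (S := S) (M := M) m.gd m.iso
    obtain ⟨u, hu⟩ := col v0 (fun a => ⟨fun ⟨c, k⟩ => m.max a ⟨v₀, v0, c, k⟩ fun x hx => by
      obtain ⟨d, e⟩ := st x hx
      have := LinearMap.congr_fun (S.comm x a) v₀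
      rw [LinearMap.smul_apply, End.mul_apply, End.mul_apply, k, e, map_smul, map_smul, k, e,
        smul_comm d] at this
      exact (S.χ_eq _).1 (smul_left_injective K (by
        rw [← e, ← map_smul, ← k]; exact rn_t.ne _ (rn_t.ne _ v0)) (this.symm.trans (one_smul _ _).symm)),
      st a⟩) h (hs.imp_right fun k a ha => k a (m.gd a ha)) A sep
    obtain ⟨Z, z1, z2, z3⟩ := fac u v₀
    exact ⟨Z.subgroupOf X, fun x => let ⟨y, a, b⟩ := z2 x x.2; ⟨⟨y, le a⟩, a, b⟩,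
      fun z hz => hu z (pB z z.2) (z3 z hz)⟩
  · by_cases c : TyO S.B S.Gd
    · obtain ⟨-, Q, q1, q2⟩ := c
      refine .inr ⟨Q, q1, q2, fun x w => ?_⟩
      have := (q2 _).symm.trans ((pG x x.2 w).trans (q2 _))
      change Q (x.1 w) = _
      rcases z01 (Q (x.1 w)) with a | a <;> rcases z01 (Q w) with b | b <;> simp_all
    · exact .inl ⟨Set.eq_univ_of_forall (ty.resolve_right c), ty'.resolve_left c⟩

end H53.F2
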