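/- Tower O84, chapter E3: the two twisted diagonal subgroups `D₄(4)` of `E₈` are not conjugate. -/
import Cfsg.Agent.H46.O84A
import Cfsg.Agent.H53.O84E3D
import Cfsg.Agent.H64.O84E1
import Cfsg.Agent.S0287

set_option autoImplicit false
set_option linter.unusedSectionVars false

namespace H53.O84

open Cfsg.Lie H63 H64 H65 H46 H67 Subgroup Matrix Multiplicative
open scoped Pointwise

/-- Abelian subgroups of order 81 are conjugate. -/
theorem uniq0 {G V : Type*} [Group G] [Finite G] (hc : ¬ 3 ^ 6 ∣ Nat.card G) [CommGroup V]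
    (hV : Nat.card V = 3 ^ 4) {τ σ : V →* G} (hτ : Function.Injective τ)
    (hσ : Function.Injective σ) {x : G} (x3 : x ^ 3 = 1) {M : V → V}
    (hM : ∀ v, x * τ v * x⁻¹ = τ (M v)) (h9 : Nat.card {v // M v = v} ≤ 9) (v : V) :
    ∃ h w, h * σ v * h⁻¹ = τ w := by
  have := Fact.mk Nat.prime_three
  have : Finite V := Nat.finite_of_card_ne_zero (by rw [hV]; norm_num)
  have cr : ∀ f : V →* G, Function.Injective f → Nat.card f.range = 3 ^ 4 := fun f hf =>
    (Nat.card_congr (MonoidHom.ofInjective hf).toEquiv).symm.trans hV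
  have hn : zpowers x ≤ normalizer (τ.range : Set G) :=
    zpowers_le.2 (mem_normalizer_fintype fun _ ⟨w, e⟩ => ⟨M w, by rw [← hM, e]⟩)
  have hx : IsPGroup 3 (zpowers x) := by
    obtain ⟨n, -, e⟩ := (Nat.dvd_prime_pow Nat.prime_three (m := 1)).1
      (orderOf_dvd_of_pow_eq_one (x := x) (by rw [pow_one, x3]))
    exact .of_card ((Nat.card_zpowers x).trans e)
  obtain ⟨P, hP⟩ := ((IsPGroup.of_card (cr τ hτ)).to_sup_of_normal_left' hx hn).exists_le_sylow
  obtain ⟨Q, hQ⟩ := (IsPGroup.of_card (cr σ hσ)).exists_le_sylow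
  obtain ⟨h, rfl⟩ := MulAction.exists_smul_eq G Q P
  let σ' : V →* G := (MulAut.conj h).toMonoidHom.comp σ
  have hA : σ'.range ≤ (h • Q : Sylow 3 G) := by
    rintro _ ⟨w, rfl⟩
    exact smul_mem_pointwise_smul _ _ _ (hQ ⟨w, rfl⟩)
  have cA := cr σ' ((MulAut.conj h).injective.comp hσ)
  generalize h • Q = P at hP hA
  obtain ⟨n, cP⟩ := P.2.exists_card_eq
  have n5 : n ≤ 5 := by
    by_contra h1
    exact hc ((pow_dvd_pow 3 (by omega)).trans (cP ▸ card_subgroup_dvd_card _))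
  have fix : ∀ K : Subgroup G, K ≤ τ.range → (∀ b ∈ K, x * b * x⁻¹ = b) → Nat.card K ≤ 9 :=
    fun K h1 h2 => (Nat.card_le_card_of_injective (fun b : K => (⟨(h1 b.2).choose, hτ (by
      rw [← hM, (h1 b.2).choose_spec, h2 b b.2])⟩ : {v // M v = v})) fun a b e => Subtype.ext (by
        rw [← (h1 a.2).choose_spec, ← (h1 b.2).choose_spec]
        exact congrArg τ (congrArg Subtype.val e))).trans h9
  have comm : ∀ a ∈ τ.range, ∀ b ∈ τ.range, Commute a b := by
    rintro _ ⟨a, rfl⟩ _ ⟨b, rfl⟩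
    exact (Commute.all a b).map τ
  have hR : τ.range ⊔ zpowers x = P := by
    refine eq_of_le_of_card_ge hP ?_
    obtain ⟨m, hm, e⟩ := (Nat.dvd_prime_pow Nat.prime_three).1 (cP ▸ card_dvd_of_le hP)
    rw [cP, e]
    refine Nat.pow_le_pow_right (by norm_num) (n5.trans ?_)
    by_contra h1
    have h2 : τ.range = τ.range ⊔ zpowers x := eq_of_le_of_card_ge le_sup_left (by
      rw [e, cr τ hτ]; exact Nat.pow_le_pow_right (by norm_num) (by omega))
    have h3 := fix τ.range le_rfl fun b hb => by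
      rw [(comm x (h2.ge (mem_sup_right (mem_zpowers x))) b hb).eq, mul_inv_cancel_right]
    rw [cr τ hτ] at h3
    omega
  by_contra hcon
  have h1 : σ' v ∈ (τ.range : Set G) * (zpowers x : Set G) := by
    rw [← coe_mul_of_right_le_normalizer_left _ _ hn, hR]
    exact hA ⟨v, rfl⟩
  obtain ⟨s, hs, _, ⟨i, rfl⟩, e⟩ := h1
  replace e : s * x ^ i = σ' v := e
  have h2 := fix (τ.range ⊓ σ'.range) inf_le_left fun b hb => by
    have h3 : Commute (s * x ^ i) b := by
      obtain ⟨w, rfl⟩ := hb.2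
      exact e.symm ▸ (Commute.all v w).map σ'
    have h4 : Commute (x ^ i) b := by
      simpa using (comm s hs b hb.1).inv_left.mul_left h3
    have h5 : x ^ (i * i) = x := by
      have h6 : x ^ (3 : ℤ) = 1 := by exact_mod_cast x3
      have h7 : i % 3 ≠ 0 := fun h8 => hcon ⟨h, hs.choose, by
        rw [zpow_eq_zpow_emod i h6, h8, zpow_zero, mul_one] at e
        exact e.symm.trans hs.choose_spec.symm⟩
      rw [zpow_eq_zpow_emod _ h6, Int.mul_emod]
      obtain h9 | h9 : i % 3 = 1 ∨ i % 3 = 2 := by omega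
      all_goals (rw [h9]; simp)
    rw [← h5, _root_.zpow_mul, (h4.zpow_left i).eq, mul_inv_cancel_right]
  have h3 := relIndex_le_of_le_right (H := τ.range) hA index_ne_zero_of_finite
  have h4 := (τ.range.subgroupOf σ'.range).card_mul_index
  have h5 := (τ.range.subgroupOf (P : Subgroup G)).card_mul_index
  rw [Nat.card_congr (subgroupOfEquivOfLe (le_sup_left.trans hP)).toEquiv, cr τ hτ, cP] at h5
  rw [← inf_subgroupOf_right, Nat.card_congr (subgroupOfEquivOfLe inf_le_right).toEquiv, cA,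
    inf_subgroupOf_right] at h4
  have h6 : 3 ^ n ≤ 3 ^ 5 := Nat.pow_le_pow_right (by norm_num) n5
  unfold relIndex at h3
  have h7 := Nat.mul_le_mul h2 h3
  omega

theorem uniq {G V : Type*} [Group G] {H : Subgroup G} [Finite H] (hc : ¬ 3 ^ 6 ∣ Nat.card H)
    [CommGroup V] (hV : Nat.card V = 3 ^ 4) {τ σ : V →* G} (hτ : Function.Injective τ)
    (hσ : Function.Injective σ) (τH : ∀ v, τ v ∈ H) (σH : ∀ v, σ v ∈ H) {x : G} (hx : x ∈ H)
    (x3 : x ^ 3 = 1) {M : V → V} (hM : ∀ v, x * τ v * x⁻¹ = τ (M v))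
    (h9 : Nat.card {v // M v = v} ≤ 9) (v : V) : ∃ h w, h * σ v * h⁻¹ = τ w := by
  obtain ⟨h, w, e⟩ := uniq0 hc hV (τ := τ.codRestrict H τH) (σ := σ.codRestrict H σH)
    (fun _ _ e => hτ (congrArg Subtype.val e)) (fun _ _ e => hσ (congrArg Subtype.val e))
    (x := ⟨x, hx⟩) (Subtype.ext x3) (fun v => Subtype.ext (hM v)) h9 v
  exact ⟨h, w, congrArg Subtype.val e⟩

section tor

variable (D : ChevalleyDatum) [RS D] [Tab D] [Comm D] {k : Type*} [Field k]
  (e : Multiplicative (ZMod 3) →* kˣ)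

/-- The element of order three of the torus given by a vector. -/
noncomputable def T (z : Fin D.rank → ZMod 3) : GL D.Idx k := tor D k fun i => e (ofAdd (z i))

variable {D}

theorem T_add (z z' : Fin D.rank → ZMod 3) : T D e (z + z') = T D e z * T D e z' := by
  rw [T, T, T, ← map_mul]
  congr 1
  funext i
  simp

theorem ev_e (z : Fin D.rank → ZMod 3) (μ : Fin D.rank → ℤ) :
    ev D (fun i => e (ofAdd (z i))) μ = e (ofAdd (∑ i, z i * (μ i : ZMod 3))) := by
  simp only [ev, ← map_zpow, ← map_prod, ← ofAdd_zsmul, ← ofAdd_sum, zsmul_eq_mul, mul_comm]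

theorem nL_T {L : List ℕ} {M : List (List ℤ)} (h : chkW D L id M = true)
    (z : Fin D.rank → ZMod 3) :
    nL D (xU D k) L * T D e z * (nL D (xU D k) L)⁻¹ = T D e (mt _ _ M *ᵥ z) := by
  rw [T, torOK_xU.nL_conj (stB_xU D k).toStN, T]
  congr 1
  funext i
  rw [← ev_single (wT D L _) i, ev_wT, ev_e]
  simp only [chkW_sound h i _ _ rfl, mt, mulVec, dotProduct, of_apply, mul_comm]

theorem rank_T (he : Function.Injective e) (z : Fin D.rank → ZMod 3) :
    ((T D e z : Matrix D.Idx D.Idx k) - 1).rank = cnt D z := by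
  classical
  rw [T, tor_val, ← diagonal_one, diagonal_sub, rank_diagonal, Fintype.card_subtype,
    Finset.card_filter, Fintype.sum_sum_type, cnt]
  simp only [Sum.elim_inl, sub_self, ne_eq, not_true, if_false, Finset.sum_const_zero, zero_add,
    Sum.elim_inr, sub_eq_zero, Units.val_eq_one, ite_not]
  refine Finset.sum_congr rfl fun r _ => if_congr ?_ rfl rfl
  rw [show ∏ i, e (ofAdd (z i)) ^ D.cartan i r = _ from ev_e e z (wt D r),
    map_eq_one_iff e he, ofAdd_eq_one]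
  rfl

theorem rank_conj (y a : GL D.Idx k) :
    (((y * a * y⁻¹ : GL D.Idx k) : Matrix D.Idx D.Idx k) - 1).rank =
      ((a : Matrix D.Idx D.Idx k) - 1).rank := by
  rw [show ((y * a * y⁻¹ : GL D.Idx k) : Matrix D.Idx D.Idx k) - 1 =
      (y : Matrix D.Idx D.Idx k) * ((a : Matrix D.Idx D.Idx k) - 1) *
        ((y⁻¹ : GL D.Idx k) : Matrix D.Idx D.Idx k) by
    rw [mul_sub, sub_mul, mul_one, Units.mul_inv, Units.val_mul, Units.val_mul],
    rank_mul_eq_left_of_isUnit_det _ _ ((isUnit_iff_isUnit_det _).1 (Units.isUnit _)),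
    rank_mul_eq_right_of_isUnit_det _ _ ((isUnit_iff_isUnit_det _).1 (Units.isUnit _))]

theorem nL_append {G : Type*} [Group G] (x : ℕ → k → G) (L L' : List ℕ) :
    nL D x (L ++ L') = nL D x L * nL D x L' := by simp [nL]

theorem map_nL_xU (φ : k →+* k) (L : List ℕ) :
    GeneralLinearGroup.map φ (nL D (xU D k) L) = nL D (xU D k) L :=
  map_nL _ (fun i => by simp only [nn_eq, map_mul, map_xU, map_neg, map_one, inv_one]) L

variable [CharP k 2]

theorem fr_T (z : Fin D.rank → ZMod 3) :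
    GeneralLinearGroup.map (frobenius k 2) (T D e z) = T D e (z + z) := by
  rw [T_add, T, map_tor', frT_eq_pow (frobenius_def 2), map_pow, sq]

theorem nL_eq_one {L : List ℕ} (h : wW D L = 1) : nL D (xU D k) L = 1 :=
  (map_nL (x := xG D k) (D.group k).subtype (fun _ => map_nn_eq _ _ _) L).symm.trans
    (congrArg Subtype.val (H46.O84.nL_congr (L' := []) h))

end tor

theorem j0 : ∀ i : Fin 8, (i : ℕ) ∈ [1, 2, 3, 4] ∨ ∀ v, (mt 8 4 J *ᵥ v) i = 0 := by
  decide +kernel

attribute [local instance] H65.tabE8 H65.commE8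

section fin

variable {k : Type*} [Field k] [CharP k 2] (e : Multiplicative (ZMod 3) →* kˣ)

/-- `T` in rank eight. -/
noncomputable def T8 (z : Fin 8 → ZMod 3) : GL chevE8.Idx k := T chevE8 e z

theorem T8_add (z z' : Fin 8 → ZMod 3) : T8 e (z + z') = T8 e z * T8 e z' := T_add e _ _

theorem nL_T8 {L : List ℕ} {M : List (List ℤ)} (h : chkW chevE8 L id M = true)
    (z : Fin 8 → ZMod 3) : nL chevE8 (xU chevE8 k) L * T8 e z * (nL chevE8 (xU chevE8 k) L)⁻¹ =
      T8 e (mt 8 8 M *ᵥ z) := nL_T e h z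

theorem fr_T8 (z : Fin 8 → ZMod 3) :
    GeneralLinearGroup.map (frobenius k 2) (T8 e z) = T8 e (z + z) := fr_T (D := chevE8) e z

/-- The subgroup `3 ^ 4` of the torus given by a table. -/
noncomputable def tau (A : List (List ℤ)) :
    Multiplicative (Fin 4 → ZMod 3) →* GL chevE8.Idx k :=
  MonoidHom.mk' (fun v => T8 e (mt 8 4 A *ᵥ toAdd v)) fun a b => by
    rw [toAdd_mul, mulVec_add, T8_add]

theorem tau_apply (A : List (List ℤ)) (v : Multiplicative (Fin 4 → ZMod 3)) :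
    tau e A v = T8 e (mt 8 4 A *ᵥ toAdd v) := rfl

theorem rank_tau (he : Function.Injective e) (A : List (List ℤ))
    (v : Multiplicative (Fin 4 → ZMod 3)) :
    ((tau e A v : Matrix chevE8.Idx chevE8.Idx k) - 1).rank = cnt chevE8 (mt 8 4 A *ᵥ toAdd v) :=
  rank_T (D := chevE8) e he _

theorem tau_inj (he : Function.Injective e) {A : List (List ℤ)}
    (h : ∀ v, mt 8 4 A *ᵥ v = 0 → v = 0) : Function.Injective (tau e A) :=
  (injective_iff_map_eq_one _).2 fun v hv => toAdd.injective (h _ (funext fun i => by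
    have h1 : torG chevE8 k (fun i => e (ofAdd ((mt 8 4 A *ᵥ toAdd v) i))) = 1 := Subtype.ext hv
    rw [torG_eq_one_iff, kerE8.cker_eq_bot, mem_bot] at h1
    exact ofAdd_eq_one.1 ((map_eq_one_iff e he).1 (congrFun h1 i))))

variable {e} {D : Subgroup (GL chevE8.Idx k)}

theorem nn_mem (hD : ∀ i ∈ [1, 2, 3, 4], ∀ t : k, t ^ 4 = t →
    xU chevE8 k (chevE8.simple i) t ∈ D ∧ xU chevE8 k (chevE8.neg (chevE8.simple i)) t ∈ D)
    {i : ℕ} (hi : i ∈ [1, 2, 3, 4]) {t : k} (ht : t ^ 4 = t) :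
    nn chevE8 (xU chevE8 k) (chevE8.simple i) t ∈ D := by
  rw [nn_eq]
  exact mul_mem (mul_mem (hD i hi t ht).1 (hD i hi _ (by rw [CharTwo.neg_eq, inv_pow, ht])).2)
    (hD i hi t ht).1

theorem tau_mem (hD : ∀ i ∈ [1, 2, 3, 4], ∀ t : k, t ^ 4 = t →
    xU chevE8 k (chevE8.simple i) t ∈ D ∧ xU chevE8 k (chevE8.neg (chevE8.simple i)) t ∈ D)
    (v : Multiplicative (Fin 4 → ZMod 3)) : tau e J v ∈ D := by
  have h1 : ∀ (i : Fin chevE8.rank) (a : Multiplicative (ZMod 3)), (i : ℕ) ∈ [1, 2, 3, 4] ∨ a = 1 →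
      tor chevE8 k (Pi.mulSingle i (e a)) ∈ D := by
    rintro i a (hi | rfl)
    · rw [torOK_xU, H64.hh_eq]
      refine mul_mem (nn_mem hD hi ?_) (nn_mem hD hi (by rw [CharTwo.neg_eq, one_pow]))
      rw [← Units.val_pow_eq_pow_val, ← map_pow, show a ^ 4 = a by revert a; decide]
    · rw [map_one, Pi.mulSingle_one, map_one]
      exact one_mem _
  change tor chevE8 k _ ∈ D
  rw [← Finset.univ_prod_mulSingle fun i : Fin chevE8.rank => e _, ← mem_comap]
  refine prod_mem fun i _ => h1 i _ ?_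
  exact (j0 i).imp_right fun h => ofAdd_eq_one.2 (h _)

theorem tau_sig {L : List ℕ} {M A : List (List ℤ)} (h : chkW chevE8 L id M = true)
    (hA : mt 8 4 J + mt 8 8 M * (mt 8 4 J + mt 8 4 J) = mt 8 4 A)
    (v : Multiplicative (Fin 4 → ZMod 3)) :
    tau e J v * (nL chevE8 (xU chevE8 k) L * GeneralLinearGroup.map (frobenius k 2) (tau e J v) *
      (nL chevE8 (xU chevE8 k) L)⁻¹) = tau e A v := by
  change T8 e _ * (_ * GeneralLinearGroup.map _ (T8 e _) * _) = T8 e _
  rw [fr_T8, nL_T8 e h, ← T8_add, ← hA, add_mulVec, ← mulVec_mulVec, add_mulVec]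

/-- E3: no conjugate of `H₂` lies in `H₁`. -/
theorem not_conj (ω : kˣ) (hω : orderOf ω = 3) (D H₁ H₂ : Subgroup (GL chevE8.Idx k))
    (hD : ∀ i ∈ [1, 2, 3, 4], ∀ t : k, t ^ 4 = t →
      xU chevE8 k (chevE8.simple i) t ∈ D ∧ xU chevE8 k (chevE8.neg (chevE8.simple i)) t ∈ D)
    (h1 : ∀ g ∈ D, g * (nL chevE8 (xU chevE8 k) w1 * GeneralLinearGroup.map (frobenius k 2) g *
      (nL chevE8 (xU chevE8 k) w1)⁻¹) ∈ H₁)
    (h2 : ∀ g ∈ D, g * (nL chevE8 (xU chevE8 k) w2 * GeneralLinearGroup.map (frobenius k 2) g *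
      (nL chevE8 (xU chevE8 k) w2)⁻¹) ∈ H₂)
    [Finite H₁] (hc : ¬ 3 ^ 6 ∣ Nat.card H₁) (y : GL chevE8.Idx k) :
    ¬ ∀ x ∈ H₂, y * x * y⁻¹ ∈ H₁ := by
  intro hy
  have := Fact.mk Nat.prime_three
  let ε : Multiplicative (ZMod 3) ≃* zpowers ω :=
    mulEquivOfPrimeCardEq (p := 3) (by simp) ((Nat.card_zpowers ω).trans hω)
  let e : Multiplicative (ZMod 3) →* kˣ := (zpowers ω).subtype.comp ε.toMonoidHom
  have he : Function.Injective e := (subtype_injective _).comp ε.injective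
  have hu : nL chevE8 (xU chevE8 k) [1, 3] ∈ D := by
    rw [nL_cons, nL_cons, if_pos (by decide), if_pos (by decide)]
    exact mul_mem (nn_mem hD (by simp) (one_pow _))
      (mul_mem (nn_mem hD (by simp) (one_pow _)) (one_mem _))
  have hx := h1 _ hu
  have hx2 : nL chevE8 (xU chevE8 k) [1, 3] * (nL chevE8 (xU chevE8 k) w1 *
      GeneralLinearGroup.map (frobenius k 2) (nL chevE8 (xU chevE8 k) [1, 3]) *
        (nL chevE8 (xU chevE8 k) w1)⁻¹) = nL chevE8 (xU chevE8 k) wx := by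
    rw [map_nL_xU, inv_eq_of_mul_eq_one_right ((nL_append _ _ _).symm.trans (nL_eq_one w1_sq)),
      wx, nL_append, nL_append, nL_append]
  rw [hx2] at hx
  obtain ⟨h, w, h3⟩ := uniq hc (V := Multiplicative (Fin 4 → ZMod 3)) (by simp)
    (τ := tau e G1) (σ := (MulAut.conj y).toMonoidHom.comp (tau e G2)) (tau_inj e he i1)
    ((MulAut.conj y).injective.comp (tau_inj e he i2))
    (fun v => by rw [← tau_sig c1 g1 v]; exact h1 _ (tau_mem hD v))
    (fun v => hy _ (by rw [← tau_sig c2 g2 v]; exact h2 _ (tau_mem hD v)))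
    (x := nL chevE8 (xU chevE8 k) wx) hx
    (by rw [← nL_eq_one (k := k) wx_cube, nL_append, nL_append, pow_three'])
    (M := fun v => ofAdd (mt 4 4 MN *ᵥ toAdd v)) (fun v => by
      rw [tau_apply, tau_apply, nL_T8 e cx, toAdd_ofAdd, mulVec_mulVec, mulVec_mulVec, gx])
    (Nat.card_eq_fintype_card.trans_le gN) (ofAdd ![0, 1, 0, 1])
  have h4 := rank_tau e he G1 w
  rw [← h3, rank_conj, MonoidHom.comp_apply, MulEquiv.coe_toMonoidHom, MulAut.conj_apply,
    rank_conj, rank_tau e he, toAdd_ofAdd, n2] at h4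
  refine n1 (toAdd w 0) (toAdd w 1) (toAdd w 2) (toAdd w 3) ?_
  rw [show ![toAdd w 0, toAdd w 1, toAdd w 2, toAdd w 3] = toAdd w from
    funext fun i => by fin_cases i <;> rfl]
  exact h4.symm

end fin

theorem not_dvd_card {F : Type*} [Field F] [Fintype F] (hF : Fintype.card F = 4) :
    ¬ 3 ^ 6 ∣ Nat.card (Cfsg.Omega F (Cfsg.quadFormPlus 4 F)) := fun h => by
  have h1 := h.trans (card_subgroup_dvd_card _)
  rw [Cfsg.Agent.S0287.result hF 4 (by norm_num)] at h1
  revert h1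
  decide +kernel

end H53.O84
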