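/- Tower O84, chapter E: two non-conjugate subgroups `Ω₈⁺(4)` of `E₈(2)`. -/
import Cfsg.Agent.H53.O84E3
import Cfsg.Agent.H64.O84E4

set_option autoImplicit false

namespace H53.O84

theorem notConj : H64.O84.NotConj := fun om h D H₁ H₂ hD h1 h2 _ hc y =>
  not_conj om h D H₁ H₂ hD h1 h2 hc y

theorem jobE {F : Type*} [Field F] [Fintype F] (hF : Fintype.card F = 4) :
    H36.O84.TwoOm (Cfsg.Lie.chevE8.group (ZMod 2)) (Cfsg.Omega F (Cfsg.quadFormPlus 4 F)) :=
  H64.O84.twoOm_of_notConj (Nat.card_eq_fintype_card.trans hF) notConj (not_dvd_card hF)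

end H53.O84
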