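import Cfsg.Agent.H22.SimCP3
import Cfsg.Agent.H75.SimFR
import Cfsg.Agent.H62.SimBK
import Cfsg.Agent.H34.XARed
import Cfsg.Agent.H47.SimBI
import Cfsg.Agent.H4.SimA23
import Cfsg.Agent.H76.XAA2U
import Cfsg.Agent.H98.XaA4a
import Cfsg.Agent.H72.SimEMB
import Cfsg.Agent.H60.XaPT
import Cfsg.Agent.H81.SimXAPrt
import Cfsg.Agent.H93.SimSW
import Cfsg.Agent.H33.SimNCF
import Cfsg.Agent.H45.SimXAQF
import Cfsg.Agent.H38.SimT1
import Cfsg.Agent.H88.XAA1a
import Cfsg.Agent.H53.XaA1b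
import Cfsg.Agent.H15.XAA4b
import Cfsg.Agent.H10.SimU22
import Cfsg.Agent.H21.SimTH
import Cfsg.Agent.H95.SimRK
import Cfsg.Agent.H97.XABC
import Cfsg.Agent.H3.XAB1
import Cfsg.Agent.H31.SimXARP
import Cfsg.Agent.H59.SimXAUni
import Cfsg.Agent.H12.XANS
import Cfsg.Agent.H40.XAEnd
import Cfsg.Agent.H79.SimMK2
import Cfsg.Agent.H26.SimXACard
import Cfsg.Agent.H17.SimC22
import Cfsg.Agent.H42.SimXBFin
import Cfsg.Agent.H83.SimCP2
import Cfsg.Agent.H89.SimA24

/-! Tower SIM, chapter XA: assembly. -/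

set_option autoImplicit false

namespace H53.XA

theorem xa_of_cp3 (cp3 : CP3) : H0.Sim.JobXA := by
  have th := H21.SimTH.job
  have zs := H31.SimXARP.job.1
  have rp := H31.SimXARP.job.2
  have red := H34.XARed.job
  have bk := H62.SimBK.job red
  have rk := H95.SimRK.job
  have fr := H75.SimFR.job
  have emb := H72.SimEMB.job
  have pt := H60.XaPT.job
  have ns := H12.XAN.job zs
  have sw := H93.SimSW.jobSW fr
  have uni := H59.SimXAUni.job
  have card := H26.XA.jobCard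
  have prt := H81.SimXAPrt.job fr emb pt (H83.SimCP2.job uni) cp3 H17.SimC22.job
  have ncf := H33.SimNCF.job fr emb pt
  have bi := H47.SimBI.job th rp red bk rk
  exact xa_of rp bk bi (H88.XAA1a.job th rp red pt ns sw ncf) (jobA1b rk fr emb pt card)
    (H3.XAB1.jobB1 red bk rk) (H38.SimT1.job th rp red bi)
    (H15.XAA4b.job rp red ns (H98.XaA4a.jobA4a fr rk) card) (H79.SimMK2.jobMK2 rp red bk ns bi)
    (H45.SimXAQF.job rp bk fr emb uni) ncf
    (H76.XAA2U.job th rp red bk ns sw (H10.SimU22.job fr rk))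
    (H4.SimA23.job rp red bk H97.XABC.job rk pt)
    (H89.SimA24.jobA24 th rp red bk card bi prt (H40.XAEnd.job rp red ns bi))
    H42.SX.a3fin H42.SX.a5fin

theorem jobXA : H0.Sim.JobXA := xa_of_cp3 H22.SimCP3.job

end H53.XA
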