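import Cfsg.Agent.H53.SimXASpec

/-! Tower SIM, chapter XA: the order bound for two small blocks. -/

set_option autoImplicit false

namespace H53.XA

open Subgroup Cfsg H98 Matrix H0.Sim

theorem jobA1b : JA1b := by
  intro rk fr emb pt card n F _ _ u q H e fq ip e0 e1 hH hne h1 h2
  have cg : ∀ (f : Mt n F) (b : ℕ), Ip u q f → f.rank = b →
      Nat.card (Gf u q f) = Nat.card (Gam b F u q) := fun f b hf hb => by
    obtain ⟨P, P', hP⟩ := fr n F u q b f fq hf hb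
    obtain ⟨φ, -⟩ := emb n F u q b f P P' fq hP
    exact (Nat.card_congr φ.toEquiv).symm
  obtain ⟨ip', -, -, -, -, hc⟩ := pt n F u q e fq ip
  obtain ⟨q2, c3, c2⟩ := card F u q fq
  have r1 : e.rank ≠ 0 := fun h => e0 ((rk n F).2.2.2.1 e h)
  have r2 : (1 - e).rank ≠ 0 := fun h => e1 (sub_eq_zero.1 ((rk n F).2.2.2.1 _ h)).symm
  have hle := (card_le_of_le hH).trans hc
  have key : q ≤ 3 ∧ Nat.card H ≤ 11664 := by
    have A : ∀ a b : ℕ, e.rank = a → (1 - e).rank = b →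
        Nat.card H ≤ Nat.card (Gam a F u q) * Nat.card (Gam b F u q) := fun a b ha hb => by
      rwa [cg e a ip ha, cg _ b ip' hb] at hle
    unfold Sm at h1 h2
    rcases h1 with h1 | ⟨h1, k1⟩ | ⟨-, h1, k1⟩ <;> rcases h2 with h2 | ⟨h2, k2⟩ | ⟨-, h2, k2⟩
    · omega
    · exact ⟨k2, (A 1 2 (by omega) h2).trans ((Nat.mul_le_mul (c3 k2).1 (c3 k2).2).trans (by norm_num))⟩
    · exact ⟨by omega, (A 1 3 (by omega) h2).trans
        ((Nat.mul_le_mul (c3 (by omega)).1 (c2 k2).2).trans (by norm_num))⟩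
    · exact ⟨k1, (A 2 1 h1 (by omega)).trans ((Nat.mul_le_mul (c3 k1).2 (c3 k1).1).trans (by norm_num))⟩
    · omega
    · exact ⟨k1, (A 2 3 h1 h2).trans ((Nat.mul_le_mul (c2 k2).1 (c2 k2).2).trans (by norm_num))⟩
    · exact ⟨by omega, (A 3 1 h1 (by omega)).trans
        ((Nat.mul_le_mul (c2 k1).2 (c3 (by omega)).1).trans (by norm_num))⟩
    · exact ⟨k2, (A 3 2 h1 h2).trans ((Nat.mul_le_mul (c2 k1).2 (c2 k1).1).trans (by norm_num))⟩
    · omega
  intro r f hr hq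
  have hf : f ≤ 1 := by
    by_contra h
    have h4 : 2 ^ 2 ≤ r ^ f :=
      (Nat.pow_le_pow_left hr.two_le 2).trans (Nat.pow_le_pow_right hr.pos (by omega))
    omega
  have hz : 0 < Nat.card (Zg n F u q) := Nat.card_pos
  have := Nat.mul_le_mul key.2 (Nat.mul_le_mul_left 2 hf)
  omega

end H53.XA
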